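import Cfsg.Agent.Lib.LocalChar.ThreeSub
import Cfsg.Agent.Lib.Thompson.Elementary
import Cfsg.Prelude.Def_BaumannBlocks

/-! Baumann blocks: invariant `p`-subgroups normalise blocks. -/

set_option autoImplicit false
set_option linter.unusedSectionVars false
set_option linter.unusedSimpArgs false

open Subgroup
open scoped commutatorElement

namespace Cfsg.Agent.Lib.LocalChar.Baumann

variable {G : Type*} [Group G] [Finite G] {p : ℕ} [hp : Fact p.Prime]

/-- The elementary abelian subgroups of largest order inside `T`, for a Sylow subgroup `T`. -/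
theorem thompsonOf_sylow (T : Sylow p G) : Cfsg.thompsonSubgroupOf p (T : Subgroup G) =
    sSup {A | A ∈ Cfsg.maxElementaryAbelianSubgroups p G ∧ A ≤ (T : Subgroup G)} := by
  obtain ⟨A₀, hA₀, hle⟩ := Thompson.exists_maxElementary_le_sylow T
  exact Thompson.thompsonSubgroupOf_eq hA₀ hle

theorem thompsonOf_le_self (T : Subgroup G) : Cfsg.thompsonSubgroupOf p T ≤ T := map_subtype_le _

theorem cj_thompsonOf_le (g : G) (T T' : Sylow p G) (h : cj g (T : Subgroup G) ≤ T') :
    cj g (Cfsg.thompsonSubgroupOf p (T : Subgroup G)) ≤ Cfsg.thompsonSubgroupOf p (T' : Subgroup G) := by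
  rw [thompsonOf_sylow, thompsonOf_sylow, cj, map_le_iff_le_comap]
  refine sSup_le fun A hA => map_le_iff_le_comap.1 (le_sSup ?_)
  exact ⟨Thompson.map_mem_maxElementary (MulAut.conj g) hA.1, (cj_mono hA.2).trans h⟩

theorem omega_le_self (X : Subgroup G) : Cfsg.omegaOne p X ≤ X :=
  (closure_le X).2 fun _ hx => hx.1

theorem thompsonOf_le_baumann (T : Subgroup G) :
    Cfsg.thompsonSubgroupOf p T ≤ Cfsg.baumannSubgroupOf p T := by
  refine le_inf (thompsonOf_le_self T) fun a ha => mem_centralizer_iff.2 fun z hz => ?_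
  have h : z ∈ Cfsg.centerThompsonOf p T := omega_le_self _ hz
  exact (mem_centralizer_iff.1 h.2 a ha).symm

/-- The Baumann subgroup is weakly closed: it is normal in every `p`-subgroup containing it. -/
theorem le_nz_baumann (T : Sylow p G) {R : Subgroup G} (hR : IsPGroup p R)
    (h : Cfsg.baumannSubgroupOf p (T : Subgroup G) ≤ R) :
    R ≤ normalizer (Cfsg.baumannSubgroupOf p (T : Subgroup G) : Set G) := by
  obtain ⟨T', hRT⟩ := hR.exists_le_sylow
  obtain ⟨g, hg⟩ := MulAction.exists_smul_eq G T T'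
  have hgT : cj g (T : Subgroup G) = T' := by rw [← hg]; rfl
  set J := Cfsg.thompsonSubgroupOf p (T : Subgroup G)
  have hJT' : J ≤ T' := (thompsonOf_le_baumann _).trans (h.trans hRT)
  have hJJ : J ≤ Cfsg.thompsonSubgroupOf p (T' : Subgroup G) := by
    rw [thompsonOf_sylow T']
    have e : J = sSup {A | A ∈ Cfsg.maxElementaryAbelianSubgroups p G ∧ A ≤ (T : Subgroup G)} :=
      thompsonOf_sylow T
    rw [e] at hJT' ⊢
    exact sSup_le fun A hA => le_sSup ⟨hA.1, (le_sSup hA).trans hJT'⟩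
  have hgi : cj g⁻¹ (T' : Subgroup G) ≤ T := by
    rw [← hgT, cj_cj, inv_mul_cancel]
    exact cj_le_iff.2 fun x hx => by simpa using hx
  have hJeq : J = Cfsg.thompsonSubgroupOf p (T' : Subgroup G) :=
    eq_of_le_of_card_ge hJJ ((card_cj g⁻¹ _).ge.trans (card_le_of_le (cj_thompsonOf_le g⁻¹ T' T hgi)))
  have hgJ : g ∈ normalizer (J : Set G) :=
    mem_nz_of_cj_le ((cj_thompsonOf_le g T T' hgT.le).trans hJeq.ge)
  have hcen : ∀ {K : Subgroup G}, K ≤ normalizer (J : Set G) →
      K ≤ normalizer (centralizer (Cfsg.omegaOne p (Cfsg.centerThompsonOf p (T : Subgroup G)) : Set G) : Set G) :=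
    fun hK => le_nz_centralizer (le_nz_omegaOne (le_nz_inf hK (le_nz_centralizer hK)))
  have hB : Cfsg.baumannSubgroupOf p (T : Subgroup G) =
      (T' : Subgroup G) ⊓ centralizer (Cfsg.omegaOne p (Cfsg.centerThompsonOf p (T : Subgroup G)) : Set G) := by
    refine eq_of_le_of_card_ge (le_inf (h.trans hRT) inf_le_right) ?_
    rw [← card_cj g (Cfsg.baumannSubgroupOf p (T : Subgroup G))]
    refine card_le_of_le fun x hx => ?_
    obtain ⟨hx1, hx2⟩ := hx
    rw [mem_cj]
    refine ⟨?_, ?_⟩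
    · show g⁻¹ * x * g ∈ (T : Subgroup G)
      rw [← mem_cj, hgT]; exact hx1
    · have := conj_mem_of_nz (hcen (zpowers_le.2 hgJ) (inv_mem (mem_zpowers g))) hx2
      simpa using this
  refine le_trans hRT ?_
  rw [hB]
  refine le_nz_inf le_normalizer (hcen fun t ht => ?_)
  have := cj_thompsonOf_le t T' T' (cj_eq_of_mem_nz (le_normalizer ht)).le
  rw [← hJeq] at this
  exact mem_nz_of_cj_le this

/-- Elements of order prime to `p` in `E ⊔ R`, with `R` a `p`-group normalising `E`, lie in `E`. -/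
theorem mem_of_coprime_sup {E R : Subgroup G} (hR : IsPGroup p R) (hn : R ≤ normalizer (E : Set G))
    {x : G} (hx : x ∈ E ⊔ R) (ho : (orderOf x).Coprime p) : x ∈ E := by
  obtain ⟨a, ha, r, hr, rfl⟩ := (mem_sup_iff_of_nz' hn).1 hx
  set W := normalizer (E : Set G)
  have haW : a ∈ W := le_normalizer ha
  have : (E.subgroupOf W).Normal := normal_in_normalizer
  set f := QuotientGroup.mk' (E.subgroupOf W)
  let w : W := ⟨a, haW⟩ * ⟨r, hn hr⟩
  have hw : f w = f ⟨r, hn hr⟩ := by
    rw [map_mul, show f ⟨a, haW⟩ = 1 from (QuotientGroup.eq_one_iff (⟨a, haW⟩ : W)).2 ha, one_mul]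
  have h1 : ∃ k : ℕ, (f w) ^ p ^ k = 1 := by
    obtain ⟨k, hk⟩ := hR ⟨r, hr⟩
    refine ⟨k, ?_⟩
    rw [hw, ← map_pow, show (⟨r, hn hr⟩ : W) ^ p ^ k = 1 from Subtype.ext (by
      simpa using congrArg Subtype.val hk), map_one]
  have h2 : (f w) ^ orderOf (a * r) = 1 := by
    rw [← map_pow, show w ^ orderOf (a * r) = 1 from Subtype.ext (by
      simp [w, pow_orderOf_eq_one]), map_one]
  exact (QuotientGroup.eq_one_iff w).1 (eq_one_of_pow_coprime ho h1 h2)

/-- A subgroup generated by its `p'`-elements is normalised by `n` if their conjugates are in `E R`. -/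
theorem mem_nz_of_forall {E R : Subgroup G} (hE : resOf p E = E) (hR : IsPGroup p R)
    (hn : R ≤ normalizer (E : Set G)) {n : G}
    (h : ∀ x ∈ E, (orderOf x).Coprime p → n * x * n⁻¹ * x⁻¹ ∈ R) : n ∈ normalizer (E : Set G) := by
  refine mem_nz_of_cj_le ?_
  rw [cj, map_le_iff_le_comap]
  conv_lhs => rw [← hE]
  refine resOf_le_iff.2 fun x hx ho => ?_
  show n * x * n⁻¹ ∈ E
  refine mem_of_coprime_sup hR hn ?_ (by rw [orderOf_conj']; exact ho)
  have := (E ⊔ R).mul_mem (mem_sup_right (h x hx ho)) (mem_sup_left hx)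
  simpa [mul_assoc] using this

/-- A `p`-subgroup normalised by `B(T)` and by `E = [E, B(T)] = O^p(E)` normalises `E`. -/
theorem le_nz_of_invariant (T : Sylow p G) {E Q : Subgroup G} (hE : resOf p E = E)
    (hEB : ⁅E, Cfsg.baumannSubgroupOf p (T : Subgroup G)⁆ = E) (hQ : IsPGroup p Q)
    (hBQ : Cfsg.baumannSubgroupOf p (T : Subgroup G) ≤ normalizer (Q : Set G))
    (hEQ : E ≤ normalizer (Q : Set G)) : Q ≤ normalizer (E : Set G) := by
  set B := Cfsg.baumannSubgroupOf p (T : Subgroup G)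
  have hBE : B ≤ normalizer (E : Set G) := by
    have := right_le_nz_commutator E B
    rwa [hEB] at this
  have hBp : IsPGroup p B := T.2.to_le inf_le_left
  have hQB : Q ≤ normalizer (B : Set G) :=
    le_sup_left.trans (le_nz_baumann T (hQ.to_sup_of_normal_left' hBp hBQ) le_sup_right)
  set R := Q ⊓ normalizer (E : Set G)
  have hER : E ≤ normalizer (R : Set G) := le_nz_inf hEQ (le_normalizer.trans le_normalizer)
  have hBR : B ≤ normalizer (R : Set G) := le_nz_inf hBQ (hBE.trans le_normalizer)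
  have hQBR : ⁅Q, B⁆ ≤ R :=
    le_inf (commutator_le_left_of_nz hBQ) ((commutator_le_right_of_nz hQB).trans hBE)
  rcases (inf_le_left : R ≤ Q).eq_or_lt with e | hlt
  · exact e.symm.le.trans inf_le_right
  obtain ⟨u, hu, huR, hun⟩ := exists_mem_nz_of_lt hQ hlt
  set N := Q ⊓ normalizer (R : Set G)
  have hEN : E ≤ normalizer (N : Set G) := le_nz_inf hEQ (hER.trans le_normalizer)
  have key : ⁅⁅E, B⁆, N⁆ ≤ R := by
    refine three_subgroup_le hER hBR inf_le_right ?_ ?_
    · refine (commutator_mono ?_ le_rfl).trans (commutator_le_left_of_nz hER)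
      exact commutator_comm B N ▸ (commutator_mono inf_le_left le_rfl).trans hQBR
    · exact (commutator_mono ((commutator_le_left_of_nz hEN).trans inf_le_left) le_rfl).trans hQBR
  rw [hEB, commutator_comm] at key
  refine absurd ⟨hu, ?_⟩ huR
  refine mem_nz_of_forall hE (hQ.to_le inf_le_left) inf_le_right fun x hx _ => ?_
  exact key (commutator_mem_commutator ⟨hu, hun⟩ hx)

end Cfsg.Agent.Lib.LocalChar.Baumann
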