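import Mathlib
import Cfsg.Prelude.Def_BaumannBlocks
import Cfsg.Agent.Lib.SchurAlt.SL2
import Cfsg.Agent.Lib.LocalChar.Basic

/-! The natural modules of Baumann blocks are irreducible. -/

set_option autoImplicit false

open Matrix
open scoped commutatorElement

namespace Cfsg.Agent.Lib.LocalChar.Baumann

theorem sl2_addSubgroup_eq_top {F : Type*} [Field F] [Fintype F] (M : AddSubgroup (Fin 2 → F))
    (hM : ∀ g ∈ commutator (SpecialLinearGroup (Fin 2) F), ∀ x ∈ M,
      (g : Matrix (Fin 2) (Fin 2) F).mulVec x ∈ M)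
    {v : Fin 2 → F} (hv : v ∈ M) (hv0 : v ≠ 0) : M = ⊤ := by
  classical
  by_cases h4 : 4 ≤ Fintype.card F
  · have hg : ∀ g : SpecialLinearGroup (Fin 2) F, ∀ x ∈ M,
        (g : Matrix (Fin 2) (Fin 2) F).mulVec x - x ∈ M := fun g x hx =>
      M.sub_mem (hM g (by rw [SchurAlt.sl_perfect h4]; trivial) x hx) hx
    have up : ∀ x ∈ M, x 1 ≠ 0 → ∀ t : F, ![t, 0] ∈ M := by
      intro x hx h1 t
      have h := hg ⟨!![1, t / x 1; 0, 1], by simp [det_fin_two]⟩ x hx
      convert h using 1
      funext i; fin_cases i <;> simp [mulVec, dotProduct, Fin.sum_univ_two, h1]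
    have low : ∀ x ∈ M, x 0 ≠ 0 → ∀ t : F, ![0, t] ∈ M := by
      intro x hx h0 t
      have h := hg ⟨!![1, 0; t / x 0, 1], by simp [det_fin_two]⟩ x hx
      convert h using 1
      funext i; fin_cases i <;> simp [mulVec, dotProduct, Fin.sum_univ_two, h0]
    have hup : ∀ t : F, ![t, 0] ∈ M := by
      by_cases h1 : v 1 = 0
      · have h0 : v 0 ≠ 0 := fun h0 => hv0 (by funext i; fin_cases i <;> assumption)
        exact up _ (low v hv h0 1) (by simp)
      · exact up v hv h1
    have hlow : ∀ t : F, ![0, t] ∈ M := low _ (hup 1) (by simp)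
    refine eq_top_iff.2 fun x _ => ?_
    have : x = ![x 0, 0] + ![0, x 1] := by funext i; fin_cases i <;> simp
    rw [this]
    exact M.add_mem (hup _) (hlow _)
  · have hq : Fintype.card F = 2 ∨ Fintype.card F = 3 := by
      have := Fintype.one_lt_card (α := F)
      omega
    have hel : ∀ x : F, x = 0 ∨ x = 1 ∨ x = -1 := by
      intro x
      have h := FiniteField.pow_card x
      rcases hq with h2 | h3
      · rw [h2] at h
        have : x * (x - 1) = 0 := by linear_combination h
        rcases mul_eq_zero.1 this with e | e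
        · exact Or.inl e
        · exact Or.inr (Or.inl (sub_eq_zero.1 e))
      · rw [h3] at h
        have : x * ((x - 1) * (x + 1)) = 0 := by linear_combination h
        rcases mul_eq_zero.1 this with e | e
        · exact Or.inl e
        rcases mul_eq_zero.1 e with e | e
        · exact Or.inr (Or.inl (sub_eq_zero.1 e))
        · exact Or.inr (Or.inr (eq_neg_of_add_eq_zero_left e))
    have hsmul : ∀ (c : F), ∀ x ∈ M, c • x ∈ M := by
      intro c x hx
      rcases hel c with rfl | rfl | rfl
      · simp [M.zero_mem]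
      · simpa using hx
      · simpa using hx
    obtain ⟨u, hu⟩ : ∃ u : SpecialLinearGroup (Fin 2) F, (u : Matrix (Fin 2) (Fin 2) F) = !![1, 1; 0, 1] :=
      ⟨⟨!![1, 1; 0, 1], by simp [det_fin_two]⟩, rfl⟩
    obtain ⟨l, hl⟩ : ∃ u : SpecialLinearGroup (Fin 2) F, (u : Matrix (Fin 2) (Fin 2) F) = !![1, 0; 1, 1] :=
      ⟨⟨!![1, 0; 1, 1], by simp [det_fin_two]⟩, rfl⟩
    obtain ⟨g, hg⟩ : ∃ g : SpecialLinearGroup (Fin 2) F, g = u * l * u⁻¹ * l⁻¹ := ⟨_, rfl⟩
    have hc : (g : Matrix (Fin 2) (Fin 2) F) = !![3, -1; 1, 0] := by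
      rw [hg]
      show (u.1 * l.1 * adjugate u.1 * adjugate l.1 : Matrix (Fin 2) (Fin 2) F) = _
      rw [show u.1 = _ from hu, show l.1 = _ from hl, adjugate_fin_two_of, adjugate_fin_two_of, mul_fin_two,
        mul_fin_two, mul_fin_two]
      ext i j
      fin_cases i <;> fin_cases j <;> (simp; try ring)
    have hmem : g ∈ commutator (SpecialLinearGroup (Fin 2) F) := by
      rw [hg]
      have h := Subgroup.commutator_mem_commutator (Subgroup.mem_top u) (Subgroup.mem_top l)
      exact h
    have hw := hM _ hmem v hv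
    rw [hc] at hw
    set a := v 0 with ha
    set b := v 1 with hb
    have hd : a * a - 3 * a * b + b * b ≠ 0 := by
      have hne : a ≠ 0 ∨ b ≠ 0 := by
        by_contra h
        push Not at h
        exact hv0 (by funext i; fin_cases i; exacts [h.1, h.2])
      have h5 : (5 : F) ≠ 0 := by
        have hcast : ((Fintype.card F : ℕ) : F) = 0 := Nat.cast_card_eq_zero F
        intro h5
        rcases hq with h2 | h3
        · rw [h2] at hcast; push_cast at hcast
          exact one_ne_zero (α := F) (by linear_combination h5 - 2 * hcast)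
        · rw [h3] at hcast; push_cast at hcast
          exact one_ne_zero (α := F) (by linear_combination 2 * hcast - h5)
      rcases hel a with e | e | e <;> rcases hel b with e' | e' | e' <;>
        first
          | exact (hne.elim (fun h => h e) (fun h => h e')).elim
          | (rw [e, e']; ring_nf; first | exact h5 | exact one_ne_zero | exact neg_ne_zero.2 one_ne_zero)
    refine eq_top_iff.2 fun x _ => ?_
    set D := a * a - 3 * a * b + b * b
    have hx : x = ((x 0 * a - x 1 * (3 * a - b)) / D) • v +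
        ((x 1 * a - x 0 * b) / D) • (!![(3 : F), -1; 1, 0].mulVec v) := by
      funext i
      fin_cases i <;>
        simp [mulVec, dotProduct, Fin.sum_univ_two, ← ha, ← hb] <;> field_simp <;> ring
    rw [hx]
    exact M.add_mem (hsmul _ _ hv) (hsmul _ _ hw)

theorem even_addSubgroup_mem {k : ℕ} (hk : Odd k) (M : AddSubgroup (Fin k → ZMod 2))
    (hM : ∀ σ ∈ alternatingGroup (Fin k), ∀ x ∈ M, (fun i => x ((σ : Equiv.Perm (Fin k))⁻¹ i)) ∈ M)
    (heven : ∀ x ∈ M, ∑ i, x i = 0) {v : Fin k → ZMod 2} (hv : v ∈ M) (hv0 : v ≠ 0)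
    {w : Fin k → ZMod 2} (hw : ∑ i, w i = 0) : w ∈ M := by
  classical
  have h01 : ∀ z : ZMod 2, z = 0 ∨ z = 1 := by decide
  have h20 : (2 : ZMod 2) = 0 := by decide
  have hval : ∀ a b c : Fin k, a ≠ b → b ≠ c → a ≠ c →
      (Equiv.swap a b * Equiv.swap b c : Equiv.Perm (Fin k))⁻¹ a = c ∧
      (Equiv.swap a b * Equiv.swap b c : Equiv.Perm (Fin k))⁻¹ b = a ∧
      (Equiv.swap a b * Equiv.swap b c : Equiv.Perm (Fin k))⁻¹ c = b ∧
      ∀ t, t ≠ a → t ≠ b → t ≠ c → (Equiv.swap a b * Equiv.swap b c : Equiv.Perm (Fin k))⁻¹ t = t := by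
    intro a b c h1 h2 h3
    rw [_root_.mul_inv_rev, Equiv.swap_inv, Equiv.swap_inv]
    refine ⟨?_, ?_, ?_, fun t ta tb tc => ?_⟩ <;> simp only [Equiv.Perm.mul_apply]
    · rw [Equiv.swap_apply_left, Equiv.swap_apply_left]
    · rw [Equiv.swap_apply_right, Equiv.swap_apply_of_ne_of_ne h1 h3]
    · rw [Equiv.swap_apply_of_ne_of_ne h3.symm h2.symm, Equiv.swap_apply_right]
    · rw [Equiv.swap_apply_of_ne_of_ne ta tb, Equiv.swap_apply_of_ne_of_ne tb tc]
  let P : Fin k → Fin k → (Fin k → ZMod 2) := fun a b => Pi.single a 1 + Pi.single b 1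
  have hcyc : ∀ i j l : Fin k, i ≠ j → j ≠ l →
      (Equiv.swap i j * Equiv.swap j l : Equiv.Perm (Fin k)) ∈ alternatingGroup (Fin k) := by
    intro i j l h1 h2
    rw [Equiv.Perm.mem_alternatingGroup, map_mul, Equiv.Perm.sign_swap h1, Equiv.Perm.sign_swap h2]
    rfl
  obtain ⟨i, hi⟩ : ∃ i, v i = 1 := by
    by_contra h
    push Not at h
    exact hv0 (funext fun i => (h01 (v i)).resolve_right (h i))
  obtain ⟨j, hj⟩ : ∃ j, v j = 0 := by
    by_contra h
    push Not at h
    have := heven v hv
    rw [Finset.sum_congr rfl fun x _ => (h01 (v x)).resolve_left (h x)] at this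
    rw [Finset.sum_const, Finset.card_univ, Fintype.card_fin, nsmul_one,
      ZMod.natCast_eq_zero_iff_even] at this
    exact Nat.not_even_iff_odd.2 hk this
  have hij : i ≠ j := by rintro rfl; rw [hi] at hj; exact one_ne_zero hj
  obtain ⟨l, hli, hlj⟩ : ∃ l : Fin k, l ≠ i ∧ l ≠ j := by
    by_contra h
    push Not at h
    have hle : (Finset.univ : Finset (Fin k)) ⊆ {i, j} := fun x _ => by
      by_cases hx : x = i
      · simp [hx]
      · simp [h x hx]
    have h1 := Finset.card_le_card hle
    rw [Finset.card_univ, Fintype.card_fin, Finset.card_pair hij] at h1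
    have h2 : i.1 ≠ j.1 := fun e => hij (Fin.ext e)
    have := i.2; have := j.2
    obtain ⟨q, hq⟩ := hk
    omega
  have happ : ∀ (σ : Equiv.Perm (Fin k)), σ ∈ alternatingGroup (Fin k) → ∀ x ∈ M,
      (fun t => x (σ⁻¹ t) - x t) ∈ M := fun σ hσ x hx => M.sub_mem (hM σ hσ x hx) hx
  -- a vector of weight two
  obtain ⟨a, b, hab, hP⟩ : ∃ a b, a ≠ b ∧ P a b ∈ M := by
    have h := happ _ (hcyc i j l hij hlj.symm) v hv
    obtain ⟨e1, e2, e3, e4⟩ := hval i j l hij hlj.symm hli.symm
    rcases h01 (v l) with hl | hl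
    · refine ⟨i, j, hij, ?_⟩
      convert h using 1
      funext t
      simp only [P, Pi.add_apply, Pi.single_apply]
      by_cases h1 : t = i
      · rw [h1, e1, hl, hi]; simp [hij]
      · by_cases h2 : t = j
        · rw [h2, e2, hi, hj]; simp [hij.symm]
        · by_cases h3 : t = l
          · rw [h3, e3, hj, hl]; simp [hli, hlj]
          · rw [e4 t h1 h2 h3]; simp [h1, h2]
    · refine ⟨j, l, hlj.symm, ?_⟩
      convert h using 1
      funext t
      simp only [P, Pi.add_apply, Pi.single_apply]
      by_cases h1 : t = i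
      · rw [h1, e1, hl, hi]; simp [hij, hli.symm]
      · by_cases h2 : t = j
        · rw [h2, e2, hi, hj]; simp [hlj.symm]
        · by_cases h3 : t = l
          · rw [h3, e3, hj, hl]; simp [hlj]
          · rw [e4 t h1 h2 h3]; simp [h2, h3]
  have hall : ∀ c, c ≠ a → P a c ∈ M := by
    intro c hca
    by_cases hcb : c = b
    · exact hcb ▸ hP
    · have h := hM _ (hcyc a b c hab (Ne.symm hcb)) _ hP
      have h2 : P b c ∈ M := by
        convert h using 1
        funext t
        simp only [P, Pi.add_apply, Pi.single_apply]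
        obtain ⟨e1, e2, e3, e4⟩ := hval a b c hab (Ne.symm hcb) (Ne.symm hca)
        by_cases h1 : t = a
        · rw [h1, e1]; simp [hab, hca, hcb, Ne.symm hca]
        · by_cases h2 : t = b
          · rw [h2, e2]; simp [hab, Ne.symm hcb]
          · by_cases h3 : t = c
            · rw [h3, e3]; simp [hab.symm, hcb]
            · rw [e4 t h1 h2 h3]; simp [h1, h2, h3]
      convert M.add_mem hP h2 using 1
      funext t
      simp only [P, Pi.add_apply]
      linear_combination -(Pi.single (M := fun _ => ZMod 2) b 1 t) * h20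
  have hsum : w = ∑ c, if c = a then 0 else w c • P a c := by
    funext t
    rw [Finset.sum_apply]
    by_cases ht : t = a
    · subst ht
      rw [← Finset.sum_erase_add _ _ (Finset.mem_univ t), if_pos rfl, Pi.zero_apply, add_zero]
      rw [← Finset.sum_erase_add _ _ (Finset.mem_univ t)] at hw
      rw [Finset.sum_congr rfl fun c hc => show (if c = t then (0 : Fin k → ZMod 2) else w c • P t c) t = w c by
        rw [if_neg (Finset.mem_erase.1 hc).1]
        simp [P, Pi.single_apply, (Finset.mem_erase.1 hc).1.symm]]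
      linear_combination hw + (-(Finset.univ.erase t).sum w) * h20
    · rw [Finset.sum_eq_single t]
      · simp [P, Pi.single_apply, ht]
      · intro c _ hc
        by_cases hca : c = a
        · simp [hca]
        · simp [P, Pi.single_apply, hca, ht, Ne.symm hc]
      · simp
  rw [hsum]
  refine M.sum_mem fun c _ => ?_
  split_ifs with h
  · exact M.zero_mem
  · rcases h01 (w c) with e | e <;> simp [e, M.zero_mem, hall c h]

end Cfsg.Agent.Lib.LocalChar.Baumann
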