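import Cfsg.Agent.Lib.LocalChar.BaumannBlock
import Cfsg.Agent.Lib.LocalChar.BaumannIrred

/-! Basic facts on Baumann blocks in a group of characteristic `p`. -/

set_option autoImplicit false
set_option linter.unusedSectionVars false

open Subgroup
open scoped commutatorElement

namespace Cfsg.Agent.Lib.LocalChar.Baumann

variable {G : Type*} [Group G] [Finite G] {p : ℕ} [hp : Fact p.Prime]

theorem omegaOneCenter_le (X : Subgroup G) : Cfsg.omegaOneCenter p X ≤ X :=
  (omega_le_self _).trans inf_le_left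

theorem omegaOneCenter_le_centralizer (X : Subgroup G) :
    Cfsg.omegaOneCenter p X ≤ centralizer (X : Set G) :=
  (omega_le_self _).trans inf_le_right

theorem omegaOneCenter_elementary (X : Subgroup G) :
    Cfsg.IsElementaryAbelian p (Cfsg.omegaOneCenter p X) :=
  Thompson.isElementaryAbelian_closure
    (fun x hx y hy => (mem_centralizer_iff.1 hy.1.2 x hx.1.1)) (fun _ hx => hx.2)

theorem mem_omegaOneCenter {X : Subgroup G} {x : G} (hx : x ∈ X) (hc : x ∈ centralizer (X : Set G))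
    (hpow : x ^ p = 1) : x ∈ Cfsg.omegaOneCenter p X :=
  subset_closure ⟨⟨hx, hc⟩, hpow⟩

theorem le_nz_omegaOneCenter {N X : Subgroup G} (h : N ≤ normalizer (X : Set G)) :
    N ≤ normalizer (Cfsg.omegaOneCenter p X : Set G) :=
  le_nz_omegaOne (le_nz_inf h (le_nz_centralizer h))

theorem le_centralizer_of_iter {E U : Subgroup G} (hE : resOf p E = E) (hU : IsPGroup p U)
    (hEU : E ≤ normalizer (U : Set G)) (h : ⁅⁅U, E⁆, E⁆ = ⊥) : E ≤ centralizer (U : Set G) := by
  conv_lhs => rw [← hE]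
  exact resOf_le_iff.2 fun x hx ho => mem_centralizer_iff.2 fun a ha =>
    (commute_of_iter hx ho 2 hU hEU h a ha).symm.eq

/-- Invariant subgroups of a natural `SL₂`-section. -/
theorem sl2_dichotomy {F : Type} [Field F] [Fintype F] {E X X₀ U : Subgroup G}
    (h : Cfsg.ActsAsSL2OnSection F (commutator (Matrix.SpecialLinearGroup (Fin 2) F)) E X X₀)
    (hU : U ≤ X) (hEU : E ≤ normalizer (U : Set G)) : U ≤ X₀ ∨ X ≤ U ⊔ X₀ := by
  obtain ⟨-, -, ρ, ψ, hr, hs, hk, hact⟩ := h
  let M : AddSubgroup (Fin 2 → F) := Subgroup.toAddSubgroup' ((U.subgroupOf X).map ψ)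
  by_cases h0 : ∀ x ∈ M, x = 0
  · refine Or.inl fun u hu => ?_
    have := h0 (Multiplicative.toAdd (ψ ⟨u, hU hu⟩)) ⟨⟨u, hU hu⟩, hu, rfl⟩
    exact (hk ⟨u, hU hu⟩).1 (Multiplicative.toAdd.injective this)
  push Not at h0
  obtain ⟨v, hv, hv0⟩ := h0
  have hM : M = ⊤ := by
    refine sl2_addSubgroup_eq_top M (fun g hg x hx => ?_) hv hv0
    rw [← hr] at hg
    obtain ⟨e, rfl⟩ := hg
    obtain ⟨u, hu, hux⟩ := hx
    obtain ⟨w, hw, he⟩ := hact e u
    refine ⟨w, ?_, ?_⟩
    · show (w : G) ∈ U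
      rw [hw]; exact conj_mem_of_nz (hEU e.2) hu
    · have : Multiplicative.toAdd (ψ u) = x := congrArg Multiplicative.toAdd hux
      rw [this] at he
      exact Multiplicative.toAdd.injective he
  refine Or.inr fun x hx => ?_
  obtain ⟨u, hu, hux⟩ : Multiplicative.toAdd (ψ ⟨x, hx⟩) ∈ M := hM ▸ AddSubgroup.mem_top _
  have hz : (((u⁻¹ * ⟨x, hx⟩ : X) : X) : G) ∈ X₀ :=
    (hk _).1 (by rw [map_mul, map_inv, show ψ u = ψ ⟨x, hx⟩ from hux, inv_mul_cancel])
  have := (U ⊔ X₀).mul_mem (mem_sup_left (T := X₀) (show (u : G) ∈ U from hu)) (mem_sup_right hz)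
  simpa using this

/-- Invariant subgroups of an even-weight section. -/
theorem alt_dichotomy {k : ℕ} (hk' : Odd k) {E X X₀ U : Subgroup G}
    (h : Cfsg.ActsAsOddPermModuleOnSection k (alternatingGroup (Fin k)) E X X₀)
    (hU : U ≤ X) (hEU : E ≤ normalizer (U : Set G)) : U ≤ X₀ ∨ X ≤ U ⊔ X₀ := by
  obtain ⟨-, -, ρ, ψ, hr, hev, -, hk, hact⟩ := h
  let M : AddSubgroup (Fin k → ZMod 2) := Subgroup.toAddSubgroup' ((U.subgroupOf X).map ψ)
  by_cases h0 : ∀ x ∈ M, x = 0
  · refine Or.inl fun u hu => ?_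
    have := h0 (Multiplicative.toAdd (ψ ⟨u, hU hu⟩)) ⟨⟨u, hU hu⟩, hu, rfl⟩
    exact (hk ⟨u, hU hu⟩).1 (Multiplicative.toAdd.injective this)
  push Not at h0
  obtain ⟨v, hv, hv0⟩ := h0
  refine Or.inr fun x hx => ?_
  obtain ⟨u, hu, hux⟩ : Multiplicative.toAdd (ψ ⟨x, hx⟩) ∈ M := by
    refine even_addSubgroup_mem hk' M (fun g hg x hx => ?_) ?_ hv hv0 (hev _)
    · rw [← hr] at hg
      obtain ⟨e, rfl⟩ := hg
      obtain ⟨u, hu, hux⟩ := hx
      obtain ⟨w, hw, he⟩ := hact e u
      refine ⟨w, ?_, ?_⟩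
      · show (w : G) ∈ U
        rw [hw]; exact conj_mem_of_nz (hEU e.2) hu
      · have : Multiplicative.toAdd (ψ u) = x := congrArg Multiplicative.toAdd hux
        rw [this] at he
        exact Multiplicative.toAdd.injective (funext he)
    · rintro y ⟨u, -, hux⟩
      rw [← show Multiplicative.toAdd (ψ u) = y from congrArg Multiplicative.toAdd hux]
      exact hev u
  have hz : (((u⁻¹ * ⟨x, hx⟩ : X) : X) : G) ∈ X₀ :=
    (hk _).1 (by rw [map_mul, map_inv, show ψ u = ψ ⟨x, hx⟩ from hux, inv_mul_cancel])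
  have := (U ⊔ X₀).mul_mem (mem_sup_left (T := X₀) (show (u : G) ∈ U from hu)) (mem_sup_right hz)
  simpa using this

section Block

variable {T : Sylow p G} {E : Subgroup G}

local notation "Qe" => Cfsg.pCoreOf p E
local notation "We" => Cfsg.omegaOneCenter p (Cfsg.pCoreOf p E)
local notation "Q" => Cfsg.pCore p G
local notation "Vv" => Cfsg.omegaOneCenter p (Cfsg.pCore p G)

theorem block_res (hE : Cfsg.IsBaumannBlock p (T : Subgroup G) E) : resOf p E = E := hE.1

theorem block_B_le_nz (hE : Cfsg.IsBaumannBlock p (T : Subgroup G) E) :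
    Cfsg.baumannSubgroupOf p (T : Subgroup G) ≤ normalizer (E : Set G) := by
  have := right_le_nz_commutator E (Cfsg.baumannSubgroupOf p (T : Subgroup G))
  rwa [hE.2.1] at this

theorem le_nz_pCore (H : Subgroup G) : H ≤ normalizer (Q : Set G) := by
  haveI : (Q).Normal := pCore_normal
  exact le_normalizer_of_normal

theorem core_le_nz (hE : Cfsg.IsBaumannBlock p (T : Subgroup G) E) : Q ≤ normalizer (E : Set G) :=
  le_nz_of_invariant T hE.1 hE.2.1 pCore_isPGroup (le_nz_pCore _) (le_nz_pCore _)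

theorem block_dichotomy (hE : Cfsg.IsBaumannBlock p (T : Subgroup G) E) {U : Subgroup G} (hU : U ≤ We)
    (hEU : E ≤ normalizer (U : Set G)) :
    U ≤ We ⊓ centralizer (E : Set G) ∨ We ≤ U ⊔ (We ⊓ centralizer (E : Set G)) := by
  rcases hE.2.2.2.2 with ⟨F, _, _, n, -, -, h, -⟩ | ⟨-, m, -, h, -⟩
  · exact sl2_dichotomy h hU hEU
  · exact alt_dichotomy ⟨m, rfl⟩ h hU hEU

variable (hG : centralizer (Cfsg.pCore p G : Set G) ≤ Cfsg.pCore p G)
include hG

theorem omegaOneCenter_sylow_le :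
    Cfsg.omegaOneCenter p (T : Subgroup G) ≤ Vv := by
  refine (closure_le _).2 fun x hx => ?_
  have hc : x ∈ centralizer (Q : Set G) := centralizer_le (pCore_le_sylow T) hx.1.2
  exact mem_omegaOneCenter (hG hc) hc hx.2

theorem commutator_V_le_W (hE : Cfsg.IsBaumannBlock p (T : Subgroup G) E) : ⁅Vv, E⁆ ≤ We := by
  have hEV : E ≤ normalizer (Vv : Set G) := le_nz_omegaOneCenter (le_nz_pCore E)
  have hUV : ⁅Vv, E⁆ ≤ Vv := commutator_le_left_of_nz hEV
  have hUE : ⁅Vv, E⁆ ≤ E :=
    commutator_le_right_of_nz ((omegaOneCenter_le _).trans (core_le_nz hE))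
  have hUp : IsPGroup p (⁅Vv, E⁆ : Subgroup G) :=
    (Thompson.isPGroup_of_elementary (omegaOneCenter_elementary (Q))).to_le hUV
  have hEU : E ≤ normalizer ((⁅Vv, E⁆ : Subgroup G) : Set G) := right_le_nz_commutator _ _
  have hUQ : ⁅Vv, E⁆ ≤ Qe := le_pCoreOf hUE hEU hUp
  rcases hE.2.2.2.2 with ⟨F, _, _, n, hF, -, -, h | ⟨-, h, hQQ, -, hZ, hcard, -⟩⟩ | ⟨-, m, -, -, h⟩
  · exact hUQ.trans h.le
  · rcases sl2_dichotomy h hUQ hEU with h' | h'
    · exact h'
    exfalso
    have hab : ⁅Qe, Qe⁆ = ⊥ := by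
      rw [commutator_eq_bot_iff_le_centralizer]
      refine h'.trans (sup_le (fun u hu => mem_centralizer_iff.2 fun y hy => ?_)
        (omegaOneCenter_le_centralizer _))
      obtain ⟨v, hv, w, hw, rfl⟩ :=
        (mem_sup_iff_of_nz' (((omegaOneCenter_le_centralizer Qe).trans (centralizer_le hUQ)).trans
          (centralizer_le_normalizer _))).1 (h' hy)
      have hwu : w * u = u * w := (mem_centralizer_iff.1 (omegaOneCenter_le_centralizer _ hw) u (hUQ hu)).symm
      have hvu : v * u = u * v :=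
        Thompson.commute_of_elementary (omegaOneCenter_elementary (Q)) (hUV hv) (hUV hu)
      calc v * w * u = v * (w * u) := mul_assoc _ _ _
        _ = (v * u) * w := by rw [hwu, mul_assoc]
        _ = u * (v * w) := by rw [hvu, mul_assoc]
    rw [hQQ, ← hZ] at hab
    rw [hab] at hcard
    have hn : n = 0 := by
      rcases Nat.eq_zero_or_pos n with h0 | h0
      · exact h0
      · have := Nat.one_lt_pow h0.ne' (show 1 < 3 by norm_num)
        simp at hcard; omega
    rw [hn, pow_zero] at hF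
    exact absurd hF (Fintype.one_lt_card (α := F)).ne'
  · exact hUQ.trans h.le

theorem W_E_facts (hE : Cfsg.IsBaumannBlock p (T : Subgroup G) E) :
    ⁅We, E⁆ ≤ Vv ∧ ⁅⁅We, E⁆, E⁆ ≠ ⊥ := by
  have hEV : E ≤ normalizer (Vv : Set G) := le_nz_omegaOneCenter (le_nz_pCore E)
  have hVp : IsPGroup p (Vv : Subgroup G) := Thompson.isPGroup_of_elementary (omegaOneCenter_elementary (Q))
  have hUW := commutator_V_le_W hG hE
  have hWE : E ≤ normalizer (We : Set G) := le_nz_omegaOneCenter (le_nz_pCoreOf E)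
  have hnot : ⁅⁅Vv, E⁆, E⁆ ≠ ⊥ := fun h => hE.2.2.2.1 (commutator_eq_bot_iff_le_centralizer.2
    ((le_centralizer_of_iter hE.1 hVp hEV h).trans (centralizer_le (omegaOneCenter_sylow_le hG))))
  constructor
  · rcases block_dichotomy hE hUW (right_le_nz_commutator _ _) with h | h
    · exact absurd (commutator_eq_bot_iff_le_centralizer.2 (h.trans inf_le_right)) hnot
    · rw [commutator_le]
      intro x hx e he
      obtain ⟨u, hu, z, hz, rfl⟩ :=
        (mem_sup_iff_of_nz' ((inf_le_left.trans ((omegaOneCenter_le_centralizer Qe).trans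
          (centralizer_le (hUW.trans (omegaOneCenter_le _))))).trans (centralizer_le_normalizer _))).1 (h hx)
      have hzc : z * e = e * z := (mem_centralizer_iff.1 hz.2 e he).symm
      have : ⁅u * z, e⁆ = ⁅u, e⁆ := by
        simp only [commutatorElement_def, _root_.mul_inv_rev]
        calc u * z * e * (z⁻¹ * u⁻¹) * e⁻¹ = u * (z * e) * z⁻¹ * u⁻¹ * e⁻¹ := by group
          _ = u * e * u⁻¹ * e⁻¹ := by rw [hzc]; group
      rw [this]
      exact commutator_le_left_of_nz hEV (commutator_mem_commutator (commutator_le_left_of_nz hEV hu) he)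
  · intro h
    have hWp : IsPGroup p (We : Subgroup G) :=
      Thompson.isPGroup_of_elementary (omegaOneCenter_elementary _)
    have := le_centralizer_of_iter hE.1 hWp hWE h
    exact hnot (commutator_eq_bot_iff_le_centralizer.2
      (hUW.trans (le_centralizer_iff.1 this)))

theorem W_E_not_centralized (hE : Cfsg.IsBaumannBlock p (T : Subgroup G) E) :
    ⁅⁅We, E⁆, Cfsg.thompsonSubgroupOf p (T : Subgroup G)⁆ ≠ ⊥ := by
  intro h
  obtain ⟨hV, hne⟩ := W_E_facts hG hE
  set B := Cfsg.baumannSubgroupOf p (T : Subgroup G)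
  set J := Cfsg.thompsonSubgroupOf p (T : Subgroup G)
  have hcent : ⁅We, E⁆ ≤ centralizer (J : Set G) := commutator_eq_bot_iff_le_centralizer.1 h
  obtain ⟨A, hA, hAT⟩ := Thompson.exists_maxElementary_le_sylow T
  have hWA : ⁅We, E⁆ ≤ Cfsg.omegaOne p (Cfsg.centerThompsonOf p (T : Subgroup G)) := by
    intro x hx
    have hpow : x ^ p = 1 := (omegaOneCenter_elementary (Q)).2 x (hV hx)
    have hAJ : A ≤ J := by
      show A ≤ Cfsg.thompsonSubgroupOf p (T : Subgroup G)
      rw [thompsonOf_sylow]; exact le_sSup ⟨hA, hAT⟩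
    have hxA : x ∈ A := Thompson.mem_maxElementary_of_commute hA
      (fun a ha => mem_centralizer_iff.1 (hcent hx) a (hAJ ha)) hpow
    exact subset_closure ⟨⟨hAJ hxA, hcent hx⟩, hpow⟩
  have hBW : ⁅B, ⁅We, E⁆⁆ = ⊥ := commutator_eq_bot_iff_le_centralizer.2 fun b hb =>
    centralizer_le hWA hb.2
  have h2 : ⁅⁅⁅We, E⁆, E⁆, B⁆ = ⊥ := by
    rw [eq_bot_iff, ← (commutator_comm ⁅We, E⁆ B).trans hBW]
    exact commutator_mono (commutator_le_left_of_nz (right_le_nz_commutator _ _)) le_rfl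
  have h3 := commutator_commutator_eq_bot_of_rotate (H₁ := E) (H₂ := B) (H₃ := ⁅We, E⁆)
    (by rw [hBW, commutator_bot_left]) h2
  rw [hE.2.1, commutator_comm] at h3
  exact hne h3

/-- In the non-exceptional case the centraliser of `[W, E]` normalises the block. -/
theorem centralizer_le_nz (hE : Cfsg.IsBaumannBlock p (T : Subgroup G) E)
    (h : ⁅Q, E⁆ ≤ ⁅We, E⁆) : centralizer ((⁅We, E⁆ : Subgroup G) : Set G) ≤ normalizer (E : Set G) := by
  set W₁ := ⁅We, E⁆
  set C := centralizer (W₁ : Set G)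
  set B := Cfsg.baumannSubgroupOf p (T : Subgroup G)
  have hW1 : E ≤ normalizer (W₁ : Set G) := right_le_nz_commutator _ _
  have hEC : E ≤ normalizer (C : Set G) := le_nz_centralizer hW1
  have hBE : B ≤ normalizer (E : Set G) := block_B_le_nz hE
  have hBC : B ≤ normalizer (C : Set G) := le_nz_centralizer
    (le_nz_commutator (le_nz_omegaOneCenter (hBE.trans (nz_le_nz_pCoreOf E))) hBE)
  set K := ⁅E, C⁆
  have hKC : K ≤ C := commutator_le_right_of_nz hEC
  have hWV := (W_E_facts hG hE).1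
  have hQW : Q ≤ normalizer (W₁ : Set G) := by
    refine le_trans ?_ (centralizer_le_normalizer _)
    exact le_centralizer_iff.1 (hWV.trans (omegaOneCenter_le_centralizer _))
  have hkey : ⁅K, Q⁆ ≤ W₁ := by
    refine three_subgroup_le hW1 (centralizer_le_normalizer _) hQW ?_ ?_
    · exact (commutator_mono (commutator_le_right_of_nz (le_nz_pCore C)) le_rfl).trans h
    · refine (commutator_mono h le_rfl).trans ?_
      rw [commutator_eq_bot_iff_le_centralizer.2 (le_centralizer_iff.1 le_rfl)]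
      exact bot_le
  have hKp : IsPGroup p K := by
    refine (isPGroup_iff_forall_coprime K).2 fun x hx ho => ?_
    have hcomm : ∀ a ∈ (Q : Subgroup G), Commute x a := by
      refine commute_of_chain (B := W₁) pCore_isPGroup
        (fun a ha => conj_mem_of_nz (le_nz_pCore _ hx) ha) ho
        (fun b hb => (mem_centralizer_iff.1 (hKC hx) b hb).symm) fun a ha => ?_
      have e : a⁻¹ * (x * a * x⁻¹) = ⁅a⁻¹, x⁆ := by simp [commutatorElement_def, mul_assoc]
      rw [e]
      exact (commutator_comm K (Q)).ge.trans hkey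
        (commutator_mem_commutator (Subgroup.inv_mem _ ha) hx)
    have hxQ : x ∈ (Q : Subgroup G) := hG (mem_centralizer_iff.2 fun a ha => (hcomm a ha).eq.symm)
    exact eq_one_of_isPGroup_of_coprime pCore_isPGroup hxQ ho
  have hKE : K ≤ normalizer (E : Set G) :=
    le_nz_of_invariant T hE.1 hE.2.1 hKp (le_nz_commutator hBE hBC) (left_le_nz_commutator E C)
  intro c hc
  refine mem_nz_of_forall hE.1 hKp hKE fun x hx _ => ?_
  exact (commutator_comm C E).le (commutator_mem_commutator hc hx)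

end Block

end Cfsg.Agent.Lib.LocalChar.Baumann
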