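import Cfsg.Agent.Lib.LocalChar.BlockQ8
import Cfsg.Agent.Lib.Coprime.Action

/-! Two blocks whose commutator lies in `O_p(G)` are equal or commute. -/

set_option autoImplicit false
set_option linter.unusedSectionVars false
set_option maxHeartbeats 1000000

open Subgroup
open scoped commutatorElement

namespace Cfsg.Agent.Lib.LocalChar.Baumann

variable {G : Type*} [Group G] [Finite G] {p : ℕ} [hp : Fact p.Prime]

local notation "Q" => Cfsg.pCore p G
local notation "Vv" => Cfsg.omegaOneCenter p (Cfsg.pCore p G)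

theorem inf_pCore_le {E : Subgroup G} : E ⊓ Q ≤ Cfsg.pCoreOf p E :=
  le_pCoreOf inf_le_left (le_nz_inf le_normalizer (le_nz_pCore E)) (pCore_isPGroup.to_le inf_le_right)

theorem odd_pow_neg {TT : Subgroup G} {t s : G} (ht : t ∈ normalizer (TT : Set G)) (htt : t * t ∈ TT)
    (h : t⁻¹ * s ∈ TT) {n : ℕ} (hn : Odd n) : t⁻¹ * s ^ n ∈ TT := by
  have hss : s * s ∈ TT := by
    have := mul_mem (mul_mem (conj_mem_of_nz ht h) htt) h
    convert this using 1; group
  obtain ⟨j, rfl⟩ := hn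
  rw [show 2 * j + 1 = 1 + 2 * j by ring, pow_add, pow_one, pow_mul, pow_two, ← mul_assoc]
  exact mul_mem h (pow_mem hss j)

theorem coprime_pow_mem {x : G} : ∃ k : ℕ, (orderOf (x ^ p ^ k)).Coprime p := by
  obtain ⟨k, m, hm', he⟩ := Nat.exists_eq_pow_mul_and_not_dvd (orderOf_pos x).ne' p hp.out.ne_one
  refine ⟨k, ?_⟩
  rw [orderOf_pow' _ (pow_ne_zero _ hp.out.ne_zero), he, Nat.gcd_eq_right (Dvd.intro m rfl),
    Nat.mul_div_cancel_left _ (pow_pos hp.out.pos k)]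
  exact coprime_of_not_dvd hm'

theorem exc_data {T : Sylow p G} {E : Subgroup G} (hE : Cfsg.IsBaumannBlock p (T : Subgroup G) E)
    (hne : Cfsg.pCoreOf p E ≠ bW p E) :
    p = 3 ∧ ∃ (F : Type) (_ : Field F) (_ : Fintype F), (2 : F) ≠ 0 ∧
      Nonempty (↥E ⧸ Cfsg.pCore p ↥E ≃* ↥(commutator (Matrix.SpecialLinearGroup (Fin 2) F))) ∧
      Cfsg.ActsAsSL2OnSection F (commutator (Matrix.SpecialLinearGroup (Fin 2) F)) E (bW p E) (bZ p E) ∧
      Cfsg.ActsAsSL2OnSection F (commutator (Matrix.SpecialLinearGroup (Fin 2) F)) E (Cfsg.pCoreOf p E) (bW p E) ∧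
      ⁅Cfsg.pCoreOf p E, Cfsg.pCoreOf p E⁆ = bZ p E ∧
      (frattini ↥(Cfsg.pCoreOf p E)).map (Cfsg.pCoreOf p E).subtype = bZ p E ∧
      E ⊓ centralizer (E : Set G) = bZ p E ∧
      ∀ b : G, b ∈ Cfsg.baumannSubgroupOf p (T : Subgroup G) → b ∉ centralizer (bW p E : Set G) →
        ¬ ⁅⁅Cfsg.pCoreOf p E, zpowers b⁆, zpowers b⁆ ≤ E ⊓ centralizer (E : Set G) := by
  rcases hE.2.2.2.2 with ⟨F, i1, i2, n, hc, hiso, hact, h | ⟨hp3, h2, hcc, hfr, hEZ, -, hnq⟩⟩ | ⟨-, m, -, -, h⟩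
  · exact absurd h hne
  · exact ⟨hp3, F, i1, i2, two_ne_zero_of_card hc (by omega), hiso, hact, h2, hcc, hfr, hEZ, hnq⟩
  · exact absurd h hne

variable (hG : centralizer (Cfsg.pCore p G : Set G) ≤ Cfsg.pCore p G)
variable {TE TF : Sylow p G} {E F : Subgroup G}
  (hE : Cfsg.IsBaumannBlock p (TE : Subgroup G) E) (hF : Cfsg.IsBaumannBlock p (TF : Subgroup G) F)
  (hEs : E.IsSubnormal) (hFs : F.IsSubnormal)

section One

include hE

theorem comm_Q_le : ⁅Q, E⁆ ≤ Cfsg.pCoreOf p E := by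
  refine le_trans (le_inf ?_ ?_) inf_pCore_le
  · exact commutator_le_right_of_nz (core_le_nz hE)
  · exact commutator_le_left_of_nz (le_nz_pCore E)

theorem eq_of_le_sup {F : Subgroup G} (hFF : resOf p F = F) (h : F ≤ E ⊔ Q) : F ≤ E := by
  conv_lhs => rw [← hFF]
  exact resOf_le_iff.2 fun x hx ho => mem_of_coprime_sup pCore_isPGroup (core_le_nz hE) (h hx) ho

theorem mem_nz_of_image {g : G} (h : cj g E ≤ E ⊔ Q) : g ∈ normalizer (E : Set G) := by
  refine mem_nz_of_cj_le (eq_of_le_sup hE ?_ h)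
  rw [← bcj_resOf, block_res hE]

end One

include hG

section Small

include hE

/-- Generators of a block with `|E / O_p(E)| = 3`. -/
theorem smallC_facts (hs : SmallC p E) :
    Cfsg.pCoreOf p E = bW p E ∧ bW1 p E = bW p E ∧
    ∃ x ∈ E, (orderOf x).Coprime p ∧ (∀ e ∈ E, ⁅x, e⁆ ∈ Cfsg.pCoreOf p E) ∧ x ∉ trivOn (bW p E) (bZ p E) ∧
      (∀ e ∈ E, ∃ i : ℕ, (x ^ i)⁻¹ * e ∈ Cfsg.pCoreOf p E) ∧
      (∀ a ∈ bW p E, a ≠ 1 → ∀ w ∈ bW p E, w = 1 ∨ w = a ∨ w = x * a * x⁻¹ ∨ w = a * (x * a * x⁻¹)) ∧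
      Nat.card (bW1 p E) = 4 := by
  obtain ⟨hp2, hc⟩ := hs
  have hQW : Cfsg.pCoreOf p E = bW p E := by
    by_contra h
    exact absurd (exc_data hE h).1 (by omega)
  have hW1 : bW1 p E = bW p E := by
    have := hE.2.2.1
    rw [hQW] at this
    exact this
  have : Fact (Nat.Prime 3) := ⟨Nat.prime_three⟩
  obtain ⟨y, hy⟩ : ∃ y : ↥E ⧸ Cfsg.pCore p ↥E, y ≠ 1 := by
    have : Nontrivial (↥E ⧸ Cfsg.pCore p ↥E) := Finite.one_lt_card_iff_nontrivial.1 (by omega)
    exact exists_ne 1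
  obtain ⟨y₀, rfl⟩ := QuotientGroup.mk_surjective y
  have hy3 : (y₀ : G) ^ 3 ∈ Cfsg.pCoreOf p E := by
    rw [← Subgroup.coe_pow, mem_pCoreOf_iff, ← QuotientGroup.eq_one_iff, QuotientGroup.mk_pow, ← hc]
    exact pow_card_eq_one'
  obtain ⟨x, hx, ho, hxy⟩ := coprime_rep (p := p) y₀.2 (n := 3) (by rw [hp2]; norm_num) hy3
  have hxm : (QuotientGroup.mk (⟨x, hx⟩ : ↥E) : ↥E ⧸ Cfsg.pCore p ↥E) = QuotientGroup.mk y₀ := by
    rw [QuotientGroup.eq, ← mem_pCoreOf_iff]
    exact hxy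
  have hgen : ∀ e ∈ E, ∃ i : ℕ, (x ^ i)⁻¹ * e ∈ Cfsg.pCoreOf p E := by
    intro e he
    have hm := mem_powers_of_prime_card (g' := (QuotientGroup.mk (⟨e, he⟩ : ↥E) : ↥E ⧸ Cfsg.pCore p ↥E)) hc hy
    obtain ⟨i, hi⟩ := Submonoid.mem_powers_iff _ _ |>.1 hm
    refine ⟨i, ?_⟩
    rw [← hxm, ← QuotientGroup.mk_pow, QuotientGroup.eq, ← mem_pCoreOf_iff] at hi
    exact hi
  have hcen : ∀ e ∈ E, ⁅x, e⁆ ∈ Cfsg.pCoreOf p E := by
    intro e he
    have : IsMulCommutative (↥E ⧸ Cfsg.pCore p ↥E) := (isCyclic_of_prime_card hc).isMulCommutative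
    rw [show ⁅x, e⁆ = ((⁅(⟨x, hx⟩ : ↥E), ⟨e, he⟩⁆ : ↥E) : G) from rfl, mem_pCoreOf_iff, ← QuotientGroup.eq_one_iff]
    exact (map_commutatorElement (QuotientGroup.mk' _) _ _).trans (commutatorElement_eq_one_iff_mul_comm.2 (mul_comm' _ _))
  have hnt : x ∉ trivOn (bW p E) (bZ p E) := by
    intro h
    apply W1_not_le_Z hG hE
    rw [commutator_le]
    intro w hw e he
    obtain ⟨i, hi⟩ := hgen e he
    have := (mul_mem (pow_mem h i) (Qe_le_trivOn_W E hi)).2.2 w hw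
    rw [mul_inv_cancel_left] at this
    rw [show ⁅w, e⁆ = (e * w * e⁻¹ * w⁻¹)⁻¹ by rw [commutatorElement_def]; group]
    exact inv_mem this
  obtain ⟨hfix, -, -⟩ := W1_facts hG hE hx ho hcen hnt
  rw [hW1] at hfix
  have hxnz : x ∈ normalizer (bW p E : Set G) := E_le_nz_W E hx
  have hsq : ∀ w ∈ bW p E, w * w = 1 := fun w hw => by
    rw [← pow_two, ← hp2]; exact (omegaOneCenter_elementary (p := p) (Cfsg.pCoreOf p E)).2 w hw
  have hcm := bW_comm (p := p) E
  have key : ∀ a ∈ bW p E, a ≠ 1 → ∀ w ∈ bW p E, w = 1 ∨ w = a ∨ w = x * a * x⁻¹ ∨ w = a * (x * a * x⁻¹) := by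
    intro a ha ha1
    set b := x * a * x⁻¹ with hb'
    have hb : b ∈ bW p E := conj_mem_of_nz hxnz ha
    let U : Subgroup G :=
      { carrier := {w | w = 1 ∨ w = a ∨ w = b ∨ w = a * b}
        one_mem' := Or.inl rfl
        mul_mem' := by
          have eab : b * a = a * b := hcm _ hb _ ha
          have e1 : a * (a * b) = b := by rw [← mul_assoc, hsq a ha, one_mul]
          have e2 : b * (a * b) = a := by rw [← mul_assoc, eab, mul_assoc, hsq b hb, mul_one]
          have e3 : a * b * a = b := by rw [mul_assoc, eab, e1]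
          have e4 : a * b * b = a := by rw [mul_assoc, hsq b hb, mul_one]
          have e5 : a * b * (a * b) = 1 := by rw [← mul_assoc, e3, hsq b hb]
          rintro u v (h1 | h1 | h1 | h1) (h2 | h2 | h2 | h2) <;> rw [h1, h2] <;>
            simp [eab, e1, e2, e3, e4, e5, hsq a ha, hsq b hb]
        inv_mem' := by
          intro u hu
          have huW : u ∈ bW p E := by rcases hu with rfl | rfl | rfl | rfl; exacts [one_mem _, ha, hb, mul_mem ha hb]
          rw [inv_eq_of_mul_eq_one_right (hsq u huW)]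
          exact hu }
    have hUW : U ≤ bW p E := by
      rintro u (rfl | rfl | rfl | rfl); exacts [one_mem _, ha, hb, mul_mem ha hb]
    have hxU : x ∈ normalizer (U : Set G) := by
      refine mem_nz_of_cj_le (cj_le_iff.2 ?_)
      set c := x * b * x⁻¹
      have hc' : c ∈ bW p E := conj_mem_of_nz hxnz hb
      have hd : x * c * x⁻¹ = a := by
        have h3 : x ^ 3 ∈ Cfsg.pCoreOf p E := by
          rw [show x = ((⟨x, hx⟩ : ↥E) : G) from rfl, ← Subgroup.coe_pow, mem_pCoreOf_iff,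
            ← QuotientGroup.eq_one_iff, QuotientGroup.mk_pow, ← hc]
          exact pow_card_eq_one'
        have := mem_centralizer_iff.1 (omegaOneCenter_le_centralizer _ ha) _ h3
        calc x * c * x⁻¹ = x ^ 3 * a * (x ^ 3)⁻¹ := by simp only [c, hb', pow_succ, pow_zero, one_mul]; group
          _ = a := by rw [this]; group
      have hsum : a * b * c = 1 := by
        refine hfix _ (mul_mem (mul_mem ha hb) hc') ?_
        calc x * (a * b * c) * x⁻¹ = b * c * (x * c * x⁻¹) := by simp only [c, hb']; group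
          _ = a * (b * c) := by rw [hd, hcm _ (mul_mem hb hc') _ ha]
          _ = a * b * c := (mul_assoc _ _ _).symm
      have hcab : c = a * b := by
        rw [← mul_right_inj (a * b), hsum]
        exact (hsq _ (mul_mem ha hb)).symm
      rintro u (rfl | rfl | rfl | rfl)
      · exact Or.inl (by group)
      · exact Or.inr (Or.inr (Or.inl rfl))
      · exact Or.inr (Or.inr (Or.inr hcab))
      · refine Or.inr (Or.inl ?_)
        rw [show x * (a * b) * x⁻¹ = b * c by simp only [c, hb']; group, hcab, ← mul_assoc, hcm _ hb _ ha,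
          mul_assoc, hsq b hb, mul_one]
    have hEU : E ≤ normalizer (U : Set G) := by
      intro e he
      obtain ⟨i, hi⟩ := hgen e he
      have hq : (x ^ i)⁻¹ * e ∈ normalizer (U : Set G) := by
        refine centralizer_le_normalizer _ (mem_centralizer_iff.2 fun u hu => ?_)
        exact (mem_centralizer_iff.1 (omegaOneCenter_le_centralizer _ (hUW hu)) _ hi).symm
      have := mul_mem (pow_mem hxU i) hq
      rwa [mul_inv_cancel_left] at this
    have hZ1 : bZ p E = ⊥ := by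
      rw [eq_bot_iff]
      exact fun z hz => mem_bot.2 (hfix z hz.1 (by rw [mem_centralizer_iff.1 hz.2 x hx]; group))
    rcases block_dichotomy hE hUW hEU with h | h
    · exact absurd (mem_bot.1 (hZ1 ▸ h (Or.inr (Or.inl rfl)))) ha1
    · intro w hw
      have h' : bW p E ≤ U := h.trans (sup_le le_rfl (le_of_eq_of_le hZ1 bot_le))
      exact h' hw
  refine ⟨hQW, hW1, x, hx, ho, hcen, hnt, hgen, key, ?_⟩
  rw [hW1]
  obtain ⟨a, ha, ha1⟩ : ∃ a ∈ bW p E, a ≠ 1 := by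
    by_contra h
    push Not at h
    exact W_not_le_Z hG hE fun w hw => by rw [h w hw]; exact one_mem _
  have hba : x * a * x⁻¹ ≠ a := fun e => ha1 (hfix a ha e)
  classical
  have : Fintype (bW p E) := Fintype.ofFinite _
  rw [Nat.card_eq_fintype_card]
  have hb : x * a * x⁻¹ ∈ bW p E := conj_mem_of_nz hxnz ha
  have hset : (Finset.univ : Finset (bW p E)) = {1, ⟨a, ha⟩, ⟨_, hb⟩, ⟨_, mul_mem ha hb⟩} := by
    refine (Finset.eq_univ_of_forall fun w => ?_).symm
    simp only [Finset.mem_insert, Finset.mem_singleton, Subtype.ext_iff]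
    exact key a ha ha1 w w.2
  have n1 : x * a * x⁻¹ ≠ 1 := fun e => ha1 (conj_eq_one_iff.1 e)
  have n2 : a * (x * a * x⁻¹) ≠ 1 := fun e => hba (by
    have := congrArg (a * ·) e
    simp only [← mul_assoc, hsq a ha, one_mul, mul_one] at this
    exact this)
  have n3 : a * (x * a * x⁻¹) ≠ a := fun e => n1 (mul_eq_left.1 e)
  have n4 : a * (x * a * x⁻¹) ≠ x * a * x⁻¹ := fun e => ha1 (mul_eq_right.1 e)
  rw [← Finset.card_univ, hset, Finset.card_insert_of_notMem, Finset.card_insert_of_notMem,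
    Finset.card_insert_of_notMem, Finset.card_singleton] <;>
    simp [Subtype.ext_iff, ha1.symm, n1.symm, n2.symm, n3.symm, n4.symm, hba.symm]

theorem smallQ_facts (hs : SmallQ p E) :
    ∃ (F : Type) (_ : Field F) (_ : Fintype F), Fintype.card F = 3 ∧ (2 : F) ≠ 0 ∧
      Nonempty (↥E ⧸ Cfsg.pCore p ↥E ≃* ↥(commutator (Matrix.SpecialLinearGroup (Fin 2) F))) ∧
      Cfsg.ActsAsSL2OnSection F (commutator (Matrix.SpecialLinearGroup (Fin 2) F)) E (bW p E) (bZ p E) ∧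
      ∃ t ∈ ⁅E, E⁆, (orderOf t).Coprime p ∧ t ∉ Cfsg.pCoreOf p E ∧ t * t ∈ Cfsg.pCoreOf p E := by
  obtain ⟨hp3, F, i1, i2, hq, hiso, hact⟩ := hs
  have h2 : (2 : F) ≠ 0 := two_ne_zero_of_card (p := p) (n := 1) (by rw [hq, hp3, pow_one]) (by omega)
  exact ⟨F, i1, i2, hq, h2, hiso, hact, exists_t h2 (by omega) hiso hact (Qe_le_trivOn_W E)⟩

/-- An element inverting `W / Z` inverts `[W, E]`. -/
theorem neg_W1 {F : Type} [Field F] [Fintype F] (h2 : (2 : F) ≠ 0)
    (hiso : Nonempty (↥E ⧸ Cfsg.pCore p ↥E ≃* ↥(commutator (Matrix.SpecialLinearGroup (Fin 2) F))))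
    (hact : Cfsg.ActsAsSL2OnSection F (commutator (Matrix.SpecialLinearGroup (Fin 2) F)) E (bW p E) (bZ p E))
    {t : G} (ht : t ∈ E) (ho : (orderOf t).Coprime p) (htn : t ∉ Cfsg.pCoreOf p E)
    (htt : t * t ∈ Cfsg.pCoreOf p E) :
    (∀ w ∈ bW1 p E, t * w * t⁻¹ = w⁻¹) ∧ (∀ w ∈ bW1 p E, t * w * t⁻¹ = w → w = 1) ∧
    (∀ w ∈ bW1 p E, w ∈ centralizer (E : Set G) → w = 1) ∧
      Nat.card (bW1 p E) = (bZ p E).relIndex (bW p E) := by
  obtain ⟨hneg, hcen⟩ := t_facts h2 hiso hact (Qe_le_trivOn_W E) ht htn htt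
  have hnt : t ∉ trivOn (bW p E) (bZ p E) := by
    intro h
    refine W_not_le_Z hG hE fun w hw => ?_
    have h1 := mul_mem (inv_mem (h.2.2 w hw)) (hneg w hw)
    have h2' : w * w ∈ bZ p E := by convert h1 using 1; group
    obtain ⟨k, hk⟩ : Odd p := hp.out.odd_of_ne_two fun hp2 => by
      obtain ⟨m, hm⟩ := IsPGroup.iff_card.1 (bW_isPGroup (p := p) E)
      have hd := hm ▸ relIndex_dvd_card (bZ p E) (bW p E)
      rw [layer_index hiso hact (Qe_le_trivOn_W E), hp2] at hd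
      obtain ⟨j, -, hj⟩ := (Nat.dvd_prime_pow Nat.prime_two).1 ((dvd_pow_self (Fintype.card F) two_ne_zero).trans hd)
      have : ((Fintype.card F : ℕ) : F) = 0 := Nat.cast_card_eq_zero F
      rw [hj, Nat.cast_pow] at this
      exact h2 (by exact_mod_cast eq_zero_of_pow_eq_zero this)
    have hwp : w ^ p = 1 := (omegaOneCenter_elementary (p := p) (Cfsg.pCoreOf p E)).2 w hw
    have : w = ((w * w) ^ k)⁻¹ := by
      rw [eq_inv_iff_mul_eq_one, ← pow_two, ← pow_mul, ← pow_succ', ← hk, hwp]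
    rw [this]
    exact (inv_mem (pow_mem h2' k) : _ ∈ bZ p E).2
  obtain ⟨h1, h3, h4⟩ := W1_facts hG hE ht ho hcen hnt
  refine ⟨fun w hw => ?_, h1, h3, h4⟩
  have hm : t * w * t⁻¹ * w ∈ bW1 p E := mul_mem (conj_mem_of_nz (nz_le_nz_W1 E (le_normalizer ht)) hw) hw
  exact eq_inv_of_mul_eq_one_left (h3 _ hm (hneg w (bW1_le_W E hw)).2)

end Small

include hE hF hEs hFs

theorem caseA (hFnE : F ≤ normalizer (E : Set G)) (hQ : ⁅E, F⁆ ≤ Q) (h : ⁅bW1 p E, F⁆ ≠ ⊥) :
    bW1 p F ≤ bW1 p E := by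
  have hFn1 : F ≤ normalizer (bW1 p E : Set G) := hFnE.trans (nz_le_nz_W1 E)
  set Y := ⁅bW1 p E, F⁆
  have hY1 : Y ≤ bW1 p E := commutator_le_left_of_nz hFn1
  have hYW : Y ≤ bW p F := (commutator_mono (W_E_facts hG hE).1 le_rfl).trans (commutator_V_le_W hG hF)
  rcases block_dichotomy hF hYW (right_le_nz_commutator _ _) with h' | h'
  · exfalso
    have := le_centralizer_of_iter hF.1 ((bW_isPGroup E).to_le (bW1_le_W E)) hFn1
      (commutator_eq_bot_iff_le_centralizer.2 (h'.trans inf_le_right))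
    exact h (commutator_eq_bot_iff_le_centralizer.2 (le_centralizer_iff.1 this))
  · show ⁅bW p F, F⁆ ≤ bW1 p E
    rw [commutator_le]
    intro x hx f hf
    obtain ⟨a, ha, z, hz, rfl⟩ := (mem_sup_iff_of_nz' (A := Y) (B := bZ p F)
      ((inf_le_left.trans (le_of_eq rfl)).trans (fun z hz => centralizer_le_normalizer _
        (mem_centralizer_iff.2 fun y hy => bW_comm F y (hYW hy) z hz)))).1 (h' hx)
    have : ⁅a * z, f⁆ = ⁅a, f⁆ := by
      have hzf : f * z = z * f := mem_centralizer_iff.1 hz.2 f hf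
      simp only [commutatorElement_def]
      calc a * z * f * (a * z)⁻¹ * f⁻¹ = a * (z * f) * z⁻¹ * a⁻¹ * f⁻¹ := by group
        _ = _ := by rw [← hzf]; group
    rw [this]
    exact commutator_le_left_of_nz hFn1 (commutator_mem_commutator (hY1 ha) hf)

theorem caseA_absurd (hEnF : E ≤ normalizer (F : Set G)) (hFnE : F ≤ normalizer (E : Set G))
    (hQ : ⁅E, F⁆ ≤ Q) (h : ⁅bW1 p E, F⁆ ≠ ⊥) : ⁅bW1 p F, E⁆ ≠ ⊥ := by
  intro h'
  have hFn1 : F ≤ normalizer (bW1 p E : Set G) := hFnE.trans (nz_le_nz_W1 E)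
  set A := bW1 p E with hA
  set Y := ⁅A, F⁆
  have hAV : A ≤ Vv := (W_E_facts hG hE).1
  have hYA : Y ≤ A := commutator_le_left_of_nz hFn1
  have hQA : ⁅⁅E, F⁆, A⁆ = ⊥ := by
    rw [commutator_eq_bot_iff_le_centralizer]
    exact hQ.trans (le_centralizer_iff.1 (hAV.trans (omegaOneCenter_le_centralizer _)))
  have hAE : ⁅A, E⁆ = A := by
    refine le_antisymm (commutator_le_left_of_nz (right_le_nz_commutator _ _)) ?_
    show ⁅bW p E, E⁆ ≤ ⁅A, E⁆
    rw [commutator_le]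
    intro x hx e he
    obtain ⟨a, ha, z, hz, rfl⟩ := (mem_sup_iff_of_nz' (A := A) (B := bZ p E)
      (fun z hz => centralizer_le_normalizer _
        (mem_centralizer_iff.2 fun y hy => bW_comm E y (bW1_le_W E hy) z hz.1))).1 (W_le_W1_sup_Z hG hE hx)
    have : ⁅a * z, e⁆ = ⁅a, e⁆ := by
      have hzf : e * z = z * e := mem_centralizer_iff.1 hz.2 e he
      simp only [commutatorElement_def]
      calc a * z * e * (a * z)⁻¹ * e⁻¹ = a * (z * e) * z⁻¹ * a⁻¹ * e⁻¹ := by group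
        _ = _ := by rw [← hzf]; group
    rw [this]
    exact commutator_mem_commutator ha he
  -- `[Y, E]` is centralised by `F`
  have hYFE : ⁅⁅Y, F⁆, E⁆ = ⊥ := by
    rw [commutator_eq_bot_iff_le_centralizer]
    refine (commutator_mono ?_ le_rfl).trans (commutator_eq_bot_iff_le_centralizer.1 h')
    exact (commutator_mono hAV le_rfl).trans (commutator_V_le_W hG hF)
  have hEFY : ⁅⁅F, E⁆, Y⁆ = ⊥ := by
    rw [commutator_comm F E, eq_bot_iff, ← hQA]
    exact commutator_mono le_rfl hYA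
  have hYEF : ⁅⁅E, Y⁆, F⁆ = ⊥ := commutator_commutator_eq_bot_of_rotate hYFE hEFY
  have hYn : ∀ {X : Subgroup G}, X ≤ normalizer (A : Set G) → X ≤ normalizer (F : Set G) →
      X ≤ normalizer (E : Set G) → X ≤ normalizer ((⁅Y, E⁆ : Subgroup G) : Set G) :=
    fun h1 h2 h3 => le_nz_commutator (le_nz_commutator h1 h2) h3
  have hAE' : E ≤ normalizer (A : Set G) := right_le_nz_commutator _ _
  have hYEA : ⁅Y, E⁆ ≤ A := (commutator_mono hYA le_rfl).trans hAE.le
  have hAn : A ≤ normalizer ((⁅Y, E⁆ : Subgroup G) : Set G) := fun a ha => centralizer_le_normalizer _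
    (mem_centralizer_iff.2 fun y hy => bW_comm E y (bW1_le_W E (hYEA hy)) a (bW1_le_W E ha))
  have key : ⁅⁅A, E⁆, F⁆ ≤ ⁅Y, E⁆ := by
    refine three_subgroup_le hAn (hYn hAE' hEnF le_normalizer) (hYn hFn1 le_normalizer hFnE) ?_ ?_
    · rw [hQA]; exact bot_le
    · exact commutator_mono (commutator_comm F A).le le_rfl
  rw [hAE] at key
  have hYF : ⁅Y, F⁆ = ⊥ := by
    rw [eq_bot_iff, ← hYEF, commutator_comm E Y]
    exact commutator_mono key le_rfl
  have := le_centralizer_of_iter hF.1 ((bW_isPGroup E).to_le (bW1_le_W E)) hFn1 hYF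
  exact h (commutator_eq_bot_iff_le_centralizer.2 (le_centralizer_iff.1 this))

theorem W1_eq_small (hEnF : E ≤ normalizer (F : Set G)) (hFnE : F ≤ normalizer (E : Set G))
    (hQ : ⁅E, F⁆ ≤ Q) (h : bW1 p E = bW1 p F) : SmallC p F := by
  refine abelian_small hG hF fun c hc => ?_
  have hcF : c ∈ F := commutator_le_self F hc
  have hcE : c ∈ trivOn (bW p E) (bZ p E) := block_commutator hE hFnE (fun k hk e he => by
    refine Qe_le_trivOn_W E (inf_pCore_le ⟨?_, ?_⟩)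
    · exact commutator_le_right_of_nz hFnE (commutator_mem_commutator hk he)
    · exact hQ ((commutator_comm F E).le (commutator_mem_commutator hk he))) hc
  refine ⟨E_le_nz_W F hcF, nz_le_nz_Z F (le_normalizer hcF), fun w hw => ?_⟩
  set Z1 := bW1 p E ⊓ centralizer (E : Set G)
  have hZ1F : Z1 ≤ bZ p F := by
    have hZ1W : Z1 ≤ bW p F := (inf_le_left.trans h.le).trans (bW1_le_W F)
    have hFZ1 : F ≤ normalizer (Z1 : Set G) :=
      le_nz_inf (hFnE.trans (nz_le_nz_W1 E)) (le_nz_centralizer hFnE)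
    rcases block_dichotomy hF hZ1W hFZ1 with h' | h'
    · exact h'
    exfalso
    refine (W_E_facts hG hE).2 (commutator_eq_bot_iff_le_centralizer.2 ?_)
    show bW1 p E ≤ centralizer (E : Set G)
    rw [h]
    show ⁅bW p F, F⁆ ≤ _
    rw [commutator_le]
    intro x hx f hf
    obtain ⟨a, ha, z, hz, rfl⟩ := (mem_sup_iff_of_nz' (A := Z1) (B := bZ p F)
      (fun z hz => centralizer_le_normalizer _
        (mem_centralizer_iff.2 fun y hy => bW_comm F y (hZ1W hy) z hz.1))).1 (h' hx)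
    have : ⁅a * z, f⁆ = ⁅a, f⁆ := by
      have hzf : f * z = z * f := mem_centralizer_iff.1 hz.2 f hf
      simp only [commutatorElement_def]
      calc a * z * f * (a * z)⁻¹ * f⁻¹ = a * (z * f) * z⁻¹ * a⁻¹ * f⁻¹ := by group
        _ = _ := by rw [← hzf]; group
    rw [this]
    exact (commutator_le_left_of_nz hFZ1 (commutator_mem_commutator ha hf)).2
  obtain ⟨a, ha, z, hz, rfl⟩ := (mem_sup_iff_of_nz' (A := bW1 p F) (B := bZ p F)
    (fun z hz => centralizer_le_normalizer _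
      (mem_centralizer_iff.2 fun y hy => bW_comm F y (bW1_le_W F hy) z hz.1))).1 (W_le_W1_sup_Z hG hF hw)
  rw [← h] at ha
  have hcz : c * z = z * c := mem_centralizer_iff.1 hz.2 c hcF
  have e : c * (a * z) * c⁻¹ * (a * z)⁻¹ = c * a * c⁻¹ * a⁻¹ := by
    calc c * (a * z) * c⁻¹ * (a * z)⁻¹ = c * a * (z * c⁻¹ * z⁻¹) * a⁻¹ := by group
      _ = _ := by
        rw [show z * c⁻¹ * z⁻¹ = (z * c * z⁻¹)⁻¹ by group, ← hcz]; group
  rw [e]
  exact hZ1F ⟨(bW1 p E).mul_mem (conj_mem_of_nz (nz_le_nz_W1 E (hFnE hcF)) ha) ((bW1 p E).inv_mem ha),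
    (hcE.2.2 a (bW1_le_W E ha)).2⟩

theorem caseB (hEnF : E ≤ normalizer (F : Set G)) (hFnE : F ≤ normalizer (E : Set G))
    (hQ : ⁅E, F⁆ ≤ Q) (h1 : ⁅bW1 p E, F⁆ = ⊥) (h2 : ⁅bW1 p F, E⁆ = ⊥) : ⁅E, F⁆ = ⊥ := by
  have hDE : ⁅E, F⁆ ≤ Cfsg.pCoreOf p E :=
    (le_inf (commutator_le_left_of_nz hFnE) hQ).trans inf_pCore_le
  have hDF : ⁅E, F⁆ ≤ Cfsg.pCoreOf p F :=
    (le_inf (commutator_le_right_of_nz hEnF) hQ).trans inf_pCore_le
  have hW1 : ∀ {X : Subgroup G}, Cfsg.pCoreOf p X = bW p X → ⁅Cfsg.pCoreOf p X, X⁆ = Cfsg.pCoreOf p X →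
      Cfsg.pCoreOf p X ≤ bW1 p X := fun e h => by rw [← h, e]
  by_cases hne : Cfsg.pCoreOf p E = bW p E
  · exact commutator_eq_bot_of_central hF.1 ((isPGroup_pCoreOf E).to_le hDE)
      ((hDE.trans (hW1 hne hE.2.2.1)).trans (commutator_eq_bot_iff_le_centralizer.1 h1))
  by_cases hnf : Cfsg.pCoreOf p F = bW p F
  · rw [commutator_comm] at hDF ⊢
    exact commutator_eq_bot_of_central hE.1 ((isPGroup_pCoreOf F).to_le hDF)
      ((hDF.trans (hW1 hnf hF.2.2.1)).trans (commutator_eq_bot_iff_le_centralizer.1 h2))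
  obtain ⟨hp3, FE, i1, i2, -, -, -, htopE, hccE, -, -, -⟩ := exc_data hE hne
  obtain ⟨-, FF, j1, j2, hF2, hisoF, hbotF, htopF, hccF, -, -, -⟩ := exc_data hF hnf
  have hQWF : ⁅Cfsg.pCoreOf p F, Cfsg.pCoreOf p F⁆ ≤ bW p F := hccF.le.trans inf_le_left
  have hQWE : ⁅Cfsg.pCoreOf p E, Cfsg.pCoreOf p E⁆ ≤ bW p E := hccE.le.trans inf_le_left
  obtain ⟨t, htF', ho, htn, htt⟩ := exists_t hF2 (by omega) hisoF htopF (Qe_le_trivOn_top hQWF)
  have htF : t ∈ F := commutator_le_self F htF'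
  obtain ⟨hneg2, -⟩ := t_facts hF2 hisoF htopF (Qe_le_trivOn_top hQWF) htF htn htt
  obtain ⟨hneg1, -⟩ := t_facts hF2 hisoF hbotF (Qe_le_trivOn_W F) htF htn htt
  have hKE : ∀ k ∈ F, ∀ e ∈ E, ⁅k, e⁆ ∈ Cfsg.pCoreOf p E := fun k hk e he =>
    hDE ((commutator_comm F E).le (commutator_mem_commutator hk he))
  have htop : t ∈ trivOn (Cfsg.pCoreOf p E) (bW p E) :=
    sl_layer_commutator htopE (hFnE.trans (nz_le_nz_pCoreOf E)) (hFnE.trans (nz_le_nz_W E))
      (fun k hk e he => Qe_le_trivOn_top hQWE (hKE k hk e he)) htF'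
  have hZfix : ∀ z ∈ bZ p E, t * z * t⁻¹ = z := by
    intro z hz
    rw [← hccE] at hz
    induction hz using closure_induction with
    | mem c hc =>
      obtain ⟨a, ha, b, hb, rfl⟩ := hc
      obtain ⟨u, hu, hua⟩ : ∃ u ∈ bW p E, t * a * t⁻¹ = u * a := ⟨_, htop.2.2 a ha, by group⟩
      obtain ⟨v, hv, hvb⟩ : ∃ v ∈ bW p E, t * b * t⁻¹ = v * b := ⟨_, htop.2.2 b hb, by group⟩
      have ha' : u * a = a * u := (mem_centralizer_iff.1 (omegaOneCenter_le_centralizer _ hu) a ha).symm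
      have hb' : v * b = b * v := (mem_centralizer_iff.1 (omegaOneCenter_le_centralizer _ hv) b hb).symm
      have hub : u * b = b * u := (mem_centralizer_iff.1 (omegaOneCenter_le_centralizer _ hu) b hb).symm
      have hva : v * a = a * v := (mem_centralizer_iff.1 (omegaOneCenter_le_centralizer _ hv) a ha).symm
      have huv : u * v = v * u := bW_comm E u hu v hv
      calc t * ⁅a, b⁆ * t⁻¹ = ⁅t * a * t⁻¹, t * b * t⁻¹⁆ := by simp [commutatorElement_def, mul_assoc]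
        _ = ⁅u * a, v * b⁆ := by rw [hua, hvb]
        _ = ⁅a, b⁆ := by
          simp only [commutatorElement_def]
          have c1 : Commute u a := ha'
          have c2 : Commute u b := hub
          have c3 : Commute v a := hva
          have c4 : Commute v b := hb'
          have c5 : Commute u v := huv
          calc u * a * (v * b) * (u * a)⁻¹ * (v * b)⁻¹
              = u * (a * v) * b * a⁻¹ * u⁻¹ * b⁻¹ * v⁻¹ := by group
            _ = u * v * (a * b * a⁻¹) * u⁻¹ * b⁻¹ * v⁻¹ := by rw [← c3.eq]; group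
            _ = u * v * ((a * b * a⁻¹) * u⁻¹) * b⁻¹ * v⁻¹ := by group
            _ = u * v * (u⁻¹ * (a * b * a⁻¹)) * b⁻¹ * v⁻¹ := by
                rw [((c1.mul_right c2).mul_right c1.inv_right).inv_left.eq]
            _ = v * ((a * b * a⁻¹ * b⁻¹) * v⁻¹) := by rw [c5.eq]; group
            _ = v * (v⁻¹ * (a * b * a⁻¹ * b⁻¹)) := by
                rw [(((c3.mul_right c4).mul_right c3.inv_right).mul_right c4.inv_right).inv_left.eq]
            _ = _ := by group
    | one => simp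
    | mul a b _ _ ha hb => rw [show t * (a * b) * t⁻¹ = (t * a * t⁻¹) * (t * b * t⁻¹) by group, ha, hb]
    | inv a _ ha => rw [show t * a⁻¹ * t⁻¹ = (t * a * t⁻¹)⁻¹ by group, ha]
  have hW : ∀ w ∈ bW p E, Commute t w := by
    intro w hw
    obtain ⟨a, ha, z, hz, rfl⟩ := (mem_sup_iff_of_nz' (A := bW1 p E) (B := bZ p E)
      (fun z hz => centralizer_le_normalizer _
        (mem_centralizer_iff.2 fun y hy => bW_comm E y (bW1_le_W E hy) z hz.1))).1 (W_le_W1_sup_Z hG hE hw)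
    refine Commute.mul_right ?_ (mul_inv_eq_iff_eq_mul.1 (hZfix z hz))
    exact mem_centralizer_iff.1 (commutator_eq_bot_iff_le_centralizer.1 h1 ha) t htF
  have hQE : ∀ q ∈ Cfsg.pCoreOf p E, Commute t q := by
    refine commute_of_chain (isPGroup_pCoreOf E) (fun a ha => conj_mem_of_nz (nz_le_nz_pCoreOf E (hFnE htF)) ha) ho
      hW fun a ha => ?_
    have := htop.2.2 a ha
    have h' := (mem_centralizer_iff.1 (omegaOneCenter_le_centralizer _ this) a ha)
    convert this using 1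
    calc a⁻¹ * (t * a * t⁻¹) = a⁻¹ * ((t * a * t⁻¹ * a⁻¹) * a) := by group
      _ = _ := by rw [← h']; group
  refine commutator_eq_bot_of_central hF.1 ((isPGroup_pCoreOf E).to_le hDE) fun d hd => ?_
  have hdF := hDF hd
  have htd : t * d * t⁻¹ = d := by rw [(hQE d (hDE hd)).eq]; group
  have hsq : ∀ {X : Subgroup G}, d * d ∈ X → d ∈ X := by
    intro X h
    refine mem_of_pow_coprime (p := p) (n := 2) ?_ ?_ (by rwa [pow_two])
    · rw [hp3]; norm_num
    · obtain ⟨k, hk⟩ := isPGroup_pCoreOf (p := p) F ⟨d, hdF⟩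
      exact ⟨k, by rw [show d ^ p ^ k = 1 by simpa using congrArg Subtype.val hk]; exact one_mem _⟩
  have hdW : d ∈ bW p F := hsq (by
    have := hneg2 d hdF
    rwa [htd] at this)
  have := hneg1 d hdW
  rw [htd] at this
  exact (hsq this).2

omit hEs hFs in
/-- A coprime element of the stabiliser of the series of a block lies in it. -/
theorem mem_of_series {f e : G} (he : e ∈ E) (ho : (orderOf f).Coprime p)
    (h : e⁻¹ * f ∈ trivOn Q (Cfsg.pCoreOf p E) ⊓ trivOn (Cfsg.pCoreOf p E) (bW p E) ⊓ trivOn (bW p E) ⊥)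
    (hEQ : Cfsg.pCoreOf p E ≤ Q) : f ∈ E := by
  set P := trivOn Q (Cfsg.pCoreOf p E) ⊓ trivOn (Cfsg.pCoreOf p E) (bW p E) ⊓ trivOn (bW p E) ⊥
  have hP : IsPGroup p P := by
    refine (isPGroup_iff_forall_coprime P).2 fun y hy hyo => ?_
    have hW : ∀ w ∈ bW p E, Commute y w := fun w hw =>
      mul_inv_eq_iff_eq_mul.1 (mem_trivOn_bot_iff.1 hy.2 w hw)
    have hQe : ∀ a ∈ Cfsg.pCoreOf p E, Commute y a := by
      refine commute_of_chain (isPGroup_pCoreOf E) (fun a ha => conj_mem_of_nz hy.1.2.1 ha) hyo hW fun a ha => ?_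
      have := conj_mem_of_nz ((E_le_nz_W E) (pCoreOf_le E (inv_mem ha))) (hy.1.2.2.2 a ha)
      convert this using 1; group
    have hQQ : ∀ a ∈ (Q : Subgroup G), Commute y a := by
      refine commute_of_chain pCore_isPGroup (fun a ha => conj_mem_of_nz hy.1.1.1 ha) hyo hQe fun a ha => ?_
      have := conj_mem_of_nz ((core_le_nz hE).trans (nz_le_nz_pCoreOf E) (inv_mem ha)) (hy.1.1.2.2 a ha)
      convert this using 1; group
    exact eq_one_of_isPGroup_of_coprime pCore_isPGroup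
      (hG (mem_centralizer_iff.2 fun a ha => (hQQ a ha).eq.symm)) hyo
  have hnz : ∀ {K : Subgroup G}, K ≤ normalizer (E : Set G) → K ≤ normalizer (P : Set G) := fun {K} hK =>
    le_nz_inf (le_nz_inf (le_nz_trivOn (le_nz_pCore K) (hK.trans (nz_le_nz_pCoreOf E)))
      (le_nz_trivOn (hK.trans (nz_le_nz_pCoreOf E)) (hK.trans (nz_le_nz_W E))))
      (le_nz_trivOn (hK.trans (nz_le_nz_W E)) (by rw [normalizer_eq_top (H := (⊥ : Subgroup G))]; exact le_top))
  have hPE : P ≤ normalizer (E : Set G) :=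
    le_nz_of_invariant TE hE.1 hE.2.1 hP (hnz (block_B_le_nz hE)) (hnz le_normalizer)
  refine mem_of_coprime_sup hP hPE ?_ ho
  have := mul_mem_sup (S := E) (T := P) he h
  rwa [mul_inv_cancel_left] at this

theorem smallC_eq (hsE : SmallC p E) (hsF : SmallC p F) (hEnF : E ≤ normalizer (F : Set G))
    (hFnE : F ≤ normalizer (E : Set G)) (hQ : ⁅E, F⁆ ≤ Q) (h : bW1 p E = bW1 p F) : F ≤ E := by
  obtain ⟨hQW, hW1, x, hx, ho, hcen, hnt, hgen, key, -⟩ := smallC_facts hG hE hsE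
  obtain ⟨hQWF, hW1F, -⟩ := smallC_facts hG hF hsF
  have hWW : bW p E = bW p F := by rw [← hW1, ← hW1F, h]
  obtain ⟨hfix, -, -⟩ := W1_facts hG hE hx ho hcen hnt
  rw [hW1] at hfix
  obtain ⟨a, ha, ha1⟩ : ∃ a ∈ bW p E, a ≠ 1 := by
    by_contra h'
    push Not at h'
    exact W_not_le_Z hG hE fun w hw => by rw [h' w hw]; exact one_mem _
  conv_lhs => rw [← block_res hF]
  refine resOf_le_iff.2 fun f hf hof => ?_
  have hfW : f ∈ normalizer (bW p E : Set G) := nz_le_nz_W E (hFnE hf)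
  have hcomm : ∀ w ∈ bW p E, f * (x * w * x⁻¹) * f⁻¹ = x * (f * w * f⁻¹) * x⁻¹ := by
    intro w hw
    have hc : ⁅f, x⁆ ∈ Cfsg.pCoreOf p E :=
      inf_pCore_le ⟨commutator_le_right_of_nz hFnE (commutator_mem_commutator hf hx),
        hQ ((commutator_comm F E).le (commutator_mem_commutator hf hx))⟩
    have hw' : x * (f * w * f⁻¹) * x⁻¹ ∈ bW p E :=
      conj_mem_of_nz (E_le_nz_W E hx) (conj_mem_of_nz hfW hw)
    have := mem_centralizer_iff.1 (omegaOneCenter_le_centralizer _ hw') _ hc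
    calc f * (x * w * x⁻¹) * f⁻¹ = ⁅f, x⁆ * (x * (f * w * f⁻¹) * x⁻¹) * ⁅f, x⁆⁻¹ := by
          rw [commutatorElement_def]; group
      _ = _ := by rw [this, mul_inv_cancel_right]
  have hsel : ∃ i : ℕ, f * a * f⁻¹ = x ^ i * a * (x ^ i)⁻¹ := by
    rcases key a ha ha1 _ (conj_mem_of_nz hfW ha) with e | e | e | e
    · exact absurd (conj_eq_one_iff.1 e) ha1
    · exact ⟨0, by simpa using e⟩
    · exact ⟨1, by simpa using e⟩
    · refine ⟨2, e.trans ?_⟩
      have hb := conj_mem_of_nz (E_le_nz_W E hx) ha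
      have hc := conj_mem_of_nz (E_le_nz_W E hx) hb
      rcases key a ha ha1 _ hc with r | r | r | r
      · exact absurd (conj_eq_one_iff.1 (conj_eq_one_iff.1 r)) ha1
      · exfalso
        refine ha1 (hfix a ha ?_)
        have hb2 : x * (a * (x * a * x⁻¹)) * x⁻¹ = a * (x * a * x⁻¹) := by
          rw [show x * (a * (x * a * x⁻¹)) * x⁻¹ = (x * a * x⁻¹) * (x * (x * a * x⁻¹) * x⁻¹) by group, r,
            bW_comm E _ hb _ ha]
        have := hfix _ (mul_mem ha hb) hb2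
        have hsq : a * a = 1 := by
          rw [← pow_two, ← hsE.1]; exact (omegaOneCenter_elementary (p := p) (Cfsg.pCoreOf p E)).2 a ha
        exact (mul_right_injective a) (this.trans hsq.symm)
      · exact absurd (hfix _ hb r) fun e' => ha1 (conj_eq_one_iff.1 e')
      · rw [← r]; simp [pow_succ, mul_assoc]
  obtain ⟨i, hi⟩ := hsel
  refine mem_of_series hG hE hF (pow_mem hx i) hof ?_ (pCoreOf_le_of_subnormal hEs)
  have hxi : x ^ i ∈ E := pow_mem hx i
  set y := (x ^ i)⁻¹ * f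
  have hyW : y ∈ normalizer (bW p E : Set G) := mul_mem (inv_mem (E_le_nz_W E hxi)) hfW
  have hya : y * a * y⁻¹ = a := by
    calc y * a * y⁻¹ = (x ^ i)⁻¹ * (f * a * f⁻¹) * x ^ i := by simp only [y]; group
      _ = a := by rw [hi]; group
  have hyb : y * (x * a * x⁻¹) * y⁻¹ = x * a * x⁻¹ := by
    calc y * (x * a * x⁻¹) * y⁻¹ = (x ^ i)⁻¹ * (f * (x * a * x⁻¹) * f⁻¹) * x ^ i := by simp only [y]; group
      _ = (x ^ i)⁻¹ * (x * (x ^ i * a * (x ^ i)⁻¹) * x⁻¹) * x ^ i := by rw [hcomm a ha, hi]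
      _ = _ := by group
  have hW : ∀ w ∈ bW p E, y * w * y⁻¹ = w := by
    intro w hw
    rcases key a ha ha1 w hw with rfl | rfl | rfl | rfl
    · group
    · exact hya
    · exact hyb
    · rw [show y * (a * (x * a * x⁻¹)) * y⁻¹ = (y * a * y⁻¹) * (y * (x * a * x⁻¹) * y⁻¹) by group, hya, hyb]
  refine ⟨⟨?_, ?_⟩, mem_trivOn_bot_iff.2 hW⟩
  · refine ⟨le_nz_pCore (⊤ : Subgroup G) (mem_top y), by rw [hQW]; exact hyW, fun q hq => ?_⟩
    have h1 : (x ^ i)⁻¹ * f * q * ((x ^ i)⁻¹ * f)⁻¹ * q⁻¹ =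
        ((x ^ i)⁻¹ * ⁅f, q⁆ * ((x ^ i)⁻¹)⁻¹) * ⁅(x ^ i)⁻¹, q⁆ := by simp only [commutatorElement_def]; group
    rw [h1]
    refine mul_mem (conj_mem_of_nz (nz_le_nz_pCoreOf E (le_normalizer (inv_mem hxi))) ?_) ?_
    · rw [hQW, hWW, ← hQWF]
      exact comm_Q_le hF ((commutator_comm F (Q)).le (commutator_mem_commutator hf hq))
    · exact comm_Q_le hE ((commutator_comm E (Q)).le (commutator_mem_commutator (inv_mem hxi) hq))
  · rw [hQW]
    exact ⟨hyW, hyW, fun w hw => mul_mem (conj_mem_of_nz hyW hw) (inv_mem hw)⟩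

theorem comm_or_eq (hQ : ⁅E, F⁆ ≤ Q) : E = F ∨ ⁅E, F⁆ = ⊥ := by
  have nz : ∀ {A B : Subgroup G} {T : Sylow p G}, Cfsg.IsBaumannBlock p (T : Subgroup G) B → ⁅A, B⁆ ≤ Q →
      A ≤ normalizer (B : Set G) := by
    intro A B T hB h a ha
    refine mem_nz_of_forall hB.1 pCore_isPGroup (core_le_nz hB) fun x hx _ => ?_
    exact h (commutator_mem_commutator ha hx)
  have hQ' : ⁅F, E⁆ ≤ Q := by rwa [commutator_comm]
  have hEnF := nz hF hQ
  have hFnE := nz hE hQ'
  by_cases h1 : ⁅bW1 p E, F⁆ = ⊥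
  · by_cases h2 : ⁅bW1 p F, E⁆ = ⊥
    · exact Or.inr (caseB hG hE hF hEs hFs hEnF hFnE hQ h1 h2)
    · exact absurd h1 (caseA_absurd hG hF hE hFs hEs hFnE hEnF hQ' h2)
  · have h2 := caseA_absurd hG hE hF hEs hFs hEnF hFnE hQ h1
    have e : bW1 p E = bW1 p F :=
      le_antisymm (caseA hG hF hE hFs hEs hEnF hQ' h2) (caseA hG hE hF hEs hFs hFnE hQ h1)
    have sF := W1_eq_small hG hE hF hEs hFs hEnF hFnE hQ e
    have sE := W1_eq_small hG hF hE hFs hEs hFnE hEnF hQ' e.symm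
    exact Or.inl (le_antisymm (smallC_eq hG hF hE hFs hEs sF sE hFnE hEnF hQ' e.symm)
      (smallC_eq hG hE hF hEs hFs sE sF hEnF hFnE hQ e))

end Cfsg.Agent.Lib.LocalChar.Baumann
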