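import Cfsg.Agent.Lib.LocalChar.BaumannFacts

/-! Conjugates of Baumann blocks. -/

set_option autoImplicit false
set_option linter.unusedSectionVars false

open Subgroup
open scoped commutatorElement

namespace Cfsg.Agent.Lib.LocalChar.Baumann

variable {G : Type*} [Group G] [Finite G] {p : ℕ} [hp : Fact p.Prime]

theorem bcj_inf (g : G) (A B : Subgroup G) : cj g (A ⊓ B) = cj g A ⊓ cj g B :=
  map_inf A B _ (MulAut.conj g).injective

theorem bcj_centralizer (g : G) (A : Subgroup G) :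
    cj g (centralizer (A : Set G)) = centralizer ((cj g A : Subgroup G) : Set G) := by
  ext x
  rw [mem_cj, mem_centralizer_iff, mem_centralizer_iff]
  constructor
  · intro h y hy
    have := h _ (mem_cj.1 hy)
    have := congrArg (fun z => g * z * g⁻¹) this
    simpa [mul_assoc] using this
  · intro h a ha
    have := h _ (conj_mem_cj (g := g) ha)
    have := congrArg (fun z => g⁻¹ * z * g) this
    simpa [mul_assoc] using this

theorem bcj_omegaOne (g : G) (H : Subgroup G) : cj g (Cfsg.omegaOne p H) = Cfsg.omegaOne p (cj g H) := by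
  unfold Cfsg.omegaOne
  rw [cj, MonoidHom.map_closure]
  congr 1
  ext x
  simp only [Set.mem_image, Set.mem_setOf_eq]
  constructor
  · rintro ⟨y, ⟨hy, hyp⟩, rfl⟩
    exact ⟨conj_mem_cj hy, by rw [← map_pow, hyp, map_one]⟩
  · rintro ⟨hx, hxp⟩
    refine ⟨g⁻¹ * x * g, ⟨mem_cj.1 hx, ?_⟩, by simp [mul_assoc]⟩
    have h := conj_pow (a := g⁻¹) (b := x) (i := p)
    rw [inv_inv] at h
    rw [h, hxp]; simp

theorem bcj_omegaOneCenter (g : G) (H : Subgroup G) :
    cj g (Cfsg.omegaOneCenter p H) = Cfsg.omegaOneCenter p (cj g H) := by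
  unfold Cfsg.omegaOneCenter
  rw [bcj_omegaOne, bcj_inf, bcj_centralizer]

theorem smul_sylow_coe (g : G) (T : Sylow p G) : ((g • T : Sylow p G) : Subgroup G) = cj g (T : Subgroup G) := rfl

theorem bcj_thompsonOf (g : G) (T : Sylow p G) :
    cj g (Cfsg.thompsonSubgroupOf p (T : Subgroup G)) = Cfsg.thompsonSubgroupOf p ((g • T : Sylow p G) : Subgroup G) := by
  refine le_antisymm (cj_thompsonOf_le g T (g • T) le_rfl) ?_
  intro x hx
  have h := cj_thompsonOf_le g⁻¹ (g • T) T (by rw [smul_sylow_coe, cj_cj, inv_mul_cancel, cj_one])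
    (conj_mem_cj (g := g⁻¹) hx)
  rw [mem_cj]
  simpa using h

theorem bcj_baumannOf (g : G) (T : Sylow p G) :
    cj g (Cfsg.baumannSubgroupOf p (T : Subgroup G)) = Cfsg.baumannSubgroupOf p ((g • T : Sylow p G) : Subgroup G) := by
  unfold Cfsg.baumannSubgroupOf Cfsg.centerThompsonOf
  rw [bcj_inf, bcj_centralizer, bcj_omegaOne, bcj_inf, bcj_centralizer, bcj_thompsonOf, smul_sylow_coe]

theorem bcj_resOf (g : G) (E : Subgroup G) : cj g (resOf p E) = resOf p (cj g E) := by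
  refine le_antisymm ?_ ?_
  · rw [cj, map_le_iff_le_comap]
    refine resOf_le_iff.2 fun x hx ho => ?_
    exact mem_resOf (conj_mem_cj hx) (by
      show (orderOf (g * x * g⁻¹)).Coprime p
      rw [orderOf_conj']; exact ho)
  · refine resOf_le_iff.2 fun x hx ho => ?_
    rw [mem_cj]
    refine mem_resOf (mem_cj.1 hx) ?_
    have := orderOf_conj' g⁻¹ x
    rw [inv_inv] at this
    rwa [this]

variable (g : G)

/-- The isomorphism `cj g E ≃* E`. -/
noncomputable def cjEquiv (E : Subgroup G) : ↥(cj g E) ≃* ↥E :=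
  ((MulEquiv.subgroupMap (MulAut.conj g) E).symm : _)

theorem cjEquiv_coe (E : Subgroup G) (x : ↥(cj g E)) : (cjEquiv g E x : G) = g⁻¹ * x * g := by
  obtain ⟨y, rfl⟩ := (MulEquiv.subgroupMap (MulAut.conj g) E).surjective x
  show ((MulEquiv.subgroupMap (MulAut.conj g) E).symm _ : G) = _
  rw [MulEquiv.symm_apply_apply]
  simp [mul_assoc]

theorem bcj_le_nz {A B : Subgroup G} (h : A ≤ normalizer (B : Set G)) :
    cj g A ≤ normalizer ((cj g B : Subgroup G) : Set G) := by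
  refine le_nz_of_cj fun n hn => ?_
  rw [cj_cj]
  have h' := cj_eq_of_mem_nz (h (mem_cj.1 hn))
  conv_rhs => rw [← h', cj_cj]
  congr 1
  group

theorem bcj_act {F : Type*} [Field F] {R : Subgroup (Matrix.SpecialLinearGroup (Fin 2) F)} {E X X₀ : Subgroup G}
    (h : Cfsg.ActsAsSL2OnSection F R E X X₀) :
    Cfsg.ActsAsSL2OnSection F R (cj g E) (cj g X) (cj g X₀) := by
  obtain ⟨hn, hle, ρ, ψ, hr, hs, hk, hact⟩ := h
  refine ⟨bcj_le_nz g hn, cj_mono hle, ρ.comp (cjEquiv g E).toMonoidHom, ψ.comp (cjEquiv g X).toMonoidHom,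
    ?_, hs.comp (cjEquiv g X).surjective, fun u => ?_, fun e u => ?_⟩
  · rw [MonoidHom.range_comp, MonoidHom.range_eq_top.2 (cjEquiv g E).surjective, ← MonoidHom.range_eq_map, hr]
  · exact (hk _).trans (by rw [MulEquiv.coe_toMonoidHom, cjEquiv_coe]; exact mem_cj.symm)
  · obtain ⟨w, hw, hwe⟩ := hact (cjEquiv g E e) (cjEquiv g X u)
    refine ⟨(cjEquiv g X).symm w, ?_, by simpa using hwe⟩
    have := cjEquiv_coe g X ((cjEquiv g X).symm w)
    rw [MulEquiv.apply_symm_apply, hw, cjEquiv_coe, cjEquiv_coe] at this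
    have := congrArg (fun z => g * z * g⁻¹) this.symm
    simpa [mul_assoc] using this

theorem bcj_actPerm {n : ℕ} {R : Subgroup (Equiv.Perm (Fin n))} {E X X₀ : Subgroup G}
    (h : Cfsg.ActsAsOddPermModuleOnSection n R E X X₀) :
    Cfsg.ActsAsOddPermModuleOnSection n R (cj g E) (cj g X) (cj g X₀) := by
  obtain ⟨hn, hle, ρ, ψ, hr, hev, hsur, hk, hact⟩ := h
  refine ⟨bcj_le_nz g hn, cj_mono hle, ρ.comp (cjEquiv g E).toMonoidHom, ψ.comp (cjEquiv g X).toMonoidHom,
    ?_, fun u => hev _, fun v hv => ?_, fun u => ?_, fun e u => ?_⟩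
  · rw [MonoidHom.range_comp, MonoidHom.range_eq_top.2 (cjEquiv g E).surjective, ← MonoidHom.range_eq_map, hr]
  · obtain ⟨u, hu⟩ := hsur v hv
    exact ⟨(cjEquiv g X).symm u, by simpa using hu⟩
  · exact (hk _).trans (by rw [MulEquiv.coe_toMonoidHom, cjEquiv_coe]; exact mem_cj.symm)
  · obtain ⟨w, hw, hwe⟩ := hact (cjEquiv g E e) (cjEquiv g X u)
    refine ⟨(cjEquiv g X).symm w, ?_, by simpa using hwe⟩
    have := cjEquiv_coe g X ((cjEquiv g X).symm w)
    rw [MulEquiv.apply_symm_apply, hw, cjEquiv_coe, cjEquiv_coe] at this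
    have := congrArg (fun z => g * z * g⁻¹) this.symm
    simpa [mul_assoc] using this

theorem bcj_zpowers (b : G) : cj g (zpowers b) = zpowers (g * b * g⁻¹) := MonoidHom.map_zpowers _ _

theorem block_iso (E : Subgroup G) :
    Nonempty (↥(cj g E) ⧸ Cfsg.pCore p ↥(cj g E) ≃* ↥E ⧸ Cfsg.pCore p ↥E) :=
  ⟨QuotientGroup.congr _ _ (cjEquiv g E) (pCore_map_equiv (cjEquiv g E))⟩

theorem bcj_frattini (Y : Subgroup G) :
    (frattini ↥(cj g Y)).map (cj g Y).subtype = cj g ((frattini ↥Y).map Y.subtype) := by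
  have e : (frattini ↥(cj g Y)).map (cjEquiv g Y).toMonoidHom = frattini ↥Y := by
    refine le_antisymm ?_ ?_
    · rw [map_le_iff_le_comap]
      exact frattini_le_comap_frattini_of_surjective (cjEquiv g Y).surjective
    · rw [map_equiv_eq_comap_symm']
      exact frattini_le_comap_frattini_of_surjective (cjEquiv g Y).symm.surjective
  conv_rhs => rw [← e, cj, map_map, map_map]
  congr 1
  ext x
  show (x : G) = g * (cjEquiv g Y x : G) * g⁻¹
  rw [cjEquiv_coe]; group

theorem block_cj {T : Sylow p G} {E : Subgroup G} (hE : Cfsg.IsBaumannBlock p (T : Subgroup G) E) :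
    Cfsg.IsBaumannBlock p ((g • T : Sylow p G) : Subgroup G) (cj g E) := by
  obtain ⟨h1, h2, h3, h4, h5⟩ := hE
  have hQ : Cfsg.pCoreOf p (cj g E) = cj g (Cfsg.pCoreOf p E) := pCoreOf_cj g E
  have hW : Cfsg.omegaOneCenter p (Cfsg.pCoreOf p (cj g E)) = cj g (Cfsg.omegaOneCenter p (Cfsg.pCoreOf p E)) := by
    rw [hQ, bcj_omegaOneCenter]
  have hZ : Cfsg.omegaOneCenter p (Cfsg.pCoreOf p (cj g E)) ⊓ centralizer ((cj g E : Subgroup G) : Set G) =
      cj g (Cfsg.omegaOneCenter p (Cfsg.pCoreOf p E) ⊓ centralizer (E : Set G)) := by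
    rw [hW, ← bcj_centralizer, bcj_inf]
  have hne : ∀ {A B : Subgroup G}, ⁅A, B⁆ ≠ ⊥ → ⁅cj g A, cj g B⁆ ≠ ⊥ := fun {A B} h h' => h (by
    rwa [← cj_commutator, cj, map_eq_bot_iff_of_injective _ (MulAut.conj g).injective] at h')
  obtain ⟨iso⟩ := block_iso (p := p) g E
  refine ⟨?_, ?_, ?_, ?_, ?_⟩
  · show resOf p (cj g E) = cj g E
    rw [← bcj_resOf]; exact congrArg (cj g) h1
  · rw [← bcj_baumannOf, ← cj_commutator, h2]
  · rw [hQ, ← cj_commutator, h3]
  · rw [smul_sylow_coe, ← bcj_omegaOneCenter]; exact hne h4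
  rcases h5 with ⟨F, i1, i2, n, hc, ⟨e⟩, hact, hrest⟩ | ⟨hp2, m, ⟨e⟩, hact, hQW⟩
  · refine Or.inl ⟨F, i1, i2, n, hc, ⟨iso.trans e⟩, ?_, ?_⟩
    · rw [hZ, hW]; exact bcj_act g hact
    rcases hrest with hQW | ⟨hp3, hact2, hcc, hfr, hEZ, hcard, hnq⟩
    · exact Or.inl (by rw [hW, hQ]; exact congrArg (cj g) hQW)
    · refine Or.inr ⟨hp3, ?_, ?_, ?_, ?_, ?_, ?_⟩
      · rw [hW, hQ]; exact bcj_act g hact2
      · rw [hZ, hQ, ← cj_commutator, hcc]
      · rw [hZ, hQ, bcj_frattini, hfr]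
      · rw [hZ, ← bcj_centralizer, ← bcj_inf, hEZ]
      · rw [← bcj_centralizer, ← bcj_inf, card_cj, hcard]
      · intro b hb hbW
        rw [← bcj_baumannOf, mem_cj] at hb
        rw [hW, ← bcj_centralizer, mem_cj] at hbW
        intro hle
        refine hnq _ hb hbW ?_
        have eb : zpowers b = cj g (zpowers (g⁻¹ * b * g)) := by
          rw [bcj_zpowers]; congr 1; group
        rw [hQ, eb, ← bcj_centralizer, ← bcj_inf, ← cj_commutator, ← cj_commutator, cj, cj,
          map_le_map_iff_of_injective (MulAut.conj g).injective] at hle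
        exact hle
  · exact Or.inr ⟨hp2, m, ⟨iso.trans e⟩, by rw [hZ, hW]; exact bcj_actPerm g hact,
      by rw [hW, hQ]; exact congrArg (cj g) hQW⟩

end Cfsg.Agent.Lib.LocalChar.Baumann
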