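import Cfsg.Agent.Lib.LocalChar.BlockLayers
import Cfsg.Agent.Lib.Classical.Simple
import Mathlib.GroupTheory.SpecificGroups.Alternating.Simple

/-! The possible shapes of a Baumann block. -/

set_option autoImplicit false
set_option linter.unusedSectionVars false

open Subgroup
open scoped commutatorElement

namespace Cfsg.Agent.Lib.LocalChar.Baumann

variable {G : Type*} [Group G] [Finite G] {p : ℕ} [hp : Fact p.Prime]

/-- `Ω₁(Z(O_p(E)))`. -/
abbrev bW (p : ℕ) (E : Subgroup G) : Subgroup G := Cfsg.omegaOneCenter p (Cfsg.pCoreOf p E)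
/-- `C_W(E)`. -/
abbrev bZ (p : ℕ) (E : Subgroup G) : Subgroup G := bW p E ⊓ centralizer (E : Set G)
/-- `[W, E]`. -/
abbrev bW1 (p : ℕ) (E : Subgroup G) : Subgroup G := ⁅bW p E, E⁆

/-- A block with `|E / O_p(E)| = 3` for `p = 2`. -/
def SmallC (p : ℕ) (E : Subgroup G) : Prop := p = 2 ∧ Nat.card (↥E ⧸ Cfsg.pCore p ↥E) = 3

/-- A block with `E / O_p(E) ≅ SL₂(3)'`. -/
def SmallQ (p : ℕ) (E : Subgroup G) : Prop :=
  p = 3 ∧ ∃ (F : Type) (_ : Field F) (_ : Fintype F), Fintype.card F = 3 ∧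
    Nonempty (↥E ⧸ Cfsg.pCore p ↥E ≃* ↥(commutator (Matrix.SpecialLinearGroup (Fin 2) F))) ∧
    Cfsg.ActsAsSL2OnSection F (commutator (Matrix.SpecialLinearGroup (Fin 2) F)) E (bW p E) (bZ p E)

/-- The map `u ↦ [x, u]` of an abelian subgroup normalised by `x`. -/
def dl {X : Subgroup G} (hX : ∀ a ∈ X, ∀ b ∈ X, a * b = b * a) {x : G} (hx : x ∈ normalizer (X : Set G)) :
    ↥X →* ↥X where
  toFun u := ⟨x * u * x⁻¹ * (u : G)⁻¹, mul_mem (conj_mem_of_nz hx u.2) (inv_mem u.2)⟩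
  map_one' := Subtype.ext (by simp)
  map_mul' a b := Subtype.ext (by
    show x * (a * b : G) * x⁻¹ * (a * b : G)⁻¹ = (x * a * x⁻¹ * (a : G)⁻¹) * (x * b * x⁻¹ * (b : G)⁻¹)
    have h1 := hX _ (inv_mem a.2) _ (mul_mem (conj_mem_of_nz hx b.2) (inv_mem b.2))
    calc x * (a * b : G) * x⁻¹ * (a * b : G)⁻¹
        = x * a * x⁻¹ * ((x * b * x⁻¹ * (b : G)⁻¹) * (a : G)⁻¹) := by group
      _ = x * a * x⁻¹ * ((a : G)⁻¹ * (x * b * x⁻¹ * (b : G)⁻¹)) := by rw [h1]
      _ = _ := by group)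

@[simp] theorem dl_coe {X : Subgroup G} (hX : ∀ a ∈ X, ∀ b ∈ X, a * b = b * a) {x : G}
    (hx : x ∈ normalizer (X : Set G)) (u : ↥X) : (dl hX hx u : G) = x * u * x⁻¹ * (u : G)⁻¹ := rfl

/-- For a coprime element, `[x, X]` is mapped onto itself by `u ↦ [x, u]`. -/
theorem dl_range_surj {X : Subgroup G} (hX : ∀ a ∈ X, ∀ b ∈ X, a * b = b * a) (hXp : IsPGroup p X) {x : G}
    (hx : x ∈ normalizer (X : Set G)) (ho : (orderOf x).Coprime p) (u : ↥X) :
    ∃ w : ↥X, dl hX hx (dl hX hx w) = dl hX hx u := by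
  set δ := dl hX hx
  let f : ↥δ.range →* ↥δ.range := (δ.comp δ.range.subtype).codRestrict δ.range fun a => ⟨a, rfl⟩
  have hinj : Function.Injective f := by
    rw [injective_iff_map_eq_one]
    rintro ⟨a, v, rfl⟩ h
    have h1 : δ (δ v) = 1 := congrArg Subtype.val h
    have h2 : x * (δ v : G) * x⁻¹ = δ v := mul_inv_eq_one.1 (congrArg Subtype.val h1)
    have e : (v : G)⁻¹ * (x * v * x⁻¹) = (δ v : G) :=
      hX _ (inv_mem v.2) _ (conj_mem_of_nz hx v.2)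
    have hv : Commute x (v : G) := by
      refine commute_of_two_step (p := p) ho ?_ ?_
      · rw [e]; exact mul_inv_eq_iff_eq_mul.1 h2
      · rw [e]
        obtain ⟨k, hk⟩ := hXp (δ v)
        exact ⟨k, by simpa using congrArg Subtype.val hk⟩
    refine Subtype.ext (Subtype.ext ?_)
    show x * (v : G) * x⁻¹ * (v : G)⁻¹ = 1
    rw [hv.eq]; group
  obtain ⟨⟨a, v, rfl⟩, ha⟩ := Finite.injective_iff_surjective.1 hinj ⟨δ u, u, rfl⟩
  exact ⟨v, congrArg Subtype.val ha⟩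

theorem bW_comm (E : Subgroup G) : ∀ a ∈ bW p E, ∀ b ∈ bW p E, a * b = b * a :=
  fun _ ha _ hb => Thompson.commute_of_elementary (omegaOneCenter_elementary _) ha hb

theorem bW_isPGroup (E : Subgroup G) : IsPGroup p (bW p E) :=
  (isPGroup_pCoreOf E).to_le (omegaOneCenter_le _)

theorem E_le_nz_W (E : Subgroup G) : E ≤ normalizer (bW p E : Set G) := le_nz_omegaOneCenter (le_nz_pCoreOf E)

theorem nz_le_nz_W (E : Subgroup G) : normalizer (E : Set G) ≤ normalizer (bW p E : Set G) :=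
  le_nz_omegaOneCenter (nz_le_nz_pCoreOf E)

theorem nz_le_nz_Z (E : Subgroup G) : normalizer (E : Set G) ≤ normalizer (bZ p E : Set G) :=
  le_nz_inf (nz_le_nz_W E) (le_nz_centralizer le_rfl)

theorem nz_le_nz_W1 (E : Subgroup G) : normalizer (E : Set G) ≤ normalizer (bW1 p E : Set G) :=
  le_nz_commutator (nz_le_nz_W E) le_rfl

theorem bW1_le_W (E : Subgroup G) : bW1 p E ≤ bW p E := commutator_le_left_of_nz (E_le_nz_W E)

theorem bW_le (E : Subgroup G) : bW p E ≤ E := (omegaOneCenter_le _).trans (pCoreOf_le E)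

theorem bZ_le (E : Subgroup G) : bZ p E ≤ bW p E := inf_le_left

theorem trivOn_mono {X Y Y' : Subgroup G} {g : G} (h : g ∈ trivOn X Y) (hY : Y ≤ Y')
    (hg : g ∈ normalizer (Y' : Set G)) : g ∈ trivOn X Y' := ⟨h.1, hg, fun x hx => hY (h.2.2 x hx)⟩

theorem Qe_le_trivOn_bot (E : Subgroup G) : Cfsg.pCoreOf p E ≤ trivOn (bW p E) ⊥ := fun q hq =>
  mem_trivOn_bot_iff.2 fun w hw => by
    rw [(mem_centralizer_iff.1 (omegaOneCenter_le_centralizer _ hw) q hq)]; group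

theorem Qe_le_trivOn_W (E : Subgroup G) : Cfsg.pCoreOf p E ≤ trivOn (bW p E) (bZ p E) := fun q hq =>
  trivOn_mono (Qe_le_trivOn_bot E hq) bot_le (nz_le_nz_Z E (le_normalizer (pCoreOf_le E hq)))

theorem Qe_le_trivOn_top {E : Subgroup G}
    (h : ⁅Cfsg.pCoreOf p E, Cfsg.pCoreOf p E⁆ ≤ bW p E) :
    Cfsg.pCoreOf p E ≤ trivOn (Cfsg.pCoreOf p E) (bW p E) :=
  le_trivOn_self h ((pCoreOf_le E).trans (E_le_nz_W E))

variable {T : Sylow p G} {E : Subgroup G}

theorem W_not_le_Z (hG : centralizer (Cfsg.pCore p G : Set G) ≤ Cfsg.pCore p G)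
    (hE : Cfsg.IsBaumannBlock p (T : Subgroup G) E) : ¬ bW p E ≤ centralizer (E : Set G) := by
  intro h
  have h1 : bW1 p E = ⊥ := commutator_eq_bot_iff_le_centralizer.2 h
  exact (W_E_facts hG hE).2 (by rw [show ⁅Cfsg.omegaOneCenter p (Cfsg.pCoreOf p E), E⁆ = ⊥ from h1, commutator_bot_left])

theorem W1_not_le_Z (hG : centralizer (Cfsg.pCore p G : Set G) ≤ Cfsg.pCore p G)
    (hE : Cfsg.IsBaumannBlock p (T : Subgroup G) E) : ¬ bW1 p E ≤ bZ p E := fun h =>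
  (W_E_facts hG hE).2 (commutator_eq_bot_iff_le_centralizer.2 (h.trans inf_le_right))

theorem W_le_W1_sup_Z (hG : centralizer (Cfsg.pCore p G : Set G) ≤ Cfsg.pCore p G)
    (hE : Cfsg.IsBaumannBlock p (T : Subgroup G) E) : bW p E ≤ bW1 p E ⊔ bZ p E :=
  (block_dichotomy hE (bW1_le_W E) (right_le_nz_commutator _ _)).resolve_left (W1_not_le_Z hG hE)

/-- Elements commuting with the action of a block on `W / Z` act on it through a commutative group. -/
theorem block_commutator (hE : Cfsg.IsBaumannBlock p (T : Subgroup G) E) {K : Subgroup G}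
    (hKE : K ≤ normalizer (E : Set G)) (h : ∀ k ∈ K, ∀ e ∈ E, ⁅k, e⁆ ∈ trivOn (bW p E) (bZ p E)) :
    ⁅K, K⁆ ≤ trivOn (bW p E) (bZ p E) := by
  rcases hE.2.2.2.2 with ⟨F, _, _, n, -, -, hact, -⟩ | ⟨-, m, -, hact, -⟩
  · exact sl_layer_commutator hact (hKE.trans (nz_le_nz_W E)) (hKE.trans (nz_le_nz_Z E)) h
  · exact alt_layer_commutator ⟨m, rfl⟩ hact (hKE.trans (nz_le_nz_W E)) (hKE.trans (nz_le_nz_Z E)) h

theorem sl_quasisimple {F : Type} [Field F] [Fintype F] (h : 4 ≤ Fintype.card F) :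
    Cfsg.IsQuasisimple (Matrix.SpecialLinearGroup (Fin 2) F) := by
  classical
  have := Matrix.ProjectiveSpecialLinearGroup.rank_two_simple (F := F)
    (by rw [Nat.card_eq_fintype_card]; exact h)
  exact ⟨⟨SchurAlt.sl_perfect h⟩, this⟩

theorem alt_ne (hG : centralizer (Cfsg.pCore p G : Set G) ≤ Cfsg.pCore p G)
    (hE : Cfsg.IsBaumannBlock p (T : Subgroup G) E) {m : ℕ}
    (hact : Cfsg.ActsAsOddPermModuleOnSection (2 * m + 1) (alternatingGroup (Fin (2 * m + 1))) E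
      (bW p E) (bZ p E)) : 1 ≤ m := by
  by_contra h
  obtain rfl : m = 0 := by omega
  obtain ⟨-, -, ρ, ψ, -, hev, -, hk, -⟩ := hact
  refine W_not_le_Z hG hE fun w hw => ((hk ⟨w, hw⟩).1 ?_).2
  refine Multiplicative.toAdd.injective (funext fun i => ?_)
  have := hev ⟨w, hw⟩
  rw [Fin.sum_univ_one] at this
  rw [show i = 0 from Fin.ext (by omega), this]
  rfl

theorem card_alt_three : Nat.card ↥(alternatingGroup (Fin 3)) = 3 := by
  rw [nat_card_alternatingGroup, Nat.card_eq_fintype_card, Fintype.card_fin]; rfl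

theorem block_kind (hG : centralizer (Cfsg.pCore p G : Set G) ≤ Cfsg.pCore p G)
    (hE : Cfsg.IsBaumannBlock p (T : Subgroup G) E) :
    SmallC p E ∨ SmallQ p E ∨ Cfsg.IsQuasisimple (↥E ⧸ Cfsg.pCore p ↥E) := by
  rcases hE.2.2.2.2 with ⟨F, i1, i2, n, hc, ⟨e⟩, hact, -⟩ | ⟨hp2, m, ⟨e⟩, hact, -⟩
  · by_cases h4 : 4 ≤ Fintype.card F
    · refine Or.inr (Or.inr ((Lib.Components.qs_congr ?_).1 (sl_quasisimple (F := F) h4)))
      exact (Subgroup.topEquiv.symm.trans (MulEquiv.subgroupCongr (SchurAlt.sl_perfect h4).symm)).trans e.symm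
    have h2 := Fintype.one_lt_card (α := F)
    have hpq : p ∣ Fintype.card F := by
      rw [hc]; refine dvd_pow_self p fun hn => ?_
      rw [hn, pow_zero] at hc; omega
    rcases (show Fintype.card F = 2 ∨ Fintype.card F = 3 by omega) with hq | hq
    · refine Or.inl ⟨(Nat.prime_dvd_prime_iff_eq hp.out Nat.prime_two).1 (hq ▸ hpq), ?_⟩
      rw [Nat.card_congr e.toEquiv, sl2_card_two hq]
    · exact Or.inr (Or.inl ⟨(Nat.prime_dvd_prime_iff_eq hp.out Nat.prime_three).1 (hq ▸ hpq),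
        F, i1, i2, hq, ⟨e⟩, hact⟩)
  · have hm := alt_ne hG hE hact
    by_cases h1 : m = 1
    · subst h1
      exact Or.inl ⟨hp2, by rw [Nat.card_congr e.toEquiv]; exact card_alt_three⟩
    have : IsSimpleGroup ↥(alternatingGroup (Fin (2 * m + 1))) :=
      alternatingGroup.isSimpleGroup (by rw [Nat.card_eq_fintype_card, Fintype.card_fin]; omega)
    refine Or.inr (Or.inr ((Lib.Components.qs_congr e.symm).1 (Lib.Components.qs_of_simple ?_)))
    intro hc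
    obtain ⟨a, ha, b, hb, hab⟩ := alt_noncomm (k := 2 * m + 1) (by omega)
    exact hab (congrArg Subtype.val (mul_comm' (⟨a, ha⟩ : ↥(alternatingGroup (Fin (2 * m + 1)))) ⟨b, hb⟩))

theorem abelian_small (hG : centralizer (Cfsg.pCore p G : Set G) ≤ Cfsg.pCore p G)
    (hE : Cfsg.IsBaumannBlock p (T : Subgroup G) E) (h : ⁅E, E⁆ ≤ trivOn (bW p E) (bZ p E)) :
    SmallC p E := by
  rcases hE.2.2.2.2 with ⟨F, i1, i2, n, hc, hiso, hact, -⟩ | ⟨hp2, m, ⟨e⟩, hact, -⟩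
  · by_cases h3 : 3 ≤ Fintype.card F
    · exfalso
      obtain ⟨a, ha, b, hb, hab⟩ := sl2_res_noncomm (F := F) h3
      obtain ⟨ρ, ψ, hr, -, hs, hk, hρ⟩ := sl_layer hiso hact (Qe_le_trivOn_W E)
      rw [← hr] at ha hb
      obtain ⟨x, rfl⟩ := ha
      obtain ⟨y, rfl⟩ := hb
      apply hab
      rw [← commutatorElement_eq_one_iff_mul_comm, ← map_commutatorElement]
      refine Subtype.ext (Matrix.ext_of_mulVec_single fun i => ?_)
      obtain ⟨u, hu⟩ := hs (Multiplicative.ofAdd (Pi.single i 1))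
      have hm : ((⁅x, y⁆ : ↥E) : G) * u * ((⁅x, y⁆ : ↥E) : G)⁻¹ ∈ bW p E :=
        conj_mem_of_nz (E_le_nz_W E (⁅x, y⁆ : ↥E).2) u.2
      have h0 := (hk (⟨_, hm⟩ * u⁻¹)).2 (by
        simpa using (h (show ((⁅x, y⁆ : ↥E) : G) ∈ ⁅E, E⁆ from commutator_mem_commutator x.2 y.2)).2.2 _ u.2)
      rw [map_mul, map_inv, mul_inv_eq_one, hρ _ u hm, hu] at h0
      have h1 := Multiplicative.ofAdd.injective h0
      rw [toAdd_ofAdd] at h1
      exact h1.trans (Matrix.one_mulVec _).symm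
    · have h2 := Fintype.one_lt_card (α := F)
      have hq : Fintype.card F = 2 := by omega
      refine ⟨(Nat.prime_dvd_prime_iff_eq hp.out Nat.prime_two).1 (hq ▸ hc ▸ dvd_pow_self p ?_), ?_⟩
      · intro hn; rw [hn, pow_zero] at hc; omega
      · rw [Nat.card_congr hiso.some.toEquiv, sl2_card_two hq]
  · refine ⟨hp2, ?_⟩
    have hm := alt_ne hG hE hact
    by_cases h1 : m = 1
    · subst h1; rw [Nat.card_congr e.toEquiv]; exact card_alt_three
    exfalso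
    obtain ⟨-, -, ρ, ψ, hr, hev, hsur, hk, hact⟩ := hact
    obtain ⟨a, ha, b, hb, hab⟩ := alt_noncomm (k := 2 * m + 1) (by omega)
    rw [← hr] at ha hb
    obtain ⟨x, rfl⟩ := ha
    obtain ⟨y, rfl⟩ := hb
    apply hab
    rw [← commutatorElement_eq_one_iff_mul_comm, ← map_commutatorElement]
    set c := (⁅x, y⁆ : ↥E)
    have hfix : ∀ v : Fin (2 * m + 1) → ZMod 2, ∑ i, v i = 0 → ∀ i, v ((ρ c)⁻¹ i) = v i := by
      intro v hv i
      obtain ⟨u, rfl⟩ := hsur v hv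
      obtain ⟨w, hw, hwe⟩ := hact c u
      have h0 := (hk (w * u⁻¹)).2 (by
        simpa [hw] using (h (show (c : G) ∈ ⁅E, E⁆ from commutator_mem_commutator x.2 y.2)).2.2 _ u.2)
      rw [map_mul, map_inv, mul_inv_eq_one] at h0
      rw [← hwe, h0]
    refine Equiv.ext fun i => ?_
    show ρ c i = i
    by_contra hne
    obtain ⟨j, -, hj⟩ := Finset.exists_mem_notMem_of_card_lt_card (s := ({i, ρ c i} : Finset _))
      (t := Finset.univ) (lt_of_le_of_lt Finset.card_le_two (by simp; omega))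
    simp only [Finset.mem_insert, Finset.mem_singleton, not_or] at hj
    have := hfix (Pi.single i 1 + Pi.single j 1) (by simp [Finset.sum_add_distrib]; decide) (ρ c i)
    simp [hne, Ne.symm hj.1, Ne.symm hj.2] at this

section Fpf

variable (hG : centralizer (Cfsg.pCore p G : Set G) ≤ Cfsg.pCore p G)
  (hE : Cfsg.IsBaumannBlock p (T : Subgroup G) E)
include hG hE

theorem fpf_of_central {x : G} (hx : x ∈ E) (hc : ∀ e ∈ E, ⁅x, e⁆ ∈ Cfsg.pCoreOf p E)
    (hne : x ∉ trivOn (bW p E) (bZ p E)) :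
    ∀ w ∈ bW p E, x * w * x⁻¹ * w⁻¹ ∈ bZ p E → w ∈ bZ p E := by
  set δ := dl (bW_comm (p := p) E) (E_le_nz_W E hx)
  set U := (((bZ p E).subgroupOf (bW p E)).comap δ).map (bW p E).subtype
  have hU : ∀ {w : G}, w ∈ U ↔ w ∈ bW p E ∧ x * w * x⁻¹ * w⁻¹ ∈ bZ p E := fun {w} =>
    ⟨fun ⟨u, hu, e⟩ => e ▸ ⟨u.2, hu⟩, fun ⟨h1, h2⟩ => ⟨⟨w, h1⟩, h2, rfl⟩⟩
  have hEU : E ≤ normalizer (U : Set G) := by
    refine le_nz_iff.2 fun e he w hw => ?_
    rw [hU] at hw ⊢
    refine ⟨conj_mem_of_nz (E_le_nz_W E he) hw.1, ?_⟩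
    have hq : x * (e⁻¹ * x⁻¹ * e) ∈ Cfsg.pCoreOf p E := by
      have := hc e⁻¹ (inv_mem he)
      rw [commutatorElement_def, inv_inv] at this
      convert this using 1; group
    have hw' : x * w * x⁻¹ ∈ bW p E := conj_mem_of_nz (E_le_nz_W E hx) hw.1
    have h1 : (x * (e⁻¹ * x⁻¹ * e))⁻¹ * (x * w * x⁻¹) * (x * (e⁻¹ * x⁻¹ * e)) = x * w * x⁻¹ := by
      rw [mul_assoc, ← mem_centralizer_iff.1 (omegaOneCenter_le_centralizer _ hw') _ hq, inv_mul_cancel_left]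
    have := conj_mem_of_nz (nz_le_nz_Z E (le_normalizer he)) hw.2
    convert this using 1
    conv_rhs => rw [← h1]
    group
  have hUW : U ≤ bW p E := fun w hw => (hU.1 hw).1
  rcases block_dichotomy hE hUW hEU with h | h
  · exact fun w hw hz => h (hU.2 ⟨hw, hz⟩)
  · refine absurd ⟨E_le_nz_W E hx, nz_le_nz_Z E (le_normalizer hx), fun w hw => ?_⟩ hne
    have hZU : bZ p E ≤ U := fun z hz => hU.2 ⟨hz.1, by
      rw [← mem_centralizer_iff.1 hz.2 x hx |>.symm]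
      simp [mul_assoc]⟩
    exact (hU.1 ((sup_le le_rfl hZU) (h hw))).2

/-- The decomposition `W = [W, E] × C_W(E)` from a central element. -/
theorem W1_facts {x : G} (hx : x ∈ E) (ho : (orderOf x).Coprime p)
    (hc : ∀ e ∈ E, ⁅x, e⁆ ∈ Cfsg.pCoreOf p E) (hne : x ∉ trivOn (bW p E) (bZ p E)) :
    (∀ w ∈ bW1 p E, x * w * x⁻¹ = w → w = 1) ∧ (∀ w ∈ bW1 p E, w ∈ centralizer (E : Set G) → w = 1) ∧
      Nat.card (bW1 p E) = (bZ p E).relIndex (bW p E) := by
  have hfpf := fpf_of_central hG hE hx hc hne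
  set δ := dl (bW_comm (p := p) E) (E_le_nz_W E hx) with hδ
  have hker : δ.ker = (bZ p E).subgroupOf (bW p E) := by
    ext u
    rw [MonoidHom.mem_ker, mem_subgroupOf]
    constructor
    · intro h
      exact hfpf u u.2 (by rw [← dl_coe (bW_comm (p := p) E) (E_le_nz_W E hx) u, ← hδ, h]; exact one_mem _)
    · intro h
      refine Subtype.ext ?_
      show x * (u : G) * x⁻¹ * (u : G)⁻¹ = 1
      rw [mem_centralizer_iff.1 h.2 x hx]; group
  set I := δ.range.map (bW p E).subtype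
  have hfix : ∀ w ∈ I, x * w * x⁻¹ = w → w = 1 := by
    rintro _ ⟨_, ⟨u, rfl⟩, rfl⟩ h
    have hc' : Commute x (u : G) := by
      refine commute_of_two_step (p := p) ho ?_ ?_
      · rw [show (u : G)⁻¹ * (x * u * x⁻¹) = (δ u : G) from
          bW_comm E _ (inv_mem u.2) _ (conj_mem_of_nz (E_le_nz_W E hx) u.2)]
        exact mul_inv_eq_iff_eq_mul.1 h
      · obtain ⟨k, hk⟩ := bW_isPGroup E (δ u)
        refine ⟨k, ?_⟩
        rw [show (u : G)⁻¹ * (x * u * x⁻¹) = (δ u : G) from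
          bW_comm E _ (inv_mem u.2) _ (conj_mem_of_nz (E_le_nz_W E hx) u.2)]
        simpa using congrArg Subtype.val hk
    show x * (u : G) * x⁻¹ * (u : G)⁻¹ = 1
    rw [hc'.eq]; group
  have hIW : bW1 p E ≤ I := by
    have hIE : ∀ e ∈ E, ∀ i ∈ I, e * i * e⁻¹ ∈ I := by
      rintro e he _ ⟨_, ⟨u, rfl⟩, rfl⟩
      refine ⟨_, ⟨⟨e * u * e⁻¹, conj_mem_of_nz (E_le_nz_W E he) u.2⟩, rfl⟩, ?_⟩
      show x * (e * u * e⁻¹) * x⁻¹ * (e * u * e⁻¹)⁻¹ = e * (x * u * x⁻¹ * (u : G)⁻¹) * e⁻¹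
      have hq : x * (e⁻¹ * x⁻¹ * e) ∈ Cfsg.pCoreOf p E := by
        have := hc e⁻¹ (inv_mem he)
        rw [commutatorElement_def, inv_inv] at this
        convert this using 1; group
      have hw' : x * (u : G) * x⁻¹ ∈ bW p E := conj_mem_of_nz (E_le_nz_W E hx) u.2
      have h1 : (x * (e⁻¹ * x⁻¹ * e))⁻¹ * (x * u * x⁻¹) * (x * (e⁻¹ * x⁻¹ * e)) = x * u * x⁻¹ := by
        rw [mul_assoc, ← mem_centralizer_iff.1 (omegaOneCenter_le_centralizer _ hw') _ hq, inv_mul_cancel_left]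
      conv_rhs => rw [← h1]
      group
    rw [commutator_le]
    intro w hw e he
    obtain ⟨v, hv⟩ := dl_range_surj (bW_comm (p := p) E) (bW_isPGroup E) (E_le_nz_W E hx) ho ⟨w, hw⟩
    set i : ↥(bW p E) := δ v
    have hz : i⁻¹ * ⟨w, hw⟩ ∈ δ.ker := by rw [MonoidHom.mem_ker, map_mul, map_inv, hv, inv_mul_cancel]
    rw [hker] at hz
    have hiI : (i : G) ∈ I := ⟨i, ⟨v, rfl⟩, rfl⟩
    have hzc := mem_centralizer_iff.1 hz.2 e he
    have : ⁅w, e⁆ = (i : G) * (e * (i : G)⁻¹ * e⁻¹) := by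
      simp only [subtype_apply, Subgroup.coe_mul, Subgroup.coe_inv] at hzc
      calc ⁅w, e⁆ = (i : G) * (((i : G)⁻¹ * w) * e) * ((i : G)⁻¹ * w)⁻¹ * (i : G)⁻¹ * e⁻¹ := by
            rw [commutatorElement_def]; group
        _ = _ := by rw [← hzc]; group
    rw [this]
    exact mul_mem hiI (hIE e he _ (inv_mem hiI))
  have hIeq : bW1 p E = I := by
    refine le_antisymm hIW ?_
    rintro _ ⟨_, ⟨u, rfl⟩, rfl⟩
    show x * (u : G) * x⁻¹ * (u : G)⁻¹ ∈ bW1 p E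
    rw [show x * (u : G) * x⁻¹ * (u : G)⁻¹ = ⁅(u : G), x⁆⁻¹ by rw [commutatorElement_def]; group]
    exact inv_mem (commutator_mem_commutator u.2 hx)
  refine ⟨fun w hw => hfix w (hIW hw), fun w hw hc' => hfix w (hIW hw) ?_, ?_⟩
  · rw [mem_centralizer_iff.1 hc' x hx]; group
  · rw [hIeq, card_map_of_injective (bW p E).subtype_injective, ← index_ker, hker]
    rfl

/-- Coprime elements of the block move `Ω₁(Z(O_p(G)))` into `[W, E]`. -/
theorem V_delta {y : G} (hy : y ∈ E) (ho : (orderOf y).Coprime p) :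
    ∀ v ∈ Cfsg.omegaOneCenter p (Cfsg.pCore p G), y * v * y⁻¹ * v⁻¹ ∈ bW1 p E := by
  intro v hv
  have hVc : ∀ a ∈ Cfsg.omegaOneCenter p (Cfsg.pCore p G), ∀ b ∈ Cfsg.omegaOneCenter p (Cfsg.pCore p G),
      a * b = b * a := fun a ha b hb => Thompson.commute_of_elementary (omegaOneCenter_elementary _) ha hb
  have hyV := le_nz_omegaOneCenter (p := p) (le_nz_pCore (p := p) E) hy
  obtain ⟨w, hw⟩ := dl_range_surj hVc (Thompson.isPGroup_of_elementary (omegaOneCenter_elementary _))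
    hyV ho ⟨v, hv⟩
  have hmem : ∀ a : ↥(Cfsg.omegaOneCenter p (Cfsg.pCore p G)), (dl hVc hyV a : G) ∈ bW p E := fun a => by
    refine commutator_V_le_W hG hE ?_
    rw [dl_coe, show y * (a : G) * y⁻¹ * (a : G)⁻¹ = ⁅(a : G), y⁆⁻¹ by rw [commutatorElement_def]; group]
    exact inv_mem (commutator_mem_commutator a.2 hy)
  have := congrArg Subtype.val hw
  rw [dl_coe hVc hyV ⟨v, hv⟩, dl_coe] at this
  rw [← this, show y * (dl hVc hyV w : G) * y⁻¹ * (dl hVc hyV w : G)⁻¹ = ⁅(dl hVc hyV w : G), y⁆⁻¹ by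
    rw [commutatorElement_def]; group]
  exact inv_mem (commutator_mem_commutator (hmem w) hy)

end Fpf

theorem coprime_rep {x : G} (hx : x ∈ E) {n : ℕ} (hn : n.Coprime p) (h : x ^ n ∈ Cfsg.pCoreOf p E) :
    ∃ y ∈ E, (orderOf y).Coprime p ∧ y⁻¹ * x ∈ Cfsg.pCoreOf p E := by
  obtain ⟨a, b, ha, hb, hab, ⟨k, hk⟩, hbo⟩ := exists_ppart (p := p) x
  refine ⟨b, zpowers_le.2 hx hb, hbo, ?_⟩
  have hcomm : Commute a b := by
    obtain ⟨i, rfl⟩ := mem_zpowers_iff.1 ha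
    obtain ⟨j, rfl⟩ := mem_zpowers_iff.1 hb
    exact (Commute.refl x).zpow_zpow i j
  have : b⁻¹ * x = a := by rw [hab, hcomm.eq]; group
  rw [this]
  refine mem_of_pow_coprime (p := p) hn ⟨k, by rw [← hk, pow_orderOf_eq_one]; exact one_mem _⟩ ?_
  obtain ⟨i, rfl⟩ := mem_zpowers_iff.1 ha
  rw [← zpow_natCast, ← zpow_mul, mul_comm, zpow_mul, zpow_natCast]
  exact zpow_mem h i

end Cfsg.Agent.Lib.LocalChar.Baumann
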