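import Cfsg.Agent.Lib.LocalChar.BaumannIrred
import Cfsg.Agent.Lib.SchurAlt.SL2
import Mathlib.GroupTheory.SpecificGroups.Alternating

/-! Commutants and small cases of the natural modules of Baumann blocks. -/

set_option autoImplicit false
set_option linter.unusedSectionVars false

open Matrix
open scoped commutatorElement

namespace Cfsg.Agent.Lib.LocalChar.Baumann

variable {F : Type*} [Field F] [Fintype F]

local notation "SL2" => SpecialLinearGroup (Fin 2) F

theorem small_elems (h : Fintype.card F ≤ 3) (x : F) : x = 0 ∨ x = 1 ∨ x = -1 := by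
  have hq : Fintype.card F = 2 ∨ Fintype.card F = 3 := by
    have := Fintype.one_lt_card (α := F)
    omega
  have h := FiniteField.pow_card x
  rcases hq with h2 | h3
  · rw [h2] at h
    have : x * (x - 1) = 0 := by linear_combination h
    rcases mul_eq_zero.1 this with e | e
    · exact Or.inl e
    · exact Or.inr (Or.inl (sub_eq_zero.1 e))
  · rw [h3] at h
    have : x * ((x - 1) * (x + 1)) = 0 := by linear_combination h
    rcases mul_eq_zero.1 this with e | e
    · exact Or.inl e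
    rcases mul_eq_zero.1 e with e | e
    · exact Or.inr (Or.inl (sub_eq_zero.1 e))
    · exact Or.inr (Or.inr (eq_neg_of_add_eq_zero_left e))

theorem exists_slG : ∃ g ∈ commutator SL2, (g : Matrix (Fin 2) (Fin 2) F) = !![3, -1; 1, 0] := by
  obtain ⟨u, hu⟩ : ∃ u : SL2, (u : Matrix (Fin 2) (Fin 2) F) = !![1, 1; 0, 1] :=
    ⟨⟨!![1, 1; 0, 1], by simp [det_fin_two]⟩, rfl⟩
  obtain ⟨l, hl⟩ : ∃ u : SL2, (u : Matrix (Fin 2) (Fin 2) F) = !![1, 0; 1, 1] :=
    ⟨⟨!![1, 0; 1, 1], by simp [det_fin_two]⟩, rfl⟩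
  refine ⟨⁅u, l⁆, Subgroup.commutator_mem_commutator (Subgroup.mem_top u) (Subgroup.mem_top l), ?_⟩
  rw [commutatorElement_def]
  show (u.1 * l.1 * adjugate u.1 * adjugate l.1 : Matrix (Fin 2) (Fin 2) F) = _
  rw [show u.1 = _ from hu, show l.1 = _ from hl, adjugate_fin_two_of, adjugate_fin_two_of, mul_fin_two,
    mul_fin_two, mul_fin_two]
  ext i j
  fin_cases i <;> fin_cases j <;> (simp; try ring)

/-- Additive endomorphisms commuting with `SL₂(F)'` commute with each other. -/
theorem sl2_commutant_comm (φ₁ φ₂ : (Fin 2 → F) →+ (Fin 2 → F))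
    (h₁ : ∀ g ∈ commutator SL2, ∀ x, φ₁ ((g : Matrix (Fin 2) (Fin 2) F).mulVec x) = (g : Matrix (Fin 2) (Fin 2) F).mulVec (φ₁ x))
    (h₂ : ∀ g ∈ commutator SL2, ∀ x, φ₂ ((g : Matrix (Fin 2) (Fin 2) F).mulVec x) = (g : Matrix (Fin 2) (Fin 2) F).mulVec (φ₂ x))
    (x : Fin 2 → F) : φ₁ (φ₂ x) = φ₂ (φ₁ x) := by
  classical
  by_cases h4 : 4 ≤ Fintype.card F
  · have key : ∀ φ : (Fin 2 → F) →+ (Fin 2 → F),
        (∀ g ∈ commutator SL2, ∀ x, φ ((g : Matrix (Fin 2) (Fin 2) F).mulVec x) = (g : Matrix (Fin 2) (Fin 2) F).mulVec (φ x)) →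
        ∃ c : F, ∀ x, φ x = c • x := by
      intro φ hφ
      have up : ∀ (t : F) (y : Fin 2 → F), φ ![t * y 1, 0] = ![t * φ y 1, 0] := by
        intro t y
        have h := hφ ⟨!![1, t; 0, 1], by simp [det_fin_two]⟩
          (by rw [SchurAlt.sl_perfect h4]; trivial) y
        have e : ∀ z : Fin 2 → F, (!![1, t; 0, 1] : Matrix (Fin 2) (Fin 2) F).mulVec z = z + ![t * z 1, 0] := by
          intro z; funext i; fin_cases i <;> simp [mulVec, dotProduct, Fin.sum_univ_two]
        simp only [e, map_add, add_right_inj] at h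
        exact h
      have lo : ∀ (t : F) (y : Fin 2 → F), φ ![0, t * y 0] = ![0, t * φ y 0] := by
        intro t y
        have h := hφ ⟨!![1, 0; t, 1], by simp [det_fin_two]⟩
          (by rw [SchurAlt.sl_perfect h4]; trivial) y
        have e : ∀ z : Fin 2 → F, (!![1, 0; t, 1] : Matrix (Fin 2) (Fin 2) F).mulVec z = z + ![0, t * z 0] := by
          intro z; funext i; fin_cases i <;> simp [mulVec, dotProduct, Fin.sum_univ_two, add_comm]
        simp only [e, map_add, add_right_inj] at h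
        exact h
      set c := φ ![0, 1] 1
      refine ⟨c, fun y => ?_⟩
      have hu : ∀ t : F, φ ![t, 0] = ![t * c, 0] := fun t => by simpa [c] using up t ![0, 1]
      have hl : ∀ t : F, φ ![0, t] = ![0, t * c] := fun t => by
        have := lo t ![1, 0]
        simpa [hu 1] using this
      have hy : y = ![y 0, 0] + ![0, y 1] := by funext i; fin_cases i <;> simp
      conv_lhs => rw [hy, map_add, hu, hl]
      funext i; fin_cases i <;> simp [mul_comm]
    obtain ⟨c₁, e₁⟩ := key φ₁ h₁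
    obtain ⟨c₂, e₂⟩ := key φ₂ h₂
    rw [e₁, e₂, e₂ (φ₁ x), e₁, smul_smul, smul_smul, mul_comm]
  · have hel := small_elems (F := F) (by omega)
    obtain ⟨g, hg, hgm⟩ := exists_slG (F := F)
    set v : Fin 2 → F := ![1, 0]
    set w := (g : Matrix (Fin 2) (Fin 2) F).mulVec v
    have hint : ∀ (c : F) (y : Fin 2 → F), ∃ m : ℤ, c • y = m • y := by
      intro c y
      rcases hel c with rfl | rfl | rfl
      · exact ⟨0, by simp⟩
      · exact ⟨1, by simp⟩
      · exact ⟨-1, by simp⟩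
    have hspan : ∀ y, ∃ m n : ℤ, y = m • v + n • w := by
      intro y
      obtain ⟨m, hm⟩ := hint (y 0 - 3 * y 1) v
      obtain ⟨n, hn⟩ := hint (y 1) w
      refine ⟨m, n, ?_⟩
      rw [← hm, ← hn]
      funext i
      fin_cases i <;> simp [w, v, hgm, mulVec, dotProduct, Fin.sum_univ_two] <;> ring
    obtain ⟨m₁, n₁, e₁⟩ := hspan (φ₁ v)
    obtain ⟨m₂, n₂, e₂⟩ := hspan (φ₂ v)
    have e1 : ∀ y, φ₁ ((g : Matrix (Fin 2) (Fin 2) F).mulVec y) = (g : Matrix (Fin 2) (Fin 2) F).mulVec (φ₁ y) := h₁ g hg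
    have e2 : ∀ y, φ₂ ((g : Matrix (Fin 2) (Fin 2) F).mulVec y) = (g : Matrix (Fin 2) (Fin 2) F).mulVec (φ₂ y) := h₂ g hg
    have hv : φ₁ (φ₂ v) = φ₂ (φ₁ v) := by
      simp only [e₁, e₂, map_add, map_zsmul, w, e1, e2, mulVec_add, mulVec_smul, smul_add, smul_smul]
      rw [mul_comm m₁, mul_comm n₁ m₂, mul_comm m₁ n₂, mul_comm n₁ n₂]
      abel
    obtain ⟨m, n, rfl⟩ := hspan x
    simp only [map_add, map_zsmul, w, e1, e2, hv]

theorem sl2_res_noncomm (h : 3 ≤ Fintype.card F) :
    ∃ a ∈ commutator SL2, ∃ b ∈ commutator SL2, a * b ≠ b * a := by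
  classical
  by_cases h4 : 4 ≤ Fintype.card F
  · refine ⟨⟨!![1, 1; 0, 1], by simp [det_fin_two]⟩, by rw [SchurAlt.sl_perfect h4]; trivial,
      ⟨!![1, 0; 1, 1], by simp [det_fin_two]⟩, by rw [SchurAlt.sl_perfect h4]; trivial, fun e => ?_⟩
    have hm : (!![1, 1; 0, 1] * !![1, 0; 1, 1] : Matrix (Fin 2) (Fin 2) F) =
        !![1, 0; 1, 1] * !![1, 1; 0, 1] := congrArg Subtype.val e
    have := congrFun (congrFun hm 0) 0
    simp [mul_fin_two] at this
  · have h3 : (3 : F) = 0 := by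
      have hcast : ((Fintype.card F : ℕ) : F) = 0 := Nat.cast_card_eq_zero F
      rw [show Fintype.card F = 3 by omega] at hcast
      exact_mod_cast hcast
    obtain ⟨g, hg, hgm⟩ := exists_slG (F := F)
    obtain ⟨u, hu⟩ : ∃ u : SL2, (u : Matrix (Fin 2) (Fin 2) F) = !![1, 1; 0, 1] :=
      ⟨⟨!![1, 1; 0, 1], by simp [det_fin_two]⟩, rfl⟩
    have : (commutator SL2).Normal := inferInstance
    refine ⟨g, hg, u * g * u⁻¹, Subgroup.Normal.conj_mem inferInstance g hg u, fun e => ?_⟩
    have hm : (g.1 * (u.1 * g.1 * adjugate u.1) : Matrix (Fin 2) (Fin 2) F) = u.1 * g.1 * adjugate u.1 * g.1 :=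
      congrArg Subtype.val e
    rw [show u.1 = _ from hu, show g.1 = _ from hgm, adjugate_fin_two_of, h3] at hm
    simp only [mul_fin_two] at hm
    have := congrFun (congrFun hm 0) 0
    simp at this

theorem sl2_invol (g : SL2) (h : g * g = 1) (h2 : (2 : F) ≠ 0) : g = 1 ∨ g = -1 := by
  have hm : (g.1 * g.1 : Matrix (Fin 2) (Fin 2) F) = 1 := congrArg Subtype.val h
  have hd : g.1 0 0 * g.1 1 1 - g.1 0 1 * g.1 1 0 = 1 := by rw [← det_fin_two]; exact g.2
  have e00 := congrFun (congrFun hm 0) 0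
  have e01 := congrFun (congrFun hm 0) 1
  have e10 := congrFun (congrFun hm 1) 0
  simp only [mul_apply, Fin.sum_univ_two, one_apply, if_true, Fin.zero_eq_one_iff, OfNat.ofNat_ne_one,
    if_false, one_ne_zero] at e00 e01 e10
  by_cases hs : g.1 0 0 + g.1 1 1 = 0
  · exact absurd (show (2 : F) = 0 by linear_combination -hd - e00 + g.1 0 0 * hs) h2
  have hb : g.1 0 1 = 0 := (mul_eq_zero.1 (show g.1 0 1 * (g.1 0 0 + g.1 1 1) = 0 by linear_combination e01)).resolve_right hs
  have hc : g.1 1 0 = 0 := (mul_eq_zero.1 (show g.1 1 0 * (g.1 0 0 + g.1 1 1) = 0 by linear_combination e10)).resolve_right hs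
  have ha : g.1 0 0 * g.1 0 0 = 1 := by linear_combination e00 - g.1 1 0 * hb
  have hda : g.1 0 0 * g.1 1 1 = 1 := by linear_combination hd + g.1 1 0 * hb
  have hdd : g.1 1 1 = g.1 0 0 := by linear_combination g.1 0 0 * hda - g.1 1 1 * ha
  rcases mul_self_eq_one_iff.1 ha with e | e
  · refine Or.inl (Subtype.ext ?_)
    show g.1 = 1
    ext i j; fin_cases i <;> fin_cases j <;> simp [hb, hc, hdd, e]
  · refine Or.inr (Subtype.ext ?_)
    show g.1 = (-1 : SL2).1
    ext i j; fin_cases i <;> fin_cases j <;> simp [hb, hc, hdd, e]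

theorem sl2_card_two (h : Fintype.card F = 2) : Nat.card (commutator SL2) = 3 := by
  classical
  have : Fact (Nat.Prime 3) := ⟨by norm_num⟩
  have hc : Nat.card SL2 = 6 := by
    rw [Classical.card_SL_two, h]; norm_num
  obtain ⟨x, hx⟩ := exists_prime_orderOf_dvd_card' (G := SL2) 3 (by rw [hc]; norm_num)
  set N := Subgroup.zpowers x
  have hN : Nat.card N = 3 := by rw [Nat.card_zpowers, hx]
  have hi : N.index = 2 := by
    have := N.card_mul_index; rw [hN, hc] at this; omega
  have : N.Normal := Subgroup.normal_of_index_eq_two hi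
  have hle : commutator SL2 ≤ N := by
    have : Fact (Nat.Prime 2) := ⟨Nat.prime_two⟩
    have : IsMulCommutative (SL2 ⧸ N) :=
      (isCyclic_of_prime_card (p := 2) (by rw [← Subgroup.index_eq_card, hi])).isMulCommutative
    exact Subgroup.Normal.quotient_commutative_iff_commutator_le.1 inferInstance
  obtain ⟨g, hg, hgm⟩ := exists_slG (F := F)
  have hd := Subgroup.card_dvd_of_le hle
  rw [hN] at hd
  refine ((Nat.dvd_prime (by norm_num)).1 hd).resolve_left fun h1 => ?_
  rw [Subgroup.card_eq_one] at h1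
  rw [h1, Subgroup.mem_bot] at hg
  have := congrFun (congrFun (hgm.symm.trans (congrArg Subtype.val hg)) 1) 0
  simp at this

section Three

abbrev M4 := ZMod 3 × ZMod 3 × ZMod 3 × ZMod 3

def mul4 (x y : M4) : M4 := (x.1 * y.1 + x.2.1 * y.2.2.1, x.1 * y.2.1 + x.2.1 * y.2.2.2,
  x.2.2.1 * y.1 + x.2.2.2 * y.2.2.1, x.2.2.1 * y.2.1 + x.2.2.2 * y.2.2.2)

def adj4 (x : M4) : M4 := (x.2.2.2, -x.2.1, -x.2.2.1, x.1)

def det4 (x : M4) : ZMod 3 := x.1 * x.2.2.2 - x.2.1 * x.2.2.1

def Q8p (x : M4) : Prop := mul4 x x = (1, 0, 0, 1) ∨ mul4 x x = (-1, 0, 0, -1)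

instance : DecidablePred Q8p := fun x => inferInstanceAs (Decidable (_ ∨ _))

theorem q8p_comm : ∀ x : M4, det4 x = 1 → ∀ y : M4, det4 y = 1 →
    Q8p (mul4 (mul4 (mul4 x y) (adj4 x)) (adj4 y)) := by decide +kernel

theorem q8p_mul : ∀ x : M4, det4 x = 1 → Q8p x → ∀ y : M4, det4 y = 1 → Q8p y → Q8p (mul4 x y) := by
  decide +kernel

theorem q8p_inv : ∀ x : M4, det4 x = 1 → Q8p x → Q8p (adj4 x) := by decide +kernel

theorem sl2_card_three (h : Fintype.card F = 3) {g : SL2} (hg : g ∈ commutator SL2) :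
    g * g = 1 ∨ g * g = -1 := by
  classical
  have : Fact (Nat.Prime 3) := ⟨by norm_num⟩
  let e : F ≃+* ZMod 3 := (ZMod.ringEquivOfPrime F (by norm_num) h).symm
  let t : SL2 → M4 := fun g => (e (g.1 0 0), e (g.1 0 1), e (g.1 1 0), e (g.1 1 1))
  have hd : ∀ g : SL2, det4 (t g) = 1 := fun g => by
    have := congrArg e g.2
    rw [det_fin_two, map_sub, map_mul, map_mul, map_one] at this
    exact this
  have hm : ∀ a b : SL2, t (a * b) = mul4 (t a) (t b) := fun a b => by
    simp [t, mul4, mul_apply, Fin.sum_univ_two]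
  have hi : ∀ a : SL2, t a⁻¹ = adj4 (t a) := fun a => by
    have : (a⁻¹ : SL2).1 = adjugate a.1 := rfl
    simp [t, adj4, this, adjugate_fin_two]
  let S : Subgroup SL2 :=
    { carrier := {g | Q8p (t g)}
      one_mem' := Or.inl (by simp [t, mul4, Q8p])
      mul_mem' := fun {a b} ha hb => by
        show Q8p (t (a * b))
        rw [hm]; exact q8p_mul _ (hd a) ha _ (hd b) hb
      inv_mem' := fun {a} ha => by
        show Q8p (t a⁻¹)
        rw [hi]; exact q8p_inv _ (hd a) ha }
  have hle : commutator SL2 ≤ S := by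
    rw [commutator_def, Subgroup.commutator_le]
    intro a _ b _
    show Q8p (t ⁅a, b⁆)
    rw [commutatorElement_def, hm, hm, hm, hi, hi]
    exact q8p_comm _ (hd a) _ (hd b)
  have hinj : ∀ a b : SL2, t a = t b → a = b := fun a b hab => by
    simp only [t, Prod.mk.injEq] at hab
    obtain ⟨h1, h2, h3, h4⟩ := hab
    refine Subtype.ext ?_
    ext i j
    fin_cases i <;> fin_cases j
    exacts [e.injective h1, e.injective h2, e.injective h3, e.injective h4]
  rcases hle hg with h' | h'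
  · exact Or.inl (hinj _ _ (by rw [hm, h']; simp [t]))
  · exact Or.inr (hinj _ _ (by rw [hm, h']; simp [t]))

end Three

/-- Over a field with three elements an additive map with square `-1` acts as an element of `SL₂'`. -/
theorem sl2_three_neg (h : Fintype.card F = 3) {φ : (Fin 2 → F) →+ (Fin 2 → F)}
    (hφ : ∀ x, φ (φ x) = -x) (R : Subgroup SL2) (hR : ∀ g : SL2, g * g = -1 → g ∈ R) :
    ∃ g ∈ R, ∀ x, φ x = (g : Matrix (Fin 2) (Fin 2) F).mulVec x := by
  have hel := small_elems (F := F) h.le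
  have h20 : (2 : F) ≠ 0 := by
    have hcast : ((Fintype.card F : ℕ) : F) = 0 := Nat.cast_card_eq_zero F
    rw [h] at hcast; push_cast at hcast
    exact fun h2 => one_ne_zero (α := F) (by linear_combination hcast - h2)
  have hsm : ∀ (c : F) (y : Fin 2 → F), φ (c • y) = c • φ y := by
    intro c y
    rcases hel c with rfl | rfl | rfl <;> simp
  set a := φ ![1, 0] 0
  set c := φ ![1, 0] 1
  set b := φ ![0, 1] 0
  set d := φ ![0, 1] 1
  have hx : ∀ x, φ x = (!![a, b; c, d] : Matrix (Fin 2) (Fin 2) F).mulVec x := by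
    intro x
    have : x = x 0 • ![1, 0] + x 1 • ![0, 1] := by funext i; fin_cases i <;> simp
    conv_lhs => rw [this, map_add, hsm, hsm]
    funext i; fin_cases i <;> simp [mulVec, dotProduct, Fin.sum_univ_two, a, b, c, d] <;> ring
  have e := hφ ![1, 0]
  have e' := hφ ![0, 1]
  rw [hx, hx, mulVec_mulVec] at e e'
  have e00 := congrFun e 0
  have e10 := congrFun e 1
  have e01 := congrFun e' 0
  have e11 := congrFun e' 1
  simp [mulVec, dotProduct, Fin.sum_univ_two] at e00 e10 e01 e11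
  have hdet : a * d - b * c = 1 := by
    by_cases hs : a + d = 0
    · linear_combination a * hs - e00
    · have hb : b = 0 := (mul_eq_zero.1 (show b * (a + d) = 0 by linear_combination e01)).resolve_right hs
      have ha : a * a = -1 := by linear_combination e00 - c * hb
      rcases hel a with e | e | e <;> rw [e] at ha <;> simp at ha
      all_goals exact absurd (show (2 : F) = 0 by linear_combination ha) h20
  refine ⟨⟨!![a, b; c, d], by rw [det_fin_two]; simpa using hdet⟩, hR _ (Subtype.ext ?_), hx⟩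
  show (!![a, b; c, d] * !![a, b; c, d] : Matrix (Fin 2) (Fin 2) F) = (-1 : SL2).1
  ext i j
  fin_cases i <;> fin_cases j <;> simp [mul_fin_two]
  exacts [e00, e01, e10, e11]

theorem mem_res_of_sq_neg (h : Fintype.card F = 3) {g : SL2} (hg : g * g = -1) : g ∈ commutator SL2 := by
  classical
  obtain ⟨n, hn, hne⟩ : ∃ n ∈ commutator SL2, ∃ m ∈ commutator SL2, n * m ≠ m * n := sl2_res_noncomm h.ge
  have : Fact (Nat.Prime 2) := ⟨Nat.prime_two⟩
  set R := commutator SL2
  have hRp : IsPGroup 2 R := fun x => ⟨2, Subtype.ext (by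
    have : ((x : SL2) * x) * ((x : SL2) * x) = 1 := by
      rcases sl2_card_three h x.2 with e | e <;> rw [e] <;> simp
    simp [pow_succ, ← mul_assoc] at this ⊢
    exact this)⟩
  obtain ⟨k, hk⟩ := IsPGroup.iff_card.1 hRp
  have hc : Nat.card SL2 = 24 := by
    rw [Classical.card_SL_two, h]; norm_num
  have hdvd : Nat.card R ∣ 24 := hc ▸ R.card_subgroup_dvd_card
  have hk8 : Nat.card R = 8 := by
    rw [hk] at hdvd ⊢
    have hk3 : k ≤ 3 := by
      by_contra hlt
      have : 2 ^ 4 ∣ 24 := (pow_dvd_pow 2 (show 4 ≤ k by omega)).trans hdvd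
      norm_num at this
    rcases Nat.lt_or_ge k 3 with h3 | h3
    · exfalso
      obtain ⟨m, hm, hnm⟩ := hne
      have hab : ∀ x y : R, x * y = y * x := by
        have hle : k ≤ 2 := by omega
        interval_cases k
        · intro x y
          have := (Nat.card_eq_one_iff_unique.1 (hk.trans (pow_zero 2))).1
          exact Subsingleton.elim _ _
        · have : IsMulCommutative R := (isCyclic_of_prime_card (p := 2) (by simpa using hk)).isMulCommutative
          exact fun x y => mul_comm' x y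
        · have : IsMulCommutative R := IsPGroup.isMulCommutative_of_card_eq_prime_sq (p := 2) hk
          exact fun x y => mul_comm' x y
      exact hnm (congrArg Subtype.val (hab ⟨n, hn⟩ ⟨m, hm⟩))
    · rw [show k = 3 by omega]; norm_num
  have hidx : R.index = 3 := by
    have := R.card_mul_index; rw [hk8, hc] at this; omega
  have h1 : g ^ 4 = 1 := by
    rw [show g ^ 4 = (g * g) * (g * g) by simp [pow_succ, mul_assoc], hg]; simp
  have h3 : g ^ 3 ∈ R := by
    have : R.Normal := inferInstance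
    rw [← QuotientGroup.eq_one_iff, QuotientGroup.mk_pow, ← hidx, Subgroup.index_eq_card]
    exact pow_card_eq_one'
  have h4 : g ^ 4 ∈ R := h1 ▸ one_mem _
  have := mul_mem (inv_mem h3) h4
  rwa [pow_succ g 3, inv_mul_cancel_left] at this

theorem even_commutant_comm {k : ℕ} (hk : Odd k) (S : AddSubgroup (Fin k → ZMod 2))
    (hS : ∀ x, x ∈ S ↔ ∑ i, x i = 0) (σS : ↥(alternatingGroup (Fin k)) → ↥S → ↥S)
    (hσ : ∀ σ x i, (σS σ x : Fin k → ZMod 2) i = (x : Fin k → ZMod 2) ((σ : Equiv.Perm (Fin k))⁻¹ i))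
    (φ₁ φ₂ : ↥S →+ ↥S) (h₁ : ∀ σ x, φ₁ (σS σ x) = σS σ (φ₁ x)) (h₂ : ∀ σ x, φ₂ (σS σ x) = σS σ (φ₂ x))
    (x : ↥S) : φ₁ (φ₂ x) = φ₂ (φ₁ x) := by
  classical
  have h01 : ∀ z : ZMod 2, z = 0 ∨ z = 1 := by decide
  rcases Nat.lt_or_ge k 3 with h1 | h3
  · obtain rfl : k = 1 := by obtain ⟨m, rfl⟩ := hk; omega
    have : ∀ y : ↥S, y = 0 := fun y => Subtype.ext (funext fun i => by
      have := (hS _).1 y.2
      rw [Fin.sum_univ_one] at this
      rw [Subsingleton.elim i 0]; exact this)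
    rw [this x]; simp
  rcases Nat.lt_or_ge k 5 with h5 | h5
  · obtain rfl : k = 3 := by obtain ⟨m, rfl⟩ := hk; omega
    let σ : ↥(alternatingGroup (Fin 3)) := ⟨Equiv.swap 0 1 * Equiv.swap 1 2, by
      rw [Equiv.Perm.mem_alternatingGroup, map_mul, Equiv.Perm.sign_swap (by decide),
        Equiv.Perm.sign_swap (by decide)]; rfl⟩
    let v : ↥S := ⟨![1, 1, 0], (hS _).2 (by decide)⟩
    set w := σS σ v
    have hw : (w : Fin 3 → ZMod 2) = fun i => (![1, 1, 0] : Fin 3 → ZMod 2) ((σ : Equiv.Perm (Fin 3))⁻¹ i) :=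
      funext fun i => hσ σ v i
    have hspan : ∀ y : ↥S, ∃ m n : ℕ, y = m • v + n • w := by
      intro y
      have hall : ∀ f : Fin 3 → ZMod 2, ∑ i, f i = 0 → ∃ m : Fin 2, ∃ n : Fin 2,
          f = (m : ℕ) • (![1, 1, 0] : Fin 3 → ZMod 2) + (n : ℕ) • (fun i => (![1, 1, 0] : Fin 3 → ZMod 2)
            ((Equiv.swap (0 : Fin 3) 1 * Equiv.swap 1 2 : Equiv.Perm (Fin 3))⁻¹ i)) := by decide +kernel
      obtain ⟨m, n, e⟩ := hall y ((hS _).1 y.2)
      refine ⟨m, n, Subtype.ext ?_⟩
      rw [AddSubgroup.coe_add, AddSubgroup.coe_nsmul, AddSubgroup.coe_nsmul, hw]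
      exact e
    obtain ⟨m₁, n₁, e₁⟩ := hspan (φ₁ v)
    obtain ⟨m₂, n₂, e₂⟩ := hspan (φ₂ v)
    obtain ⟨m₃, n₃, e₃⟩ := hspan (σS σ w)
    have hv : φ₁ (φ₂ v) = φ₂ (φ₁ v) := by
      simp only [e₁, e₂, map_add, map_nsmul, w, h₁, h₂]
      rw [show σS σ (m₁ • v + n₁ • σS σ v) = m₁ • σS σ v + n₁ • σS σ (σS σ v) from ?_,
        show σS σ (m₂ • v + n₂ • σS σ v) = m₂ • σS σ v + n₂ • σS σ (σS σ v) from ?_]
      · simp only [smul_add, smul_smul]
        rw [mul_comm m₁, mul_comm n₁ m₂, mul_comm m₁ n₂, mul_comm n₁ n₂]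
        abel
      all_goals exact Subtype.ext (funext fun i => by simp [hσ])
    obtain ⟨m, n, rfl⟩ := hspan x
    simp only [map_add, map_nsmul, w, h₁, h₂, hv]
  have key : ∀ φ : ↥S →+ ↥S, (∀ σ x, φ (σS σ x) = σS σ (φ x)) → (∀ y, φ y = 0) ∨ ∀ y, φ y = y := by
    intro φ hφ
    let a : Fin k := ⟨0, by omega⟩
    let b : Fin k := ⟨1, by omega⟩
    have hab : a ≠ b := by simp [a, b, Fin.ext_iff]
    let v : ↥S := ⟨Pi.single a 1 + Pi.single b 1, (hS _).2 (by
      simp [Finset.sum_add_distrib]; decide)⟩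
    set u := (φ v : Fin k → ZMod 2)
    have hvt : ∀ i, (v : Fin k → ZMod 2) i = if i = a ∨ i = b then 1 else 0 := fun i => by
      by_cases hi : i = a
      · subst hi; simp [v, hab]
      · by_cases hj : i = b
        · subst hj; simp [v, hab.symm]
        · simp [v, hi, hj]
    have hfix : ∀ σ : ↥(alternatingGroup (Fin k)),
        (∀ i, ((σ : Equiv.Perm (Fin k))⁻¹ i = a ∨ (σ : Equiv.Perm (Fin k))⁻¹ i = b) ↔ (i = a ∨ i = b)) →
        ∀ i, u ((σ : Equiv.Perm (Fin k))⁻¹ i) = u i := by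
      intro σ hs i
      have e : σS σ v = v := Subtype.ext (funext fun i => by rw [hσ, hvt, hvt, if_congr (hs i) rfl rfl])
      have := congrArg (fun z : ↥S => (z : Fin k → ZMod 2) i) (hφ σ v)
      simp only [e, hσ] at this
      exact this.symm
    -- `u` is constant outside `{a, b}` and takes one value on `{a, b}`
    have hout : ∀ i j, i ≠ a → i ≠ b → j ≠ a → j ≠ b → u i = u j := by
      intro i j ia ib ja jb
      by_cases hij : i = j
      · rw [hij]
      obtain ⟨l, hla, hlb, hli, hlj⟩ : ∃ l : Fin k, l ≠ a ∧ l ≠ b ∧ l ≠ i ∧ l ≠ j := by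
        obtain ⟨l, -, hl⟩ := Finset.exists_mem_notMem_of_card_lt_card (s := ({a, b, i, j} : Finset (Fin k)))
          (t := Finset.univ) (lt_of_le_of_lt Finset.card_le_four (by simp; omega))
        simp only [Finset.mem_insert, Finset.mem_singleton, not_or] at hl
        exact ⟨l, hl.1, hl.2.1, hl.2.2.1, hl.2.2.2⟩
      let σ : ↥(alternatingGroup (Fin k)) := ⟨Equiv.swap i j * Equiv.swap j l, by
        rw [Equiv.Perm.mem_alternatingGroup, map_mul, Equiv.Perm.sign_swap hij, Equiv.Perm.sign_swap hlj.symm]; rfl⟩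
      have hinv : ∀ t, (σ : Equiv.Perm (Fin k))⁻¹ t = Equiv.swap j l (Equiv.swap i j t) := fun t => by
        simp [σ, _root_.mul_inv_rev]
      have := hfix σ (fun t => by
        rw [hinv]
        simp only [Equiv.swap_apply_def]
        split_ifs <;> simp_all) j
      rw [hinv, Equiv.swap_apply_right, Equiv.swap_apply_of_ne_of_ne hij hli.symm] at this
      exact this
    obtain ⟨c, d, hca, hcb, hda, hdb, hcd⟩ : ∃ c d : Fin k, c ≠ a ∧ c ≠ b ∧ d ≠ a ∧ d ≠ b ∧ c ≠ d :=
      ⟨⟨2, by omega⟩, ⟨3, by omega⟩, by simp [a, b, Fin.ext_iff]⟩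
    have hab' : u a = u b := by
      let σ : ↥(alternatingGroup (Fin k)) := ⟨Equiv.swap a b * Equiv.swap c d, by
        rw [Equiv.Perm.mem_alternatingGroup, map_mul, Equiv.Perm.sign_swap hab, Equiv.Perm.sign_swap hcd]; rfl⟩
      have hinv : ∀ t, (σ : Equiv.Perm (Fin k))⁻¹ t = Equiv.swap c d (Equiv.swap a b t) := fun t => by
        simp [σ, _root_.mul_inv_rev]
      have := hfix σ (fun t => by
        rw [hinv]
        simp only [Equiv.swap_apply_def]
        split_ifs <;> simp_all) b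
      rw [hinv, Equiv.swap_apply_right, Equiv.swap_apply_of_ne_of_ne hca.symm hda.symm] at this
      exact this
    have hu0 : u c = 0 := by
      have hsum := (hS _).1 (φ v).2
      have hrest : ∑ i ∈ Finset.univ \ {a, b}, u i = (k - 2 : ℕ) • u c := by
        rw [Finset.sum_congr rfl (g := fun _ => u c) fun i hi => by
          simp at hi; exact hout i c hi.1 hi.2 hca hcb]
        rw [Finset.sum_const, Finset.card_sdiff_of_subset (by simp), Finset.card_pair hab, Finset.card_univ, Fintype.card_fin]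
      rw [← Finset.sum_sdiff (Finset.subset_univ {a, b}), hrest, Finset.sum_pair hab] at hsum
      change (k - 2) • u c + (u a + u b) = 0 at hsum
      rw [← hab', ← two_nsmul, nsmul_eq_mul, nsmul_eq_mul, show ((2 : ℕ) : ZMod 2) = 0 by decide, zero_mul, add_zero] at hsum
      have hodd : ((k - 2 : ℕ) : ZMod 2) = 1 := by
        rw [ZMod.natCast_eq_one_iff_odd]
        obtain ⟨m, hm⟩ := hk; exact ⟨m - 1, by omega⟩
      rwa [hodd, one_mul] at hsum
    have hu : φ v = 0 ∨ φ v = v := by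
      rcases h01 (u a) with e | e
      · refine Or.inl (Subtype.ext (funext fun i => ?_))
        show u i = 0
        by_cases hi : i = a
        · rw [hi, e]
        · by_cases hj : i = b
          · rw [hj, ← hab', e]
          · rw [hout i c hi hj hca hcb, hu0]
      · refine Or.inr (Subtype.ext (funext fun i => ?_))
        show u i = _
        rw [hvt]
        by_cases hi : i = a
        · rw [hi, e]; simp
        · by_cases hj : i = b
          · rw [hj, ← hab', e]; simp
          · rw [hout i c hi hj hca hcb, hu0]; simp [hi, hj]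
    have hv0 : (v : Fin k → ZMod 2) ≠ 0 := fun e => by
      have := congrFun e a
      rw [hvt] at this; simp at this
    have gen : ∀ ψ : ↥S →+ ↥S, (∀ σ x, ψ (σS σ x) = σS σ (ψ x)) → ψ v = 0 → ∀ y, ψ y = 0 := by
      intro ψ hψ h0 y
      have hm := even_addSubgroup_mem hk (ψ.ker.map S.subtype) (fun σ hσ' z hz => by
        obtain ⟨z', hz', rfl⟩ := hz
        exact ⟨σS ⟨σ, hσ'⟩ z', by
          show ψ _ = 0
          rw [hψ, show ψ z' = 0 from hz']
          exact Subtype.ext (funext fun i => by simp [hσ]), funext fun i => hσ _ _ i⟩)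
        (fun z hz => by obtain ⟨z', -, rfl⟩ := hz; exact (hS _).1 z'.2)
        (v := (v : Fin k → ZMod 2)) ⟨v, h0, rfl⟩ hv0 (w := (y : Fin k → ZMod 2)) ((hS _).1 y.2)
      obtain ⟨z', hz', e⟩ := hm
      rw [← Subtype.ext e]; exact hz'
    rcases hu with h0 | h0
    · exact Or.inl (gen φ hφ h0)
    · refine Or.inr fun y => sub_eq_zero.1 (gen (φ - AddMonoidHom.id _) (fun σ z => ?_) (by simp [h0]) y)
      simp only [AddMonoidHom.sub_apply, AddMonoidHom.id_apply, hφ]
      exact Subtype.ext (funext fun i => by simp [hσ])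
  rcases key φ₁ h₁ with e | e <;> rcases key φ₂ h₂ with e' | e' <;> simp [e, e']

theorem alt_noncomm {k : ℕ} (hk : 5 ≤ k) :
    ∃ a ∈ alternatingGroup (Fin k), ∃ b ∈ alternatingGroup (Fin k), a * b ≠ b * a := by
  let a : Fin k := ⟨0, by omega⟩
  let b : Fin k := ⟨1, by omega⟩
  let c : Fin k := ⟨2, by omega⟩
  let d : Fin k := ⟨3, by omega⟩
  refine ⟨Equiv.swap a b * Equiv.swap b c, ?_, Equiv.swap b c * Equiv.swap c d, ?_, fun e => ?_⟩
  · rw [Equiv.Perm.mem_alternatingGroup, map_mul, Equiv.Perm.sign_swap (by simp [a, b, Fin.ext_iff]),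
      Equiv.Perm.sign_swap (by simp [b, c, Fin.ext_iff])]; rfl
  · rw [Equiv.Perm.mem_alternatingGroup, map_mul, Equiv.Perm.sign_swap (by simp [b, c, Fin.ext_iff]),
      Equiv.Perm.sign_swap (by simp [c, d, Fin.ext_iff])]; rfl
  · have := Equiv.congr_fun e a
    simp [Equiv.swap_apply_def, a, b, c, d, Fin.ext_iff] at this

end Cfsg.Agent.Lib.LocalChar.Baumann
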