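import Cfsg.Agent.Lib.LocalChar.BaumannFacts
import Cfsg.Agent.Lib.LocalChar.BlockModels
import Cfsg.Agent.Lib.Components.Basic

/-! Actions of neighbouring subgroups on the layers of Baumann blocks. -/

set_option autoImplicit false
set_option linter.unusedSectionVars false

open Subgroup
open scoped commutatorElement

namespace Cfsg.Agent.Lib.LocalChar.Baumann

variable {G : Type*} [Group G]

/-- The elements normalising `X` and `X₀` and acting trivially on `X / X₀`. -/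
def trivOn (X X₀ : Subgroup G) : Subgroup G where
  carrier := {g | g ∈ normalizer (X : Set G) ∧ g ∈ normalizer (X₀ : Set G) ∧ ∀ x ∈ X, g * x * g⁻¹ * x⁻¹ ∈ X₀}
  one_mem' := ⟨one_mem _, one_mem _, fun x _ => by simp⟩
  mul_mem' := fun {a b} ha hb => ⟨mul_mem ha.1 hb.1, mul_mem ha.2.1 hb.2.1, fun x hx => by
    have := mul_mem (conj_mem_of_nz ha.2.1 (hb.2.2 x hx)) (ha.2.2 x hx)
    convert this using 1
    group⟩
  inv_mem' := fun {a} ha => ⟨inv_mem ha.1, inv_mem ha.2.1, fun x hx => by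
    have := conj_mem_of_nz (inv_mem ha.2.1) (inv_mem (ha.2.2 x hx))
    convert this using 1
    group⟩

variable {X X₀ : Subgroup G}

theorem le_nz_trivOn {K : Subgroup G} (hX : K ≤ normalizer (X : Set G)) (hX₀ : K ≤ normalizer (X₀ : Set G)) :
    K ≤ normalizer (trivOn X X₀ : Set G) := by
  refine le_nz_iff.2 fun k hk g hg => ⟨mul_mem (mul_mem (hX hk) hg.1) (inv_mem (hX hk)),
    mul_mem (mul_mem (hX₀ hk) hg.2.1) (inv_mem (hX₀ hk)), fun x hx => ?_⟩
  have hx' : k⁻¹ * x * k ∈ X := by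
    have := conj_mem_of_nz (inv_mem (hX hk)) hx
    simpa using this
  have := conj_mem_of_nz (hX₀ hk) (hg.2.2 _ hx')
  convert this using 1
  group

theorem le_trivOn_self (h : ⁅X, X⁆ ≤ X₀) (hn : X ≤ normalizer (X₀ : Set G)) : X ≤ trivOn X X₀ :=
  fun g hg => ⟨le_normalizer hg, hn hg, fun _ hx => h (commutator_mem_commutator hg hx)⟩

theorem mem_trivOn_bot_iff {g : G} :
    g ∈ trivOn X ⊥ ↔ ∀ x ∈ X, g * x * g⁻¹ = x := by
  constructor
  · exact fun h x hx => mul_inv_eq_one.1 (mem_bot.1 (h.2.2 x hx))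
  · intro h
    refine ⟨?_, by rw [normalizer_eq_top (H := (⊥ : Subgroup G))]; trivial, fun x hx => mem_bot.2 (mul_inv_eq_one.2 (h x hx))⟩
    rw [mem_nz]
    intro x
    constructor
    · intro hx; rw [h x hx]; exact hx
    · intro hx
      have e := h _ hx
      have : g * x * g⁻¹ = x := by
        have := congrArg (fun y => g⁻¹ * y * g) e
        simp [mul_assoc] at this
        rw [mul_assoc]; exact this
      rwa [this] at hx

/-- Actions commuting with a model whose commutant is commutative. -/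
theorem commutator_le_trivOn_of_model [Finite G] {E : Subgroup G} {A : Type*} [CommGroup A]
    (ψ : ↥X →* A) (hs : Function.Surjective ψ) (hk : ∀ u, ψ u = 1 ↔ (u : G) ∈ X₀) (hX₀ : X₀ ≤ X)
    (σ : ↥E → A → A)
    (hact : ∀ (e : ↥E) (u : ↥X), ∃ w : ↥X, (w : G) = (e : G) * u * (e : G)⁻¹ ∧ ψ w = σ e (ψ u))
    (hA : ∀ φ₁ φ₂ : A →* A, (∀ e a, φ₁ (σ e a) = σ e (φ₁ a)) → (∀ e a, φ₂ (σ e a) = σ e (φ₂ a)) →
      ∀ a, φ₁ (φ₂ a) = φ₂ (φ₁ a))
    {K : Subgroup G} (hKX : K ≤ normalizer (X : Set G)) (hKX₀ : K ≤ normalizer (X₀ : Set G))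
    (hKE : ∀ k ∈ K, ∀ e ∈ E, ⁅k, e⁆ ∈ trivOn X X₀) : ⁅K, K⁆ ≤ trivOn X X₀ := by
  let f : ↥K → ↥X →* A := fun k =>
    { toFun := fun u => ψ ⟨(k : G) * u * (k : G)⁻¹, conj_mem_of_nz (hKX k.2) u.2⟩
      map_one' := by
        convert map_one ψ using 2
        exact Subtype.ext (by simp)
      map_mul' := fun a b => by
        rw [← map_mul]
        congr 1
        exact Subtype.ext (by simp [mul_assoc]) }
  have hker : ∀ k : ↥K, ψ.ker ≤ (f k).ker := fun k u hu => by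
    rw [MonoidHom.mem_ker] at hu ⊢
    exact (hk _).2 (conj_mem_of_nz (hKX₀ k.2) ((hk u).1 hu))
  let φ : ↥K → A →* A := fun k => ψ.liftOfSurjective hs ⟨f k, hker k⟩
  have hφ : ∀ (k : ↥K) (u : ↥X), φ k (ψ u) = ψ ⟨(k : G) * u * (k : G)⁻¹, conj_mem_of_nz (hKX k.2) u.2⟩ :=
    fun k u => MonoidHom.liftOfRightInverse_comp_apply _ _ _ ⟨f k, hker k⟩ u
  have hdiff : ∀ u v : ↥X, (u : G) * (v : G)⁻¹ ∈ X₀ → ψ u = ψ v := fun u v h =>
    eq_of_mul_inv_eq_one (by rw [← map_inv, ← map_mul]; exact (hk _).2 h)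
  have hcomm : ∀ (k : ↥K) (e : ↥E) (a : A), φ k (σ e a) = σ e (φ k a) := by
    intro k e a
    obtain ⟨u, rfl⟩ := hs a
    obtain ⟨w, hw, hwe⟩ := hact e u
    rw [← hwe, hφ, hφ]
    obtain ⟨w', hw', hwe'⟩ := hact e ⟨(k : G) * u * (k : G)⁻¹, conj_mem_of_nz (hKX k.2) u.2⟩
    rw [← hwe']
    refine hdiff _ _ ?_
    have hy : (e : G) * ((k : G) * u * (k : G)⁻¹) * (e : G)⁻¹ ∈ X := hw' ▸ w'.2
    have := (hKE k k.2 e e.2).2.2 _ hy
    rw [hw']
    convert this using 1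
    simp only [hw, commutatorElement_def]
    group
  rw [commutator_le]
  intro a ha b hb
  refine ⟨?_, ?_, fun x hx => ?_⟩
  · exact (commutator_le_left_of_nz (le_normalizer : normalizer (X : Set G) ≤ _))
      (commutator_mem_commutator (hKX ha) (hKX hb))
  · exact (commutator_le_left_of_nz (le_normalizer : normalizer (X₀ : Set G) ≤ _))
      (commutator_mem_commutator (hKX₀ ha) (hKX₀ hb))
  set y : G := b * (a * ((b * a)⁻¹ * x * (b * a)) * a⁻¹) * b⁻¹ with hy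
  have hxy : x = y := by rw [hy]; group
  have hu : (b * a)⁻¹ * x * (b * a) ∈ X := by
    have := conj_mem_of_nz (inv_mem (mul_mem (hKX hb) (hKX ha))) hx
    simpa using this
  have key := hA (φ ⟨a, ha⟩) (φ ⟨b, hb⟩) (hcomm _) (hcomm _) (ψ ⟨_, hu⟩)
  simp only [hφ] at key
  have h0 := mul_inv_eq_one.2 key
  rw [← map_inv, ← map_mul] at h0
  have := (hk _).1 h0
  convert this using 1
  simp only [commutatorElement_def, Subgroup.coe_mul, Subgroup.coe_inv]
  group

section Fin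

variable [Finite G] {p : ℕ} [hp : Fact p.Prime]

theorem perfect_of_le_sup {E : Subgroup G} (hE : resOf p E = E)
    (h : E ≤ ⁅E, E⁆ ⊔ Cfsg.pCoreOf p E) : ⁅E, E⁆ = E := by
  refine le_antisymm (commutator_le_self E) ?_
  conv_lhs => rw [← hE]
  refine resOf_le_iff.2 fun x hx ho => mem_of_coprime_sup (isPGroup_pCoreOf E) ?_ (h hx) ho
  exact (pCoreOf_le E).trans (left_le_nz_commutator E E)

/-- If `[E, F]` is a `p`-group centralised by `F = O^p(F)` then `[E, F] = 1`. -/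
theorem commutator_eq_bot_of_central {E F : Subgroup G} (hF : resOf p F = F)
    (hp' : IsPGroup p (⁅E, F⁆ : Subgroup G)) (h : ⁅E, F⁆ ≤ centralizer (F : Set G)) : ⁅E, F⁆ = ⊥ := by
  rw [commutator_eq_bot_iff_le_centralizer]
  intro e he
  rw [mem_centralizer_iff]
  let K : Subgroup G :=
    { carrier := {f | f ∈ F ∧ e * f = f * e}
      one_mem' := ⟨one_mem _, by simp⟩
      mul_mem' := fun {a b} ha hb => ⟨mul_mem ha.1 hb.1, by rw [← mul_assoc, ha.2, mul_assoc, hb.2, mul_assoc]⟩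
      inv_mem' := fun {a} ha => ⟨inv_mem ha.1, by
        have : Commute e a := ha.2
        exact this.inv_right⟩ }
  have hle : F ≤ K := by
    conv_lhs => rw [← hF]
    refine resOf_le_iff.2 fun f hf ho => ⟨hf, ?_⟩
    have hc : ∀ n : ℕ, ⁅e, f ^ n⁆ = ⁅e, f⁆ ^ n := by
      intro n
      induction n with
      | zero => simp [commutatorElement_def]
      | succ n ih =>
        have hfc : f ^ n * ⁅e, f⁆ = ⁅e, f⁆ * f ^ n :=
          mem_centralizer_iff.1 (h (commutator_mem_commutator he hf)) _ (pow_mem hf n)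
        have : ⁅e, f ^ (n + 1)⁆ = ⁅e, f ^ n⁆ * (f ^ n * ⁅e, f⁆ * (f ^ n)⁻¹) := by
          simp only [commutatorElement_def, pow_succ]; group
        rw [this, hfc, mul_inv_cancel_right, ih, pow_succ]
    have h1 : ⁅e, f⁆ ^ orderOf f = 1 := by
      rw [← hc, pow_orderOf_eq_one]; simp [commutatorElement_def]
    obtain ⟨k, hk⟩ := hp' ⟨_, commutator_mem_commutator he hf⟩
    have : ⁅e, f⁆ = 1 := eq_one_of_pow_coprime ho ⟨k, by simpa using congrArg Subtype.val hk⟩ h1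
    exact commutatorElement_eq_one_iff_mul_comm.1 this
  exact fun f hf => ((hle hf).2).symm

theorem ker_eq_pCore {E : Subgroup G} {H : Type*} [Group H] (ρ : ↥E →* H)
    (hle : Cfsg.pCore p ↥E ≤ ρ.ker) (hc : Nat.card (↥E ⧸ Cfsg.pCore p ↥E) = Nat.card ρ.range) :
    ρ.ker = Cfsg.pCore p ↥E := by
  refine (eq_of_le_of_card_ge hle ?_).symm
  have h1 := ρ.ker.card_mul_index
  have h2 := (Cfsg.pCore p ↥E).card_mul_index
  rw [Subgroup.index_ker] at h1
  rw [Subgroup.index_eq_card, hc] at h2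
  have : Finite ρ.range := Finite.of_surjective _ ρ.rangeRestrict_surjective
  exact le_of_eq (Nat.eq_of_mul_eq_mul_right Nat.card_pos (h1.trans h2.symm))

theorem mem_pCoreOf_iff {E : Subgroup G} (e : ↥E) : (e : G) ∈ Cfsg.pCoreOf p E ↔ e ∈ Cfsg.pCore p ↥E := by
  rw [← pCoreOf_subgroupOf]; rfl

/-- A natural `SL₂'`-layer of a block, with the kernel of the representation. -/
theorem sl_layer {E : Subgroup G} {F : Type} [Field F] [Fintype F]
    (hiso : Nonempty (↥E ⧸ Cfsg.pCore p ↥E ≃* ↥(commutator (Matrix.SpecialLinearGroup (Fin 2) F))))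
    (h : Cfsg.ActsAsSL2OnSection F (commutator (Matrix.SpecialLinearGroup (Fin 2) F)) E X X₀)
    (hQ : Cfsg.pCoreOf p E ≤ trivOn X X₀) :
    ∃ (ρ : ↥E →* Matrix.SpecialLinearGroup (Fin 2) F) (ψ : ↥X →* Multiplicative (Fin 2 → F)),
      ρ.range = commutator (Matrix.SpecialLinearGroup (Fin 2) F) ∧ ρ.ker = Cfsg.pCore p ↥E ∧
      Function.Surjective ψ ∧ (∀ u : ↥X, ψ u = 1 ↔ (u : G) ∈ X₀) ∧
      (∀ (e : ↥E) (u : ↥X) (hm : (e : G) * u * (e : G)⁻¹ ∈ X), ψ ⟨_, hm⟩ = Multiplicative.ofAdd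
        (((ρ e : Matrix.SpecialLinearGroup (Fin 2) F) : Matrix (Fin 2) (Fin 2) F).mulVec (Multiplicative.toAdd (ψ u)))) := by
  obtain ⟨hEX, -, ρ, ψ, hr, hs, hk, hact⟩ := h
  have hact' : ∀ (e : ↥E) (u : ↥X) (hm : (e : G) * u * (e : G)⁻¹ ∈ X), ψ ⟨_, hm⟩ = Multiplicative.ofAdd
      (((ρ e : Matrix.SpecialLinearGroup (Fin 2) F) : Matrix (Fin 2) (Fin 2) F).mulVec (Multiplicative.toAdd (ψ u))) := by
    intro e u hm
    obtain ⟨w, hw, hwe⟩ := hact e u
    rw [show (⟨_, hm⟩ : ↥X) = w from Subtype.ext hw.symm, ← hwe]; rfl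
  refine ⟨ρ, ψ, hr, ker_eq_pCore ρ (fun e he => ?_) ?_, hs, hk, hact'⟩
  · refine MonoidHom.mem_ker.2 (Subtype.ext ?_)
    refine Matrix.ext_of_mulVec_single fun i => ?_
    obtain ⟨u, hu⟩ := hs (Multiplicative.ofAdd (Pi.single i 1))
    have hm : (e : G) * u * (e : G)⁻¹ ∈ X := conj_mem_of_nz (hEX e.2) u.2
    have h0 := (hk (⟨_, hm⟩ * u⁻¹)).2 (by simpa using (hQ ((mem_pCoreOf_iff e).2 he)).2.2 _ u.2)
    rw [map_mul, map_inv, mul_inv_eq_one] at h0
    rw [hact' e u hm, hu] at h0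
    have h1 := Multiplicative.ofAdd.injective h0
    rw [toAdd_ofAdd] at h1
    exact h1.trans (Matrix.one_mulVec _).symm
  · rw [hr]; exact Nat.card_congr hiso.some.toEquiv

theorem sl_layer_commutator {E : Subgroup G} {F : Type} [Field F] [Fintype F]
    (h : Cfsg.ActsAsSL2OnSection F (commutator (Matrix.SpecialLinearGroup (Fin 2) F)) E X X₀)
    {K : Subgroup G} (hKX : K ≤ normalizer (X : Set G)) (hKX₀ : K ≤ normalizer (X₀ : Set G))
    (hKE : ∀ k ∈ K, ∀ e ∈ E, ⁅k, e⁆ ∈ trivOn X X₀) : ⁅K, K⁆ ≤ trivOn X X₀ := by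
  obtain ⟨-, hle, ρ, ψ, hr, hs, hk, hact⟩ := h
  refine commutator_le_trivOn_of_model ψ hs hk hle
    (fun e a => Multiplicative.ofAdd (((ρ e : Matrix.SpecialLinearGroup (Fin 2) F) :
      Matrix (Fin 2) (Fin 2) F).mulVec (Multiplicative.toAdd a))) (fun e u => ?_) ?_ hKX hKX₀ hKE
  · obtain ⟨w, hw, hwe⟩ := hact e u
    exact ⟨w, hw, by rw [← hwe]; rfl⟩
  · intro φ₁ φ₂ h₁ h₂ a
    have key := sl2_commutant_comm φ₁.toAdditive φ₂.toAdditive (fun g hg x => ?_) (fun g hg x => ?_)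
      (Multiplicative.toAdd a)
    · exact Multiplicative.toAdd.injective key
    all_goals
      rw [← hr] at hg
      obtain ⟨e, rfl⟩ := hg
    · exact congrArg Multiplicative.toAdd (h₁ e (Multiplicative.ofAdd x))
    · exact congrArg Multiplicative.toAdd (h₂ e (Multiplicative.ofAdd x))

theorem alt_layer_commutator {E : Subgroup G} {k : ℕ} (hk' : Odd k)
    (h : Cfsg.ActsAsOddPermModuleOnSection k (alternatingGroup (Fin k)) E X X₀)
    {K : Subgroup G} (hKX : K ≤ normalizer (X : Set G)) (hKX₀ : K ≤ normalizer (X₀ : Set G))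
    (hKE : ∀ k ∈ K, ∀ e ∈ E, ⁅k, e⁆ ∈ trivOn X X₀) : ⁅K, K⁆ ≤ trivOn X X₀ := by
  obtain ⟨-, hle, ρ, ψ, hr, hev, hsur, hk, hact⟩ := h
  let S : AddSubgroup (Fin k → ZMod 2) := Subgroup.toAddSubgroup' ψ.range
  have hS : ∀ x, x ∈ S ↔ ∑ i, x i = 0 := by
    intro x
    constructor
    · rintro ⟨u, hu⟩
      rw [← show Multiplicative.toAdd (ψ u) = x from congrArg Multiplicative.toAdd hu]
      exact hev u
    · intro hx
      obtain ⟨u, hu⟩ := hsur x hx
      exact ⟨u, Multiplicative.toAdd.injective hu⟩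
  have hmem : ∀ (σ : Equiv.Perm (Fin k)) (x : Fin k → ZMod 2), x ∈ S → (fun i => x (σ⁻¹ i)) ∈ S := by
    intro σ x hx
    rw [hS] at hx ⊢
    rw [← hx]
    exact Equiv.sum_comp σ⁻¹ x
  let σS : ↥(alternatingGroup (Fin k)) → ↥S → ↥S := fun σ x => ⟨_, hmem σ x x.2⟩
  let ψ' : ↥X →* Multiplicative ↥S :=
    { toFun := fun u => Multiplicative.ofAdd ⟨Multiplicative.toAdd (ψ u), (hS _).2 (hev u)⟩
      map_one' := by simp only [map_one]; rfl
      map_mul' := fun a b => by simp only [map_mul]; rfl }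
  let act : ↥E → ↥(alternatingGroup (Fin k)) := fun e => ⟨ρ e, hr ▸ ⟨e, rfl⟩⟩
  refine commutator_le_trivOn_of_model ψ' ?_ ?_ hle
    (fun e a => Multiplicative.ofAdd (σS (act e) (Multiplicative.toAdd a))) (fun e u => ?_) ?_ hKX hKX₀ hKE
  · intro a
    obtain ⟨u, hu⟩ := hsur _ ((hS _).1 (Multiplicative.toAdd a).2)
    exact ⟨u, Multiplicative.toAdd.injective (Subtype.ext hu)⟩
  · intro u
    rw [← hk u]
    constructor
    · exact fun h => Multiplicative.toAdd.injective (congrArg Subtype.val (congrArg Multiplicative.toAdd h))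
    · exact fun h => Multiplicative.toAdd.injective (Subtype.ext (congrArg Multiplicative.toAdd h))
  · obtain ⟨w, hw, hwe⟩ := hact e u
    exact ⟨w, hw, Multiplicative.toAdd.injective (Subtype.ext (funext hwe))⟩
  · intro φ₁ φ₂ h₁ h₂ a
    have key := even_commutant_comm hk' S hS σS (fun _ _ _ => rfl) φ₁.toAdditive φ₂.toAdditive
      (fun σ x => ?_) (fun σ x => ?_) (Multiplicative.toAdd a)
    · exact Multiplicative.toAdd.injective key
    all_goals
      obtain ⟨e, he⟩ : (σ : Equiv.Perm (Fin k)) ∈ ρ.range := by rw [hr]; exact σ.2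
      obtain rfl : σ = act e := Subtype.ext he.symm
    · exact congrArg Multiplicative.toAdd (h₁ e (Multiplicative.ofAdd x))
    · exact congrArg Multiplicative.toAdd (h₂ e (Multiplicative.ofAdd x))

end Fin

end Cfsg.Agent.Lib.LocalChar.Baumann
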