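import Cfsg.Agent.Lib.LocalChar.BlockKinds
import Cfsg.Agent.Lib.LocalChar.BlockConj

/-! The involution of a block and blocks with `E / O_p(E) ≅ Q₈`. -/

set_option autoImplicit false
set_option linter.unusedSectionVars false

open Subgroup
open scoped commutatorElement

namespace Cfsg.Agent.Lib.LocalChar.Baumann

variable {G : Type*} [Group G] [Finite G] {p : ℕ} [hp : Fact p.Prime]

theorem two_ne_zero_of_card {F : Type*} [Field F] [Fintype F] {n : ℕ} (hc : Fintype.card F = p ^ n)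
    (h2 : p ≠ 2) : (2 : F) ≠ 0 := by
  intro h
  have hp0 : (p : F) = 0 := by
    have : ((p ^ n : ℕ) : F) = 0 := hc ▸ Nat.cast_card_eq_zero F
    rw [Nat.cast_pow] at this
    exact eq_zero_of_pow_eq_zero this
  obtain ⟨k, hk⟩ := hp.out.odd_of_ne_two h2
  rw [hk, Nat.cast_add, Nat.cast_mul, Nat.cast_ofNat, h, zero_mul, zero_add, Nat.cast_one] at hp0
  exact one_ne_zero hp0

theorem neg_one_mem_comm {F : Type} [Field F] [Fintype F] (h2 : (2 : F) ≠ 0) :
    (-1 : Matrix.SpecialLinearGroup (Fin 2) F) ∈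
      ⁅commutator (Matrix.SpecialLinearGroup (Fin 2) F), commutator (Matrix.SpecialLinearGroup (Fin 2) F)⁆ := by
  classical
  have hc2 : Fintype.card F ≠ 2 := by
    intro h
    apply h2
    have : ((Fintype.card F : ℕ) : F) = 0 := Nat.cast_card_eq_zero F
    rw [h] at this; exact_mod_cast this
  have := Fintype.one_lt_card (α := F)
  by_cases h4 : 4 ≤ Fintype.card F
  · rw [SchurAlt.sl_perfect h4, ← commutator_def, SchurAlt.sl_perfect h4]; trivial
  have hq : Fintype.card F = 3 := by omega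
  obtain ⟨a, ha, b, hb, hab⟩ := sl2_res_noncomm (F := F) hq.ge
  have hsq : ∀ g ∈ commutator (Matrix.SpecialLinearGroup (Fin 2) F), ∀ h : Matrix.SpecialLinearGroup (Fin 2) F,
      g * h ≠ h * g → g⁻¹ = -g := by
    intro g hg h hgh
    rcases sl2_card_three hq hg with e | e
    · exfalso
      rcases sl2_invol g e h2 with r | r <;> exact hgh (by rw [r]; simp)
    · refine inv_eq_of_mul_eq_one_right ?_
      rw [mul_neg, e, neg_neg]
  have hc : ⁅a, b⁆ = (a * b) * (a * b) := by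
    rw [commutatorElement_def, hsq a ha b hab, hsq b hb a (Ne.symm hab)]
    simp [mul_assoc]
  rcases sl2_card_three hq (mul_mem ha hb) with e | e
  · exact absurd (commutatorElement_eq_one_iff_mul_comm.1 (hc.trans e)) hab
  · rw [← e, ← hc]; exact commutator_mem_commutator ha hb

variable {E : Subgroup G} {F : Type} [Field F] [Fintype F] {X X₀ : Subgroup G}

local notation "RR" => commutator (Matrix.SpecialLinearGroup (Fin 2) F)

theorem exists_t (h2 : (2 : F) ≠ 0) (hp2 : p ≠ 2)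
    (hiso : Nonempty (↥E ⧸ Cfsg.pCore p ↥E ≃* ↥RR))
    (h : Cfsg.ActsAsSL2OnSection F RR E X X₀) (hQ : Cfsg.pCoreOf p E ≤ trivOn X X₀) :
    ∃ t ∈ ⁅E, E⁆, (orderOf t).Coprime p ∧ t ∉ Cfsg.pCoreOf p E ∧ t * t ∈ Cfsg.pCoreOf p E := by
  obtain ⟨ρ, ψ, hr, hker, -, -, -⟩ := sl_layer hiso h hQ
  have hm : (commutator ↥E).map ρ = ⁅RR, RR⁆ := by
    rw [commutator_def, map_commutator, ← MonoidHom.range_eq_map, hr]
  obtain ⟨x, hx, hxe⟩ : (-1 : Matrix.SpecialLinearGroup (Fin 2) F) ∈ (commutator ↥E).map ρ :=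
    hm ▸ neg_one_mem_comm h2
  obtain ⟨k, m, hm', he⟩ := Nat.exists_eq_pow_mul_and_not_dvd (orderOf_pos (x : G)).ne' p hp.out.ne_one
  have hρ : ρ (x ^ p ^ k) = -1 := by
    rw [map_pow, hxe]
    exact Odd.neg_one_pow ((hp.out.odd_of_ne_two hp2).pow)
  refine ⟨((x ^ p ^ k : ↥E) : G), ?_, ?_, ?_, ?_⟩
  · rw [← map_subtype_commutator]
    exact mem_map_of_mem _ (pow_mem hx _)
  · rw [Subgroup.coe_pow, orderOf_pow' _ (pow_ne_zero _ hp.out.ne_zero), he,
      Nat.gcd_eq_right (Dvd.intro m rfl), Nat.mul_div_cancel_left _ (pow_pos hp.out.pos k)]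
    exact coprime_of_not_dvd hm'
  · rw [mem_pCoreOf_iff, ← hker, MonoidHom.mem_ker, hρ]
    intro e
    have := congrArg (fun g : Matrix.SpecialLinearGroup (Fin 2) F => (g : Matrix (Fin 2) (Fin 2) F) 0 0) e
    simp at this
    exact h2 (by linear_combination -this)
  · rw [← Subgroup.coe_mul, mem_pCoreOf_iff, ← hker, MonoidHom.mem_ker, map_mul, hρ]; simp

theorem t_facts (h2 : (2 : F) ≠ 0) (hiso : Nonempty (↥E ⧸ Cfsg.pCore p ↥E ≃* ↥RR))
    (h : Cfsg.ActsAsSL2OnSection F RR E X X₀) (hQ : Cfsg.pCoreOf p E ≤ trivOn X X₀)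
    {t : G} (ht : t ∈ E) (htn : t ∉ Cfsg.pCoreOf p E) (htt : t * t ∈ Cfsg.pCoreOf p E) :
    (∀ u ∈ X, t * u * t⁻¹ * u ∈ X₀) ∧ ∀ e ∈ E, ⁅t, e⁆ ∈ Cfsg.pCoreOf p E := by
  obtain ⟨ρ, ψ, hr, hker, hs, hk, hρ⟩ := sl_layer hiso h hQ
  have hne : ρ ⟨t, ht⟩ = -1 := by
    have hsq : ρ ⟨t, ht⟩ * ρ ⟨t, ht⟩ = 1 := by
      rw [← map_mul, ← MonoidHom.mem_ker, hker, ← mem_pCoreOf_iff]; exact htt
    refine (sl2_invol _ hsq h2).resolve_left fun e => htn ?_
    rw [show t = ((⟨t, ht⟩ : ↥E) : G) from rfl, mem_pCoreOf_iff, ← hker]; exact e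
  refine ⟨fun u hu => ?_, fun e he => ?_⟩
  · have hm : ((⟨t, ht⟩ : ↥E) : G) * u * ((⟨t, ht⟩ : ↥E) : G)⁻¹ ∈ X := conj_mem_of_nz (h.1 ht) hu
    refine (hk (⟨_, hm⟩ * ⟨u, hu⟩)).1 ?_
    rw [map_mul, hρ _ ⟨u, hu⟩ hm, hne]
    refine Multiplicative.toAdd.injective ?_
    simp [Matrix.neg_mulVec]
  · rw [show ⁅t, e⁆ = ((⁅(⟨t, ht⟩ : ↥E), ⟨e, he⟩⁆ : ↥E) : G) from rfl, mem_pCoreOf_iff, ← hker,
      MonoidHom.mem_ker, map_commutatorElement, hne, commutatorElement_def]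
    have : (-1 : Matrix.SpecialLinearGroup (Fin 2) F)⁻¹ = -1 := inv_eq_of_mul_eq_one_right (by simp)
    rw [this]; simp

theorem layer_index (hiso : Nonempty (↥E ⧸ Cfsg.pCore p ↥E ≃* ↥RR))
    (h : Cfsg.ActsAsSL2OnSection F RR E X X₀) (hQ : Cfsg.pCoreOf p E ≤ trivOn X X₀) :
    X₀.relIndex X = Fintype.card F ^ 2 := by
  obtain ⟨ρ, ψ, -, -, hs, hk, -⟩ := sl_layer hiso h hQ
  have hker : ψ.ker = X₀.subgroupOf X := by ext u; exact hk u
  show (X₀.subgroupOf X).index = _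
  rw [← hker, index_ker, MonoidHom.range_eq_top.2 hs, card_top,
    Nat.card_congr Multiplicative.toAdd, Nat.card_eq_fintype_card, Fintype.card_fun, Fintype.card_fin]

theorem q8_facts (hq : Fintype.card F = 3) (hiso : Nonempty (↥E ⧸ Cfsg.pCore p ↥E ≃* ↥RR))
    (h : Cfsg.ActsAsSL2OnSection F RR E X X₀) (hQ : Cfsg.pCoreOf p E ≤ trivOn X X₀)
    {t : G} (ht : t ∈ E) (htn : t ∉ Cfsg.pCoreOf p E) (htt : t * t ∈ Cfsg.pCoreOf p E) :
    (∀ x ∈ E, x * x ∈ Cfsg.pCoreOf p E ∨ t⁻¹ * (x * x) ∈ Cfsg.pCoreOf p E) ∧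
    (∀ x ∈ E, x * x ∈ Cfsg.pCoreOf p E → x ∈ Cfsg.pCoreOf p E ∨ t⁻¹ * x ∈ Cfsg.pCoreOf p E) ∧
    (∀ d ∈ E, d ∉ Cfsg.pCoreOf p E → t⁻¹ * d ∉ Cfsg.pCoreOf p E →
      ∃ e ∈ E, t⁻¹ * ⁅d, e⁆ ∈ Cfsg.pCoreOf p E) ∧
    ∀ f ∈ normalizer (X : Set G), f ∈ normalizer (X₀ : Set G) → (∀ u ∈ X, f * f * u * (f * f)⁻¹ * u ∈ X₀) →
      ∃ e ∈ E, e⁻¹ * f ∈ trivOn X X₀ := by
  have h2 : (2 : F) ≠ 0 := by
    have hcast : ((Fintype.card F : ℕ) : F) = 0 := Nat.cast_card_eq_zero F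
    rw [hq] at hcast; push_cast at hcast
    exact fun h2 => one_ne_zero (α := F) (by linear_combination hcast - h2)
  obtain ⟨ρ, ψ, hr, hker, hs, hk, hρ⟩ := sl_layer hiso h hQ
  have hmem : ∀ (x : ↥E), (x : G) ∈ Cfsg.pCoreOf p E ↔ ρ x = 1 := fun x => by
    rw [mem_pCoreOf_iff, ← hker, MonoidHom.mem_ker]
  have hneg : ρ ⟨t, ht⟩ = -1 := by
    refine (sl2_invol _ ?_ h2).resolve_left fun e => htn ((hmem ⟨t, ht⟩).2 e)
    rw [← map_mul, ← hmem]; exact htt
  have hmem' : ∀ (x : ↥E), t⁻¹ * (x : G) ∈ Cfsg.pCoreOf p E ↔ ρ x = -1 := fun x => by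
    rw [show t⁻¹ * (x : G) = (((⟨t, ht⟩ : ↥E)⁻¹ * x : ↥E) : G) from rfl, hmem, map_mul, map_inv,
      inv_mul_eq_one, hneg, eq_comm]
  have hR : ∀ x : ↥E, ρ x ∈ RR := fun x => hr ▸ ⟨x, rfl⟩
  refine ⟨fun x hx => ?_, fun x hx hxx => ?_, fun d hd hd1 hd2 => ?_, fun f hf hf0 hff => ?_⟩
  · rcases sl2_card_three hq (hR ⟨x, hx⟩) with e | e
    · exact Or.inl ((hmem (⟨x, hx⟩ * ⟨x, hx⟩)).2 (by rw [map_mul, e]))
    · exact Or.inr ((hmem' (⟨x, hx⟩ * ⟨x, hx⟩)).2 (by rw [map_mul, e]))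
  · rcases sl2_invol (ρ ⟨x, hx⟩) (by rw [← map_mul, ← hmem]; exact hxx) h2 with e | e
    · exact Or.inl ((hmem ⟨x, hx⟩).2 e)
    · exact Or.inr ((hmem' ⟨x, hx⟩).2 e)
  · obtain ⟨a, ha, b, hb, hab⟩ := sl2_res_noncomm (F := F) hq.ge
    set δ := ρ ⟨d, hd⟩ with hδ
    have hδ2 : δ * δ = -1 := by
      rcases sl2_card_three hq (hR ⟨d, hd⟩) with e | e
      · exfalso
        rcases sl2_invol δ e h2 with r | r
        · exact hd1 ((hmem ⟨d, hd⟩).2 r)
        · exact hd2 ((hmem' ⟨d, hd⟩).2 r)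
      · exact e
    obtain ⟨g, hg, hgd⟩ : ∃ g ∈ RR, δ * g ≠ g * δ := by
      by_contra hall
      push Not at hall
      apply hab
      have hδm : δ.1 0 0 * δ.1 0 0 + δ.1 0 1 * δ.1 1 0 = -1 := by
        have := congrArg (fun g : Matrix.SpecialLinearGroup (Fin 2) F => (g : Matrix (Fin 2) (Fin 2) F) 0 0) hδ2
        simpa [Matrix.mul_apply, Fin.sum_univ_two] using this
      -- the centraliser of a non-scalar matrix is commutative
      have cc : ∀ g : Matrix.SpecialLinearGroup (Fin 2) F, δ * g = g * δ →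
          δ.1 0 1 * g.1 1 0 = g.1 0 1 * δ.1 1 0 ∧
          δ.1 0 1 * (g.1 1 1 - g.1 0 0) = g.1 0 1 * (δ.1 1 1 - δ.1 0 0) ∧
          δ.1 1 0 * (g.1 1 1 - g.1 0 0) = g.1 1 0 * (δ.1 1 1 - δ.1 0 0) := by
        intro g hg
        have hm : (δ.1 * g.1 : Matrix (Fin 2) (Fin 2) F) = g.1 * δ.1 := congrArg Subtype.val hg
        have e1 := congrFun (congrFun hm 0) 0
        have e2 := congrFun (congrFun hm 0) 1
        have e3 := congrFun (congrFun hm 1) 0
        simp only [Matrix.mul_apply, Fin.sum_univ_two] at e1 e2 e3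
        exact ⟨by linear_combination e1, by linear_combination e2, by linear_combination -e3⟩
      obtain ⟨a1, a2, a3⟩ := cc a (hall a ha)
      obtain ⟨b1, b2, b3⟩ := cc b (hall b hb)
      have hnz : δ.1 0 1 ≠ 0 ∨ δ.1 1 0 ≠ 0 := by
        by_contra h0
        push Not at h0
        rw [h0.1, zero_mul, add_zero] at hδm
        rcases small_elems (F := F) hq.le (δ.1 0 0) with e | e | e <;> rw [e] at hδm
        · exact one_ne_zero (α := F) (by linear_combination hδm)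
        · exact h2 (by linear_combination hδm)
        · exact h2 (by linear_combination hδm)
      refine Subtype.ext ?_
      show (a.1 * b.1 : Matrix (Fin 2) (Fin 2) F) = b.1 * a.1
      have hP : a.1 0 1 * b.1 1 0 - b.1 0 1 * a.1 1 0 = 0 := by
        rcases hnz with h0 | h0 <;> refine (mul_eq_zero.1 ?_).resolve_left h0
        · linear_combination a.1 0 1 * b1 - b.1 0 1 * a1
        · linear_combination a.1 1 0 * b1 - b.1 1 0 * a1
      have hS : a.1 0 1 * (b.1 1 1 - b.1 0 0) - b.1 0 1 * (a.1 1 1 - a.1 0 0) = 0 := by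
        rcases hnz with h0 | h0 <;> refine (mul_eq_zero.1 ?_).resolve_left h0
        · linear_combination a.1 0 1 * b2 - b.1 0 1 * a2
        · linear_combination a.1 0 1 * b3 - b.1 0 1 * a3 + (δ.1 1 1 - δ.1 0 0) * hP
      have hT : b.1 1 0 * (a.1 1 1 - a.1 0 0) - a.1 1 0 * (b.1 1 1 - b.1 0 0) = 0 := by
        rcases hnz with h0 | h0 <;> refine (mul_eq_zero.1 ?_).resolve_left h0
        · linear_combination b.1 1 0 * a2 - a.1 1 0 * b2 + (δ.1 1 1 - δ.1 0 0) * hP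
        · linear_combination b.1 1 0 * a3 - a.1 1 0 * b3
      ext i j
      fin_cases i <;> fin_cases j <;> simp [Matrix.mul_apply, Fin.sum_univ_two]
      · linear_combination hP
      · linear_combination hS
      · linear_combination hT
      · linear_combination -hP
    rw [← hr] at hg
    obtain ⟨e, rfl⟩ := hg
    refine ⟨e, e.2, (hmem' (⁅(⟨d, hd⟩ : ↥E), e⁆ : ↥E)).2 ?_⟩
    have hg2 : ρ e * ρ e = -1 := by
      rcases sl2_card_three hq (hR e) with r | r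
      · exfalso
        rcases sl2_invol _ r h2 with r' | r' <;> exact hgd (by rw [r']; simp)
      · exact r
    have hi : ∀ g : Matrix.SpecialLinearGroup (Fin 2) F, g * g = -1 → g⁻¹ = -g := fun g hg =>
      inv_eq_of_mul_eq_one_right (by rw [mul_neg, hg, neg_neg])
    have hc : ⁅δ, ρ e⁆ = (δ * ρ e) * (δ * ρ e) := by
      rw [commutatorElement_def, hi _ hδ2, hi _ hg2]; simp [mul_assoc]
    rw [map_commutatorElement, ← hδ, hc]
    rcases sl2_card_three hq (mul_mem (hR ⟨d, hd⟩) (hR e)) with r | r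
    · exact absurd (commutatorElement_eq_one_iff_mul_comm.1 (hc.trans r)) hgd
    · exact r
  · let f' : ↥X →* Multiplicative (Fin 2 → F) :=
      { toFun := fun u => ψ ⟨f * u * f⁻¹, conj_mem_of_nz hf u.2⟩
        map_one' := by
          convert map_one ψ using 2
          exact Subtype.ext (by simp)
        map_mul' := fun a b => by
          rw [← map_mul]; congr 1; exact Subtype.ext (by simp [mul_assoc]) }
    have hle : ψ.ker ≤ f'.ker := fun u hu => by
      rw [MonoidHom.mem_ker] at hu ⊢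
      exact (hk _).2 (conj_mem_of_nz hf0 ((hk u).1 hu))
    set φ : (Fin 2 → F) →+ (Fin 2 → F) := (ψ.liftOfSurjective hs ⟨f', hle⟩).toAdditive
    have hφ : ∀ u : ↥X, φ (Multiplicative.toAdd (ψ u)) =
        Multiplicative.toAdd (ψ ⟨f * u * f⁻¹, conj_mem_of_nz hf u.2⟩) := fun u =>
      congrArg Multiplicative.toAdd (MonoidHom.liftOfRightInverse_comp_apply _ _ _ ⟨f', hle⟩ u)
    have hφ2 : ∀ v, φ (φ v) = -v := by
      intro v
      obtain ⟨u, hu⟩ := hs (Multiplicative.ofAdd v)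
      have hv : v = Multiplicative.toAdd (ψ u) := by rw [hu]; rfl
      rw [hv, hφ, hφ]
      have hmemX : f * (f * (u : G) * f⁻¹) * f⁻¹ ∈ X := conj_mem_of_nz hf (conj_mem_of_nz hf u.2)
      have h0 := (hk (⟨_, hmemX⟩ * u)).2 (by
        have := hff u u.2
        convert this using 1
        simp only [Subgroup.coe_mul]; group)
      rw [map_mul] at h0
      rw [← toAdd_inv, eq_inv_of_mul_eq_one_left h0]
    obtain ⟨g, hg, hgx⟩ := sl2_three_neg hq hφ2 RR fun g hg => mem_res_of_sq_neg hq hg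
    rw [← hr] at hg
    obtain ⟨e, rfl⟩ := hg
    have heX : (e : G) ∈ normalizer (X : Set G) := h.1 e.2
    have heX₀ : (e : G) ∈ normalizer (X₀ : Set G) := (hQ_nz h hk hρ e)
    refine ⟨e, e.2, mul_mem (inv_mem heX) hf, mul_mem (inv_mem heX₀) hf0, fun u hu => ?_⟩
    have h1 := hφ ⟨u, hu⟩
    rw [hgx] at h1
    have hm : (e : G) * u * (e : G)⁻¹ ∈ X := conj_mem_of_nz heX hu
    have h0 : ψ ⟨f * u * f⁻¹, conj_mem_of_nz hf hu⟩ = ψ ⟨_, hm⟩ :=
      Multiplicative.toAdd.injective (by rw [← h1, hρ e ⟨u, hu⟩ hm]; rfl)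
    have h3 := (hk (⟨f * u * f⁻¹, conj_mem_of_nz hf hu⟩ * (⟨_, hm⟩ : ↥X)⁻¹)).1 (by rw [map_mul, map_inv, h0, mul_inv_cancel])
    have := conj_mem_of_nz (inv_mem heX₀) h3
    convert this using 1
    simp only [Subgroup.coe_mul, Subgroup.coe_inv]; group
where
  hQ_nz {ρ : ↥E →* Matrix.SpecialLinearGroup (Fin 2) F} {ψ : ↥X →* Multiplicative (Fin 2 → F)}
      (h : Cfsg.ActsAsSL2OnSection F RR E X X₀) (hk : ∀ u : ↥X, ψ u = 1 ↔ (u : G) ∈ X₀)
      (hρ : ∀ (e : ↥E) (u : ↥X) (hm : (e : G) * u * (e : G)⁻¹ ∈ X), ψ ⟨_, hm⟩ = Multiplicative.ofAdd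
        (((ρ e : Matrix.SpecialLinearGroup (Fin 2) F) : Matrix (Fin 2) (Fin 2) F).mulVec (Multiplicative.toAdd (ψ u))))
      (e : ↥E) : (e : G) ∈ normalizer (X₀ : Set G) := by
    refine mem_nz_of_cj_le (cj_le_iff.2 fun u hu => ?_)
    have hm : (e : G) * u * (e : G)⁻¹ ∈ X := conj_mem_of_nz (h.1 e.2) (h.2.1 hu)
    refine (hk ⟨_, hm⟩).1 ?_
    rw [hρ e ⟨u, h.2.1 hu⟩ hm, (hk ⟨u, _⟩).2 hu]
    simp [Matrix.mulVec_zero]

section Thompson

variable {T : Sylow p G}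

theorem baumann_eq_of_le (T T' : Sylow p G) (h : Cfsg.baumannSubgroupOf p (T : Subgroup G) ≤ T') :
    Cfsg.baumannSubgroupOf p (T : Subgroup G) = Cfsg.baumannSubgroupOf p (T' : Subgroup G) := by
  obtain ⟨g, hg⟩ := MulAction.exists_smul_eq G T T'
  have hJT' : Cfsg.thompsonSubgroupOf p (T : Subgroup G) ≤ T' := (thompsonOf_le_baumann _).trans h
  have hJJ : Cfsg.thompsonSubgroupOf p (T : Subgroup G) ≤ Cfsg.thompsonSubgroupOf p (T' : Subgroup G) := by
    rw [thompsonOf_sylow T'] at *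
    rw [thompsonOf_sylow T] at hJT' ⊢
    exact sSup_le fun A hA => le_sSup ⟨hA.1, (le_sSup hA).trans hJT'⟩
  have hJ : Cfsg.thompsonSubgroupOf p (T : Subgroup G) = Cfsg.thompsonSubgroupOf p (T' : Subgroup G) :=
    eq_of_le_of_card_ge hJJ (by rw [← hg, ← bcj_thompsonOf, card_cj])
  refine eq_of_le_of_card_ge (le_inf h ?_) (by rw [← hg, ← bcj_baumannOf, card_cj])
  have : Cfsg.centerThompsonOf p (T : Subgroup G) = Cfsg.centerThompsonOf p (T' : Subgroup G) := by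
    unfold Cfsg.centerThompsonOf; rw [hJ]
  rw [← this]; exact inf_le_right

theorem mem_nz_baumann {R : Subgroup G} (hR : IsPGroup p R)
    (hBR : Cfsg.baumannSubgroupOf p (T : Subgroup G) ≤ R) {g : G}
    (hg : cj g (Cfsg.baumannSubgroupOf p (T : Subgroup G)) ≤ R) :
    g ∈ normalizer (Cfsg.baumannSubgroupOf p (T : Subgroup G) : Set G) := by
  obtain ⟨T', hT'⟩ := hR.exists_le_sylow
  rw [bcj_baumannOf] at hg
  refine mem_nz_of_cj_eq ?_
  rw [bcj_baumannOf, baumann_eq_of_le _ T' (hg.trans hT'), baumann_eq_of_le T T' (hBR.trans hT')]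

theorem sup_commutator_lt {K Z P : Subgroup G} (hK : IsPGroup p K) (hP : IsPGroup p P)
    (hPK : P ≤ normalizer (K : Set G)) (hPZ : P ≤ normalizer (Z : Set G)) (hKZ : K ≤ normalizer (Z : Set G))
    (hlt : Z < K) : ⁅K, P⁆ ⊔ Z < K := by
  refine lt_of_le_of_ne (sup_le (commutator_le_left_of_nz hPK) hlt.le) fun e => ?_
  set S := K ⊔ P
  have hS : IsPGroup p S := hK.to_sup_of_normal_left' hP hPK
  have : Group.IsNilpotent S := hS.isNilpotent
  have hSZ : S ≤ normalizer (Z : Set G) := sup_le hKZ hPZ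
  have hall : ∀ n, K ≤ ((⊤ : Subgroup S).lowerCentralSeries n).map S.subtype ⊔ Z := by
    intro n
    induction n with
    | zero =>
      refine le_trans ?_ le_sup_left
      rw [Subgroup.lowerCentralSeries_zero, ← MonoidHom.range_eq_map, range_subtype]
      exact le_sup_left
    | succ n ih =>
      conv_lhs => rw [← e]
      refine sup_le ?_ le_sup_right
      rw [commutator_le]
      intro x hx y hy
      obtain ⟨a, ha, z, hz, rfl⟩ := (mem_sup_iff_of_nz ((map_subtype_le _).trans hSZ)).1 (ih hx)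
      have h1 : ⁅z, y⁆ ∈ Z := commutator_le_left_of_nz hPZ (commutator_mem_commutator hz hy)
      have h2 : a * ⁅z, y⁆ * a⁻¹ ∈ Z := conj_mem_of_nz (hSZ (map_subtype_le _ ha)) h1
      have h3 : ⁅a, y⁆ ∈ ((⊤ : Subgroup S).lowerCentralSeries (n + 1)).map S.subtype := by
        obtain ⟨a', ha', rfl⟩ := ha
        exact ⟨⁅a', ⟨y, le_sup_right (a := K) hy⟩⁆, commutator_mem_commutator ha' (mem_top _), rfl⟩
      have : ⁅a * z, y⁆ = a * ⁅z, y⁆ * a⁻¹ * ⁅a, y⁆ := by simp only [commutatorElement_def]; group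
      rw [this]
      exact mul_mem (mem_sup_right h2) (mem_sup_left h3)
  obtain ⟨n, hn⟩ := Subgroup.nilpotent_iff_lowerCentralSeries.1 this
  have := hall n
  rw [hn, Subgroup.map_bot, bot_sup_eq] at this
  exact hlt.not_ge this

/-- A `p`-group acting on a section of order at most `p²` acts quadratically. -/
theorem commutator_commutator_le_of_index {A Z P : Subgroup G} (hA : IsPGroup p A) (hP : IsPGroup p P)
    (hPA : P ≤ normalizer (A : Set G)) (hPZ : P ≤ normalizer (Z : Set G)) (hAZ : A ≤ normalizer (Z : Set G))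
    (hAA : ⁅A, A⁆ ≤ Z) (hle : Z ≤ A) (hi : Z.relIndex A ≤ p ^ 2) : ⁅⁅A, P⁆, P⁆ ≤ Z := by
  have big : ∀ {H K : Subgroup G}, IsPGroup p K → H < K → p ≤ H.relIndex K := by
    intro H K hK hlt
    obtain ⟨m, hm⟩ := IsPGroup.iff_card.1 hK
    obtain ⟨j, -, hj⟩ := (Nat.dvd_prime_pow hp.out).1 (hm ▸ relIndex_dvd_card H K)
    rw [hj]
    refine Nat.le_self_pow (fun h0 => ?_) p
    rw [h0, pow_zero, relIndex_eq_one] at hj
    exact hlt.not_ge hj
  rcases hle.eq_or_lt with rfl | hlt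
  · exact (commutator_mono (commutator_le_left_of_nz hPA) le_rfl).trans (commutator_le_left_of_nz hPA)
  set K := ⁅A, P⁆ ⊔ Z
  have hKA : K < A := sup_commutator_lt hA hP hPA hPZ hAZ hlt
  rcases (le_sup_right : Z ≤ K).eq_or_lt with e | hlt'
  · exact (commutator_mono (le_sup_left.trans e.ge) le_rfl).trans (commutator_le_left_of_nz hPZ)
  have hKp : IsPGroup p K := hA.to_le hKA.le
  have hPK : P ≤ normalizer (K : Set G) := le_nz_sup (right_le_nz_commutator A P) hPZ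
  set L := ⁅K, P⁆ ⊔ Z
  have hLK : L < K := sup_commutator_lt hKp hP hPK hPZ (hKA.le.trans hAZ) hlt'
  rcases (le_sup_right : Z ≤ L).eq_or_lt with e | hlt''
  · exact (commutator_mono le_sup_left le_rfl).trans (le_sup_left.trans e.ge)
  exfalso
  have h1 := relIndex_mul_relIndex Z K A le_sup_right hKA.le
  have h2 := relIndex_mul_relIndex Z L K le_sup_right hLK.le
  have hpp := big hA hKA
  have hq := big hKp hLK
  have hr := big (hKp.to_le hLK.le) hlt''
  rw [← h1, ← h2] at hi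
  have := Nat.mul_le_mul (Nat.mul_le_mul hr hq) hpp
  have hp1 := hp.out.one_lt
  nlinarith

end Thompson

end Cfsg.Agent.Lib.LocalChar.Baumann
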