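import Cfsg.Agent.Lib.LocalChar.BlockQ8Exc

/-! Two `Q₈`-blocks sharing their central involution are equal. -/

set_option autoImplicit false
set_option linter.unusedSectionVars false
set_option maxHeartbeats 1000000

open Subgroup
open scoped commutatorElement

namespace Cfsg.Agent.Lib.LocalChar.Baumann

variable {G : Type*} [Group G] [Finite G] {p : ℕ} [hp : Fact p.Prime]

local notation "Q" => Cfsg.pCore p G

variable (hG : centralizer (Cfsg.pCore p G : Set G) ≤ Cfsg.pCore p G)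
variable {TE TF : Sylow p G} {E F : Subgroup G}
  (hE : Cfsg.IsBaumannBlock p (TE : Subgroup G) E) (hF : Cfsg.IsBaumannBlock p (TF : Subgroup G) F)
  (hEs : E.IsSubnormal) (hFs : F.IsSubnormal)

include hE in
theorem E_le_trivOn_Q : E ≤ trivOn Q (Cfsg.pCoreOf p E) := fun e he =>
  ⟨le_nz_pCore E he, le_nz_pCoreOf E he, fun q hq => by
    rw [← commutatorElement_def]
    exact comm_Q_le hE ((commutator_comm E (Q)).le (commutator_mem_commutator he hq))⟩

include hG hE hF hEs hFs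

theorem smallQ_le (hsE : SmallQ p E) (hsF : SmallQ p F) (hFnE : F ≤ normalizer (E : Set G))
    (hEnF : E ≤ normalizer (F : Set G)) (hQ : ¬ ⁅E, F⁆ ≤ Q) : F ≤ E := by
  have hp3 : p = 3 := hsE.1
  obtain ⟨t, htE, htF, hto, htn, htt, htn', htt'⟩ := exists_common_t hG hE hF hEs hFs hsE hsF hFnE hEnF hQ
  obtain ⟨FE, i1, i2, hqE, h2E, hisoE, hbotE, -⟩ := smallQ_facts hG hE hsE
  obtain ⟨FF, j1, j2, hqF, h2F, hisoF, hbotF, -⟩ := smallQ_facts hG hF hsF
  obtain ⟨hinvE, -, hZE1, -⟩ := neg_W1 hG hE h2E hisoE hbotE htE hto htn htt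
  obtain ⟨hinvF, -, hZF1, -⟩ := neg_W1 hG hF h2F hisoF hbotF htF hto htn' htt'
  have hW1 : bW1 p E = bW1 p F :=
    le_antisymm (W1_le_of_common hG hE hF htE htF hto hp3 hinvE) (W1_le_of_common hG hF hE htF htE hto hp3 hinvF)
  have hX : Cfsg.pCoreOf p E = Cfsg.pCoreOf p F ∧ bZ p E = bZ p F := by
    by_cases hne : Cfsg.pCoreOf p E = bW p E
    · have hnf := not_exc_of_common hG hF hE hFs htF htE hW1.symm htn' htt' hne
      have eE : bW1 p E = bW p E := by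
        have := hE.2.2.1
        rw [hne] at this
        exact this
      have eF : bW1 p F = bW p F := by
        have := hF.2.2.1
        rw [hnf] at this
        exact this
      have zE : bZ p E = ⊥ := eq_bot_iff.2 fun z hz => mem_bot.2 (hZE1 z (eE.ge hz.1) hz.2)
      have zF : bZ p F = ⊥ := eq_bot_iff.2 fun z hz => mem_bot.2 (hZF1 z (eF.ge hz.1) hz.2)
      exact ⟨by rw [hne, hnf, ← eE, ← eF, hW1], by rw [zE, zF]⟩
    · have hnf : Cfsg.pCoreOf p F ≠ bW p F := fun h =>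
        hne (not_exc_of_common hG hE hF hEs htE htF hW1 htn htt h)
      have e : Cfsg.pCoreOf p E = Cfsg.pCoreOf p F :=
        le_antisymm (Qe_le_of_common hG hF hE htF htE hW1.symm (pCoreOf_le_of_subnormal hEs) htn htt hne)
          (Qe_le_of_common hG hE hF htE htF hW1 (pCoreOf_le_of_subnormal hFs) htn' htt' hnf)
      obtain ⟨-, _, _, _, -, -, -, -, cE, -, -, -⟩ := exc_data hE hne
      obtain ⟨-, _, _, _, -, -, -, -, cF, -, -, -⟩ := exc_data hF hnf
      exact ⟨e, by rw [← cE, ← cF, e]⟩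
  obtain ⟨hX, hZ⟩ := hX
  have hW : bW p E = bW p F := congrArg (Cfsg.omegaOneCenter p) hX
  obtain ⟨sqF, invF, -, -⟩ := q8_facts hqF hisoF hbotF (Qe_le_trivOn_W F) htF htn' htt'
  obtain ⟨-, -, hcomE, matchE⟩ := q8_facts hqE hisoE hbotE (Qe_le_trivOn_W E) htE htn htt
  obtain ⟨hnegF, -⟩ := t_facts h2F hisoF hbotF (Qe_le_trivOn_W F) htF htn' htt'
  have hQE : Cfsg.pCoreOf p E ≤ Q := pCoreOf_le_of_subnormal hEs
  conv_lhs => rw [← block_res hF]
  refine resOf_le_iff.2 fun f hf hof => ?_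
  have hfnE := hFnE hf
  rcases sqF f hf with hff | hff
  · rcases invF f hf hff with h | h
    · rw [eq_one_of_isPGroup_of_coprime (isPGroup_pCoreOf F) h hof]; exact one_mem _
    · refine mem_of_coprime_sup pCore_isPGroup (core_le_nz hE) ?_ hof
      have := mul_mem_sup (S := E) (T := Q) htE (pCoreOf_le_of_subnormal hFs h)
      rwa [mul_inv_cancel_left] at this
  -- `f²` acts as `t`
  set q := t⁻¹ * (f * f) with hq
  obtain ⟨e₁, he₁, he₁f⟩ := matchE f (nz_le_nz_W E hfnE) (nz_le_nz_Z E hfnE) fun u hu => by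
    have hu' : u ∈ bW p F := hW ▸ hu
    have hqu : q * u * q⁻¹ = u := mem_trivOn_bot_iff.1 (Qe_le_trivOn_bot F hff) u hu'
    have := hnegF u hu'
    rw [← hZ] at this
    convert this using 1
    calc f * f * u * (f * f)⁻¹ * u = t * (q * u * q⁻¹) * t⁻¹ * u := by rw [hq]; group
      _ = _ := by rw [hqu]
  set y := e₁⁻¹ * f with hy
  have hyE : y ∈ normalizer (E : Set G) := mul_mem (le_normalizer (inv_mem he₁)) hfnE
  have hyW : y ∈ trivOn (bW p E) ⊥ := by
    refine mem_trivOn_bot_iff.2 fun w hw => ?_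
    obtain ⟨a, ha, z, hz, rfl⟩ := (mem_sup_iff_of_nz' (A := bW1 p E) (B := bZ p E)
      (fun z hz => centralizer_le_normalizer _
        (mem_centralizer_iff.2 fun v hv => bW_comm E v (bW1_le_W E hv) z hz.1))).1 (W_le_W1_sup_Z hG hE hw)
    have h1 : y * a * y⁻¹ * a⁻¹ = 1 := hZE1 _
      ((bW1 p E).mul_mem (conj_mem_of_nz (nz_le_nz_W1 E hyE) ha) ((bW1 p E).inv_mem ha))
      (he₁f.2.2 a (bW1_le_W E ha)).2
    have hzy : Commute y z := by
      refine Commute.mul_left (Commute.inv_left ?_) ?_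
      · exact mem_centralizer_iff.1 hz.2 e₁ he₁
      · exact mem_centralizer_iff.1 (hZ ▸ hz : z ∈ bZ p F).2 f hf
    calc y * (a * z) * y⁻¹ = (y * a * y⁻¹) * (y * z * y⁻¹) := by group
      _ = _ := by rw [mul_inv_eq_one.1 h1, hzy.eq, mul_inv_cancel_right]
  have hyQ : y ∈ trivOn Q (Cfsg.pCoreOf p E) :=
    mul_mem (inv_mem (E_le_trivOn_Q hE he₁)) (hX ▸ E_le_trivOn_Q hF hf)
  refine mem_of_series hG hE hF he₁ hof ⟨⟨hyQ, ?_⟩, hyW⟩ hQE
  show y ∈ trivOn (Cfsg.pCoreOf p E) (bW p E)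
  by_cases hne : Cfsg.pCoreOf p E = bW p E
  · refine ⟨nz_le_nz_pCoreOf E hyE, nz_le_nz_W E hyE, fun x hx => ?_⟩
    rw [← hne]
    exact mul_mem (conj_mem_of_nz (nz_le_nz_pCoreOf E hyE) hx) (inv_mem hx)
  have hnf : Cfsg.pCoreOf p F ≠ bW p F := fun h => hne (hX.trans (h.trans hW.symm))
  obtain ⟨-, FE', i1', i2', h2E', hisoE', hbotE', htopE, hccE, -, -, -⟩ := exc_data hE hne
  obtain ⟨-, FF', j1', j2', h2F', hisoF', -, htopF, hccF, -, -, -⟩ := exc_data hF hnf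
  have hQTE := Qe_le_trivOn_top (hccE.le.trans inf_le_left : ⁅Cfsg.pCoreOf p E, Cfsg.pCoreOf p E⁆ ≤ bW p E)
  have hQTF := Qe_le_trivOn_top (hccF.le.trans inf_le_left : ⁅Cfsg.pCoreOf p F, Cfsg.pCoreOf p F⁆ ≤ bW p F)
  have hcard : Fintype.card FE' = 3 := by
    have a := layer_index hisoE' hbotE' (Qe_le_trivOn_W E)
    rw [layer_index hisoE hbotE (Qe_le_trivOn_W E), hqE] at a
    nlinarith [Fintype.one_lt_card (α := FE')]
  obtain ⟨-, -, -, matchT⟩ := q8_facts hcard hisoE' htopE hQTE htE htn htt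
  obtain ⟨hnegT, -⟩ := t_facts h2F' hisoF' htopF hQTF htF htn' htt'
  obtain ⟨e₂, he₂, hτ⟩ := matchT f (nz_le_nz_pCoreOf E hfnE) (nz_le_nz_W E hfnE) fun u hu => by
    have hu' : u ∈ Cfsg.pCoreOf p F := hX ▸ hu
    have h1 : q * u * q⁻¹ * u⁻¹ ∈ bW p F := (hQTF hff).2.2 u hu'
    have h2 := hnegT u hu'
    have := mul_mem (conj_mem_of_nz (E_le_nz_W F htF) h1) h2
    rw [← hW] at this
    convert this using 1
    rw [hq]; group
  set TT := trivOn (Cfsg.pCoreOf p E) (bW p E) with hTT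
  set τ := e₂⁻¹ * f
  set d := e₁⁻¹ * e₂ with hd
  have hdE : d ∈ E := mul_mem (inv_mem he₁) he₂
  have hyd : y = d * τ := by simp only [y, d, τ]; group
  by_cases hd1 : d ∈ Cfsg.pCoreOf p E
  · rw [hyd]; exact mul_mem (hQTE hd1) hτ
  exfalso
  have hEnz : ∀ {K : Subgroup G}, K ≤ E → K ≤ normalizer (TT : Set G) := fun {K} hK =>
    hK.trans (le_nz_trivOn (le_nz_pCoreOf E) (E_le_nz_W E))
  obtain ⟨s₀, hs1, hs2, hs3⟩ : ∃ s₀, s₀ ∈ trivOn Q (Cfsg.pCoreOf p E) ∧ s₀ ∈ trivOn (bW p E) ⊥ ∧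
      t⁻¹ * s₀ ∈ TT := by
    by_cases hd2 : t⁻¹ * d ∈ Cfsg.pCoreOf p E
    · refine ⟨y, hyQ, hyW, ?_⟩
      rw [hyd, ← mul_assoc]
      exact mul_mem (hQTE hd2) hτ
    obtain ⟨h, hh, hdh⟩ := hcomE d hdE hd1 hd2
    have hcm : ∀ {K : Subgroup G}, E ≤ normalizer (K : Set G) → y ∈ K → ⁅y, h⁆ ∈ K := fun {K} hK hy' => by
      have := mul_mem hy' (conj_mem_of_nz (hK hh) (inv_mem hy'))
      convert this using 1; rw [commutatorElement_def]; group
    refine ⟨⁅y, h⁆, hcm (le_nz_trivOn (le_nz_pCore E) (le_nz_pCoreOf E)) hyQ,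
      hcm (le_nz_trivOn (E_le_nz_W E) (by rw [normalizer_eq_top (H := (⊥ : Subgroup G))]; exact le_top)) hyW, ?_⟩
    have h1 : ⁅τ, h⁆ ∈ TT := by
      have := mul_mem hτ (conj_mem_of_nz (hEnz le_rfl hh) (inv_mem hτ))
      convert this using 1; rw [commutatorElement_def]; group
    have h2 := mul_mem (conj_mem_of_nz (hEnz le_rfl (mul_mem (inv_mem htE) hdE)) h1) (hQTE hdh)
    convert h2 using 1
    rw [hyd]; simp only [commutatorElement_def]; group
  obtain ⟨k, hk⟩ := coprime_pow_mem (p := p) (x := s₀)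
  exact no_separator hG hE hqE hp3 hne hisoE hbotE htE htn htt (pow_mem hs1 _) (pow_mem hs2 _)
    (odd_pow_neg (hEnz le_rfl htE) (hQTE htt) hs3 ((hp.out.odd_of_ne_two (by omega)).pow)) hk

end Cfsg.Agent.Lib.LocalChar.Baumann
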