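import Cfsg.Agent.Lib.LocalChar.BlockQ8Pair

/-! Exceptional blocks with `E / O_p(E) ≅ Q₈`: the separation of the two layers. -/

set_option autoImplicit false
set_option linter.unusedSectionVars false
set_option maxHeartbeats 1000000

open Subgroup
open scoped commutatorElement

namespace Cfsg.Agent.Lib.LocalChar.Baumann

variable {G : Type*} [Group G] [Finite G] {p : ℕ} [hp : Fact p.Prime]

local notation "Q" => Cfsg.pCore p G

variable (hG : centralizer (Cfsg.pCore p G : Set G) ≤ Cfsg.pCore p G)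
variable {TE : Sylow p G} {E : Subgroup G} (hE : Cfsg.IsBaumannBlock p (TE : Subgroup G) E)

include hG hE

/-- No element of `N_G(O_p(E))` acts on the two layers as `1` and `-1`. -/
theorem no_separator {F : Type} [Field F] [Fintype F] (hq : Fintype.card F = 3) (hp3 : p = 3)
    (hne : Cfsg.pCoreOf p E ≠ bW p E)
    (hiso : Nonempty (↥E ⧸ Cfsg.pCore p ↥E ≃* ↥(commutator (Matrix.SpecialLinearGroup (Fin 2) F))))
    (hbot : Cfsg.ActsAsSL2OnSection F (commutator (Matrix.SpecialLinearGroup (Fin 2) F)) E (bW p E) (bZ p E))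
    {t : G} (htE : t ∈ E) (htn : t ∉ Cfsg.pCoreOf p E) (htt : t * t ∈ Cfsg.pCoreOf p E)
    {s : G} (hs1 : s ∈ trivOn Q (Cfsg.pCoreOf p E)) (hs2 : s ∈ trivOn (bW p E) ⊥)
    (hs3 : t⁻¹ * s ∈ trivOn (Cfsg.pCoreOf p E) (bW p E)) (ho : (orderOf s).Coprime p) : False := by
  obtain ⟨-, FE, i1, i2, hE2, hisoE, hbotE, htop, hcc, hfr, hEZ, hnq⟩ := exc_data hE hne
  have hQW : ⁅Cfsg.pCoreOf p E, Cfsg.pCoreOf p E⁆ ≤ bW p E := hcc.le.trans inf_le_left
  obtain ⟨hneg, -⟩ := t_facts hE2 hisoE htop (Qe_le_trivOn_top hQW) htE htn htt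
  obtain ⟨-, qinv, -, -⟩ := q8_facts hq hiso hbot (Qe_le_trivOn_W E) htE htn htt
  have hcardE : Fintype.card FE = 3 := by
    have a := layer_index hisoE hbotE (Qe_le_trivOn_W E)
    rw [layer_index hiso hbot (Qe_le_trivOn_W E), hq] at a
    nlinarith [Fintype.one_lt_card (α := FE)]
  have hidxT : (bW p E).relIndex (Cfsg.pCoreOf p E) = p ^ 2 := by
    rw [layer_index hisoE htop (Qe_le_trivOn_top hQW), hcardE, hp3]
  have hidxB : (bZ p E).relIndex (bW p E) = p ^ 2 := by
    rw [layer_index hiso hbot (Qe_le_trivOn_W E), hq, hp3]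
  set X := Cfsg.pCoreOf p E with hX
  set W := bW p E with hW
  set Z := bZ p E with hZ
  set TT := trivOn X W
  have hWX : W ≤ X := omegaOneCenter_le _
  have hZW : Z ≤ W := inf_le_left
  have hXnZ : X ≤ normalizer (Z : Set G) := (pCoreOf_le E).trans (le_normalizer.trans (nz_le_nz_Z E))
  have hnX : ∀ {K : Subgroup G}, K ≤ normalizer (X : Set G) → K ≤ normalizer (W : Set G) ∧ K ≤ normalizer (Z : Set G) :=
    fun {K} hK => ⟨le_nz_omegaOneCenter hK, by rw [← hcc]; exact le_nz_commutator hK hK⟩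
  set P := trivOn Q X ⊓ TT ⊓ trivOn W ⊥ with hPdef
  have hP : IsPGroup p P := by
    refine (isPGroup_iff_forall_coprime P).2 fun y hy hyo => ?_
    have hW' : ∀ w ∈ W, Commute y w := fun w hw => mul_inv_eq_iff_eq_mul.1 (mem_trivOn_bot_iff.1 hy.2 w hw)
    have hQe : ∀ a ∈ X, Commute y a := by
      refine commute_of_chain (isPGroup_pCoreOf E) (fun a ha => conj_mem_of_nz hy.1.2.1 ha) hyo hW' fun a ha => ?_
      have := conj_mem_of_nz ((E_le_nz_W E) (pCoreOf_le E (inv_mem ha))) (hy.1.2.2.2 a ha)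
      convert this using 1; group
    have hQQ : ∀ a ∈ (Q : Subgroup G), Commute y a := by
      refine commute_of_chain pCore_isPGroup (fun a ha => conj_mem_of_nz hy.1.1.1 ha) hyo hQe fun a ha => ?_
      have := conj_mem_of_nz ((core_le_nz hE).trans (nz_le_nz_pCoreOf E) (inv_mem ha)) (hy.1.1.2.2 a ha)
      convert this using 1; group
    exact eq_one_of_isPGroup_of_coprime pCore_isPGroup
      (hG (mem_centralizer_iff.2 fun a ha => (hQQ a ha).eq.symm)) hyo
  have hbotn : ∀ {K : Subgroup G}, K ≤ normalizer ((⊥ : Subgroup G) : Set G) := fun {K} => by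
    rw [normalizer_eq_top (H := (⊥ : Subgroup G))]; exact le_top
  set B := Cfsg.baumannSubgroupOf p (TE : Subgroup G) with hB
  have hBE : B ≤ normalizer (E : Set G) := block_B_le_nz hE
  have hBX : B ≤ normalizer (X : Set G) := hBE.trans (nz_le_nz_pCoreOf E)
  have hsX : zpowers s ≤ normalizer (X : Set G) := zpowers_le.2 hs1.2.1
  have nzP : ∀ {K : Subgroup G}, K ≤ normalizer (X : Set G) → K ≤ normalizer (P : Set G) := fun {K} hK =>
    le_nz_inf (le_nz_inf (le_nz_trivOn (le_nz_pCore K) hK) (le_nz_trivOn hK (hnX hK).1))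
      (le_nz_trivOn (hnX hK).1 hbotn)
  have htTT : t ∈ normalizer (TT : Set G) :=
    le_nz_trivOn (le_nz_pCoreOf E) (E_le_nz_W E) htE
  have hQeT : X ≤ TT := Qe_le_trivOn_top hQW
  -- commutators of `B` with `s`
  have hcb : ∀ b ∈ B, b * s * b⁻¹ * s⁻¹ ∈ P := by
    intro b hb
    refine ⟨⟨(trivOn Q X).mul_mem (conj_mem_of_nz (le_nz_trivOn (le_nz_pCore B) hBX hb) hs1)
        ((trivOn Q X).inv_mem hs1), ?_⟩,
      (trivOn W ⊥).mul_mem (conj_mem_of_nz (le_nz_trivOn (hnX hBX).1 hbotn hb) hs2) ((trivOn W ⊥).inv_mem hs2)⟩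
    show _ ∈ TT
    have hbt : b * t * b⁻¹ ∈ E := conj_mem_of_nz (hBE hb) htE
    have hbt' : t⁻¹ * (b * t * b⁻¹) ∈ X := by
      refine (qinv _ hbt ?_).resolve_left ?_
      · have := conj_mem_of_nz (hBX hb) htt
        convert this using 1; group
      · intro h
        refine htn ?_
        have := conj_mem_of_nz (inv_mem (hBX hb)) h
        convert this using 1; group
    have h1 := mul_mem (mul_mem (hQeT hbt') (conj_mem_of_nz (le_nz_trivOn hBX (hnX hBX).1 hb) hs3)) (inv_mem hs3)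
    have := conj_mem_of_nz htTT h1
    convert this using 1; group
  set R := P ⊔ B
  have hR : IsPGroup p R := hP.to_sup_of_normal_left' (TE.2.to_le inf_le_left) (nzP hBX)
  have hsB : s ∈ normalizer (B : Set G) := by
    refine mem_nz_baumann (T := TE) hR le_sup_right (cj_le_iff.2 fun b hb => ?_)
    have := mul_mem (inv_mem (mem_sup_left (T := B) (hcb b hb))) (mem_sup_right (S := P) hb)
    convert this using 1; group
  -- an element of `B` commuting with `s` outside `C(W)`
  obtain ⟨b, hb, hbW⟩ : ∃ b ∈ B, b ∉ centralizer (W : Set G) := by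
    by_contra h
    push Not at h
    refine W_E_not_centralized hG hE (commutator_eq_bot_iff_le_centralizer.2 ?_)
    refine le_trans ?_ (centralizer_le (thompsonOf_le_baumann _))
    exact (bW1_le_W E).trans (le_centralizer_iff.1 h)
  set N := B ⊓ P with hN
  have hsN : zpowers s ≤ normalizer (N : Set G) := le_nz_inf (zpowers_le.2 hsB) (nzP hsX)
  have hcop : (Nat.card (zpowers s)).Coprime (Nat.card N) := by
    obtain ⟨k, hk⟩ := IsPGroup.iff_card.1 (hP.to_le (inf_le_right : N ≤ P))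
    rw [Nat.card_zpowers, hk]
    exact Nat.Coprime.pow_right k ho
  have hsolv : Group.IsSolvable (zpowers s) := inferInstance
  obtain ⟨c, hc, hbc⟩ := Coprime.exists_centralizer_mem_coset hsN hcop (Or.inl hsolv) (k := b) (by
    intro a ha
    let U : Subgroup G :=
      { carrier := {a | a ∈ normalizer (B : Set G) ∧ a ∈ normalizer (N : Set G) ∧ b⁻¹ * (a * b * a⁻¹) ∈ N}
        one_mem' := ⟨one_mem _, one_mem _, by simp⟩
        mul_mem' := fun {x y} hx hy => ⟨mul_mem hx.1 hy.1, mul_mem hx.2.1 hy.2.1, by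
          have := mul_mem hx.2.2 (conj_mem_of_nz hx.2.1 hy.2.2)
          convert this using 1; group⟩
        inv_mem' := fun {x} hx => ⟨inv_mem hx.1, inv_mem hx.2.1, by
          have := inv_mem (conj_mem_of_nz (inv_mem hx.2.1) hx.2.2)
          convert this using 1; group⟩ }
    have hsU : s ∈ U := by
      refine ⟨hsB, hsN (mem_zpowers s), B.mul_mem (B.inv_mem hb) (conj_mem_of_nz hsB hb), ?_⟩
      show _ ∈ P
      have := conj_mem_of_nz (nzP hBX (inv_mem hb)) (inv_mem (hcb b hb))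
      convert this using 1; group
    exact (zpowers_le.2 hsU ha).2.2)
  have hcB : c ∈ B := by
    have := mul_mem hb hbc.1
    rwa [mul_inv_cancel_left] at this
  have hcW : c ∉ centralizer (W : Set G) := by
    intro h
    refine hbW ?_
    have hPW : b⁻¹ * c ∈ centralizer (W : Set G) :=
      mem_centralizer_iff.2 fun w hw => (mul_inv_eq_iff_eq_mul.1 (mem_trivOn_bot_iff.1 hbc.2.2 w hw)).symm
    have := mul_mem h (inv_mem hPW)
    convert this using 1; group
  refine hnq c hcB hcW ?_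
  rw [hEZ]
  set C := zpowers c
  have hCX : C ≤ normalizer (X : Set G) := zpowers_le.2 (hBX hcB)
  have hCs : ∀ x ∈ C, Commute x s := by
    intro x hx
    obtain ⟨i, rfl⟩ := mem_zpowers_iff.1 hx
    exact Commute.zpow_left (mem_centralizer_iff.1 hc s (mem_zpowers s)).symm i
  have hCp : IsPGroup p C := TE.2.to_le ((zpowers_le.2 hcB).trans inf_le_left)
  have hXX : ∀ a ∈ X, ∀ b' ∈ X, ⁅a, b'⁆ ∈ Z := fun a ha b' hb' => hcc.le (commutator_mem_commutator ha hb')
  have hZc : ∀ z ∈ Z, ∀ x ∈ X, x * z = z * x := fun z hz x hx => mem_centralizer_iff.1 hz.2 x (pCoreOf_le E hx)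
  have hsfix : ∀ w ∈ W, s * w * s⁻¹ = w := fun w hw => mem_trivOn_bot_iff.1 hs2 w hw
  have hsneg : ∀ x ∈ X, s * x * s⁻¹ * x ∈ W := by
    intro x hx
    have h1 := hs3.2.2 x hx
    set u := t⁻¹ * s * x * (t⁻¹ * s)⁻¹ * x⁻¹ with hu
    have h3 := mul_mem (conj_mem_of_nz (E_le_nz_W E htE) h1) (hneg x hx)
    convert h3 using 1
    rw [hu]; group
  have hs2X : ∀ x ∈ X, Commute (s * s) x := by
    have hnz : s * s ∈ normalizer (X : Set G) := mul_mem hs1.2.1 hs1.2.1
    have ho2 : (orderOf (s * s)).Coprime p := by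
      rw [← pow_two]; exact Nat.Coprime.coprime_dvd_left (orderOf_pow_dvd 2) ho
    refine commute_of_chain (isPGroup_pCoreOf E) (fun a ha => conj_mem_of_nz hnz ha) ho2 (B := W)
      (fun w hw => ?_) fun a ha => ?_
    · have : s * s * w * (s * s)⁻¹ = w := by
        rw [show s * s * w * (s * s)⁻¹ = s * (s * w * s⁻¹) * s⁻¹ by group, hsfix w hw, hsfix w hw]
      exact mul_inv_eq_iff_eq_mul.1 this
    · have ha' : s * a * s⁻¹ ∈ X := conj_mem_of_nz hs1.2.1 ha
      have := mul_mem (inv_mem (hsneg a ha)) (hsneg _ ha')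
      have h4 := conj_mem_of_nz (E_le_nz_W E (pCoreOf_le E (inv_mem ha))) (inv_mem (inv_mem (hsneg _ ha')))
      clear this
      -- `s² a s⁻² ≡ (s a s⁻¹)⁻¹ ≡ a`
      have h5 := mul_mem (hsneg _ ha') (inv_mem (conj_mem_of_nz (E_le_nz_W E (pCoreOf_le E (inv_mem ha'))) (hsneg a ha)))
      have h6 := conj_mem_of_nz (E_le_nz_W E (pCoreOf_le E (inv_mem ha))) h5
      clear h4
      convert h6 using 1
      group
  let A : Subgroup G :=
    { carrier := {a | a ∈ X ∧ s * a * s⁻¹ * a ∈ Z}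
      one_mem' := ⟨one_mem _, by simp⟩
      mul_mem' := fun {a b'} ha hb' => by
        refine ⟨mul_mem ha.1 hb'.1, ?_⟩
        set a' := s * a * s⁻¹
        set b'' := s * b' * s⁻¹
        have ha' : a' ∈ X := conj_mem_of_nz hs1.2.1 ha.1
        have hb2 : b'' ∈ X := conj_mem_of_nz hs1.2.1 hb'.1
        have h := mul_mem (mul_mem (conj_mem_of_nz (hXnZ ha') (hXX b'' hb2 a ha.1)) ha.2) hb'.2
        convert h using 1
        rw [show s * (a * b') * s⁻¹ * (a * b') = a' * b'' * a * b' by simp only [a', b'']; group]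
        calc a' * b'' * a * b' = a' * ⁅b'', a⁆ * a'⁻¹ * ((a' * a) * (b'' * b')) := by
              rw [commutatorElement_def]; group
          _ = _ := by simp only [a', b'', mul_assoc]
      inv_mem' := fun {a} ha => by
        refine ⟨inv_mem ha.1, ?_⟩
        have h := inv_mem (conj_mem_of_nz (hXnZ ha.1) ha.2)
        convert h using 1; group }
  have hAX : A ≤ X := fun a ha => ha.1
  have hZA : Z ≤ A := fun z hz => by
    refine ⟨hWX (hZW hz), ?_⟩
    rw [hsfix z (hZW hz)]
    exact mul_mem hz hz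
  have hCA : C ≤ normalizer (A : Set G) := by
    refine le_nz_iff.2 fun k hk a ha => ⟨conj_mem_of_nz (hCX hk) ha.1, ?_⟩
    have := conj_mem_of_nz ((hnX hCX).2 hk) ha.2
    convert this using 1
    have e : s * k = k * s := (hCs k hk).eq.symm
    calc s * (k * a * k⁻¹) * s⁻¹ * (k * a * k⁻¹) = (s * k) * a * (s * k)⁻¹ * (k * a * k⁻¹) := by group
      _ = _ := by rw [e]; group
  have hodd2 : ∀ {H : Subgroup G} {x : G}, x ∈ X → x * x ∈ H → x ∈ H := fun {H x} hx h => by
    refine mem_of_pow_coprime (p := p) (n := 2) (by rw [hp3]; norm_num) ?_ (by rwa [pow_two])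
    obtain ⟨k, hk⟩ := isPGroup_pCoreOf (p := p) E ⟨x, hx⟩
    exact ⟨k, by rw [show x ^ p ^ k = 1 by simpa using congrArg Subtype.val hk]; exact one_mem _⟩
  have hAWZ : A ⊓ W = Z := by
    refine le_antisymm (fun w hw => ?_) (le_inf hZA hZW)
    have := hw.1.2
    rw [hsfix w hw.2] at this
    exact hodd2 (hWX hw.2) this
  have hidxA : Z.relIndex A ≤ p ^ 2 := by
    rw [← hAWZ, inf_relIndex_left, ← hidxT]
    refine relIndex_le_of_le_right hAX ?_
    rw [hidxT]; exact pow_ne_zero _ hp.out.ne_zero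
  have hqA := commutator_commutator_le_of_index ((isPGroup_pCoreOf E).to_le hAX) hCp hCA (hnX hCX).2
    (hAX.trans hXnZ) ((commutator_mono hAX hAX).trans hcc.le) hZA hidxA
  have hqW := commutator_commutator_le_of_index (bW_isPGroup E) hCp (hnX hCX).1 (hnX hCX).2
    (hWX.trans hXnZ) ((commutator_mono hWX hWX).trans hcc.le) hZW hidxB.le
  have hXAW : X ≤ A ⊔ W := by
    intro x hx
    set x' := s * x * s⁻¹ with hx'
    have hx'X : x' ∈ X := conj_mem_of_nz hs1.2.1 hx
    have hg : x * x'⁻¹ ∈ A := by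
      refine ⟨mul_mem hx (inv_mem hx'X), ?_⟩
      have e : s * x' * s⁻¹ = x := by
        rw [hx', show s * (s * x * s⁻¹) * s⁻¹ = s * s * x * (s * s)⁻¹ by group, (hs2X x hx).eq]; group
      rw [show s * (x * x'⁻¹) * s⁻¹ * (x * x'⁻¹) = x' * (s * x' * s⁻¹)⁻¹ * (x * x'⁻¹) by simp only [hx']; group, e]
      simp
    refine hodd2 hx ?_
    have := mul_mem (mem_sup_left (T := W) hg) (mem_sup_right (S := A) (hsneg x hx))
    rwa [← hx', ← mul_assoc, inv_mul_cancel_right] at this
  -- assemble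
  let S : Subgroup G :=
    { carrier := {m | m ∈ X ∧ ∀ k ∈ C, ⁅m, k⁆ ∈ Z}
      one_mem' := ⟨one_mem _, fun k _ => by simp [commutatorElement_def]⟩
      mul_mem' := fun {a b'} ha hb' => ⟨mul_mem ha.1 hb'.1, fun k hk => by
        have := mul_mem (conj_mem_of_nz (hXnZ ha.1) (hb'.2 k hk)) (ha.2 k hk)
        convert this using 1
        simp only [commutatorElement_def]; group⟩
      inv_mem' := fun {a} ha => ⟨inv_mem ha.1, fun k hk => by
        have := inv_mem (conj_mem_of_nz (hXnZ (inv_mem ha.1)) (ha.2 k hk))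
        convert this using 1
        simp only [commutatorElement_def]; group⟩ }
  have hAS : ⁅A, C⁆ ≤ S := fun m hm => ⟨hAX (commutator_le_left_of_nz hCA hm),
    fun k hk => hqA (commutator_mem_commutator hm hk)⟩
  have hWS : ⁅W, C⁆ ≤ S := fun m hm => ⟨hWX (commutator_le_left_of_nz (hnX hCX).1 hm),
    fun k hk => hqW (commutator_mem_commutator hm hk)⟩
  have hZS : Z ≤ S := fun z hz => ⟨hWX (hZW hz), fun k hk =>
    commutator_le_left_of_nz (hnX hCX).2 (commutator_mem_commutator hz hk)⟩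
  have hXS : ⁅X, C⁆ ≤ S := by
    rw [commutator_le]
    intro x hx k hk
    obtain ⟨a, ha, w, hw, rfl⟩ := (mem_sup_iff_of_nz (hAX.trans ((pCoreOf_le E).trans (E_le_nz_W E)))).1 (hXAW hx)
    have hu : ⁅w, k⁆ ∈ W := commutator_le_left_of_nz (hnX hCX).1 (commutator_mem_commutator hw hk)
    have e : ⁅a * w, k⁆ = ⁅a, ⁅w, k⁆⁆ * ⁅w, k⁆ * ⁅a, k⁆ := by simp only [commutatorElement_def]; group
    rw [e]
    exact mul_mem (mul_mem (hZS (hXX a (hAX ha) _ (hWX hu))) (hWS (commutator_mem_commutator hw hk)))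
      (hAS (commutator_mem_commutator ha hk))
  rw [commutator_le]
  intro m hm k hk
  exact (hXS hm).2 k hk

end Cfsg.Agent.Lib.LocalChar.Baumann
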