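import Cfsg.Agent.Lib.LocalChar.BlockCommute

/-! Two small blocks normalising each other. -/

set_option autoImplicit false
set_option linter.unusedSectionVars false
set_option maxHeartbeats 1000000

open Subgroup
open scoped commutatorElement

namespace Cfsg.Agent.Lib.LocalChar.Baumann

variable {G : Type*} [Group G] [Finite G] {p : ℕ} [hp : Fact p.Prime]

local notation "Q" => Cfsg.pCore p G

variable (hG : centralizer (Cfsg.pCore p G : Set G) ≤ Cfsg.pCore p G)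
variable {TE TF : Sylow p G} {E F : Subgroup G}
  (hE : Cfsg.IsBaumannBlock p (TE : Subgroup G) E) (hF : Cfsg.IsBaumannBlock p (TF : Subgroup G) F)
  (hEs : E.IsSubnormal) (hFs : F.IsSubnormal)

theorem Qe_top_trivOn (hE : Cfsg.IsBaumannBlock p (TE : Subgroup G) E) :
    Cfsg.pCoreOf p E ≤ trivOn (Cfsg.pCoreOf p E) (bW p E) := by
  by_cases h : Cfsg.pCoreOf p E = bW p E
  · refine le_trivOn_self ?_ ((pCoreOf_le E).trans (E_le_nz_W E))
    exact (commutator_le_self _).trans h.le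
  · obtain ⟨-, _, _, _, -, -, -, -, hcc, -, -, -⟩ := exc_data hE h
    exact Qe_le_trivOn_top (hcc.le.trans inf_le_left)

include hG hE hF hEs hFs

theorem small_pair_C (hsE : SmallC p E) (hFnE : F ≤ normalizer (E : Set G))
    (hEnF : E ≤ normalizer (F : Set G)) : ⁅E, F⁆ ≤ Q ∨ E ≤ F := by
  by_cases h : ⁅E, F⁆ ≤ Q
  · exact Or.inl h
  refine Or.inr (eq_of_le_sup hF (block_res hE) ?_)
  obtain ⟨c, hc, hcQ⟩ := SetLike.not_le_iff_exists.1 h
  have hcE : c ∈ E := commutator_le_left_of_nz hFnE hc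
  have hcF : c ∈ F := commutator_le_right_of_nz hEnF hc
  obtain ⟨-, -, x, hx, -, -, -, hgen, -, -⟩ := smallC_facts hG hE hsE
  obtain ⟨i, hi⟩ := hgen c hcE
  have hQe : Cfsg.pCoreOf p E ≤ F ⊔ Q := (pCoreOf_le_of_subnormal hEs).trans le_sup_right
  have hxi : x ^ i ∈ F ⊔ Q := by
    have := mul_mem (mem_sup_left (T := Q) hcF) (inv_mem (hQe hi))
    convert this using 1; group
  have h3 : x ^ 3 ∈ F ⊔ Q := hQe (by
    rw [show x = ((⟨x, hx⟩ : ↥E) : G) from rfl, ← Subgroup.coe_pow, mem_pCoreOf_iff, ← QuotientGroup.eq_one_iff,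
      QuotientGroup.mk_pow, ← hsE.2]
    exact pow_card_eq_one')
  have hx' : x ∈ F ⊔ Q := by
    have : Fact (Nat.Prime 3) := ⟨Nat.prime_three⟩
    refine mem_of_pow_coprime (p := 3) (n := i) ?_ ⟨1, by simpa using h3⟩ hxi
    refine coprime_of_not_dvd fun h3i => hcQ ?_
    obtain ⟨j, rfl⟩ := h3i
    have h3e : x ^ (3 * j) ∈ Cfsg.pCoreOf p E := by
      rw [pow_mul]
      refine pow_mem ?_ j
      rw [show x = ((⟨x, hx⟩ : ↥E) : G) from rfl, ← Subgroup.coe_pow, mem_pCoreOf_iff, ← QuotientGroup.eq_one_iff,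
        QuotientGroup.mk_pow, ← hsE.2]
      exact pow_card_eq_one'
    have := mul_mem h3e hi
    rw [mul_inv_cancel_left] at this
    exact pCoreOf_le_of_subnormal hEs this
  intro e he
  obtain ⟨k, hk⟩ := hgen e he
  have := mul_mem (pow_mem hx' k) (hQe hk)
  rwa [mul_inv_cancel_left] at this

theorem exists_common_t (hsE : SmallQ p E) (hsF : SmallQ p F) (hFnE : F ≤ normalizer (E : Set G))
    (hEnF : E ≤ normalizer (F : Set G)) (hQ : ¬ ⁅E, F⁆ ≤ Q) :
    ∃ t ∈ E, t ∈ F ∧ (orderOf t).Coprime p ∧ t ∉ Cfsg.pCoreOf p E ∧ t * t ∈ Cfsg.pCoreOf p E ∧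
      t ∉ Cfsg.pCoreOf p F ∧ t * t ∈ Cfsg.pCoreOf p F := by
  obtain ⟨c, hc, hcQ⟩ := SetLike.not_le_iff_exists.1 hQ
  have hcE : c ∈ E := commutator_le_left_of_nz hFnE hc
  have hcF : c ∈ F := commutator_le_right_of_nz hEnF hc
  obtain ⟨FE, i1, i2, hqE, -, hisoE, hactE, tE, htE, -, htnE, httE⟩ := smallQ_facts hG hE hsE
  obtain ⟨sq, -, -, -⟩ := q8_facts hqE hisoE hactE (Qe_le_trivOn_W E) (commutator_le_self E htE) htnE httE
  obtain ⟨d, hdE, hdF, hdQ, hddQ⟩ : ∃ d, d ∈ E ∧ d ∈ F ∧ d ∉ Q ∧ d * d ∈ Q := by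
    by_cases h : c * c ∈ (Q : Subgroup G)
    · exact ⟨c, hcE, hcF, hcQ, h⟩
    refine ⟨c * c, mul_mem hcE hcE, mul_mem hcF hcF, h, pCoreOf_le_of_subnormal hEs ?_⟩
    rcases sq c hcE with e | e
    · exact absurd (pCoreOf_le_of_subnormal hEs e) h
    · have hcen := (t_facts (two_ne_zero_of_card (p := p) (n := 1) (by rw [hqE, hsE.1, pow_one]) (by rw [hsE.1]; norm_num))
        hisoE hactE (Qe_le_trivOn_W E) (commutator_le_self E htE) htnE httE).2
      have hn : tE ∈ normalizer (Cfsg.pCoreOf p E : Set G) := le_nz_pCoreOf E (commutator_le_self E htE)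
      have := mul_mem (mul_mem (conj_mem_of_nz hn e) httE) e
      convert this using 1; group
  obtain ⟨k, hk⟩ := coprime_pow_mem (p := p) (x := d)
  have hkodd : Odd (p ^ k) := (hp.out.odd_of_ne_two (by rw [hsE.1]; norm_num)).pow
  have hdd : ∀ j, (d * d) ^ j ∈ (Q : Subgroup G) := fun j => pow_mem hddQ j
  obtain ⟨j, hj⟩ := hkodd
  have hpow : d ^ p ^ k = d * (d * d) ^ j := by rw [hj, add_comm, pow_add, pow_one, pow_mul, pow_two]
  have hnQ : d ^ p ^ k ∉ (Q : Subgroup G) := fun h => hdQ (by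
    rw [hpow] at h
    exact ((Q : Subgroup G).mul_mem_cancel_right (hdd j)).1 h)
  have hsqQ : d ^ p ^ k * d ^ p ^ k ∈ (Q : Subgroup G) := by
    rw [← ((Commute.refl d).mul_pow), ]
    exact pow_mem hddQ _
  refine ⟨d ^ p ^ k, pow_mem hdE _, pow_mem hdF _, hk, fun h => hnQ (pCoreOf_le_of_subnormal hEs h),
    inf_pCore_le ⟨mul_mem (pow_mem hdE _) (pow_mem hdE _), hsqQ⟩, fun h => hnQ (pCoreOf_le_of_subnormal hFs h),
    inf_pCore_le ⟨mul_mem (pow_mem hdF _) (pow_mem hdF _), hsqQ⟩⟩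

omit hEs hFs in
theorem W1_le_of_common {t : G} (htE : t ∈ E) (htF : t ∈ F) (ho : (orderOf t).Coprime p) (hp3 : p = 3)
    (hinv : ∀ w ∈ bW1 p E, t * w * t⁻¹ = w⁻¹) : bW1 p E ≤ bW1 p F := by
  intro w hw
  have hwV := (W_E_facts hG hE).1 hw
  have h := V_delta hG hF htF ho w hwV
  rw [hinv w hw] at h
  have h3 : w ^ 3 = 1 := by rw [← hp3]; exact (omegaOneCenter_elementary (p := p) (Q)).2 w hwV
  have e : w⁻¹ * w⁻¹ = w := by
    rw [← _root_.mul_inv_rev, inv_eq_iff_mul_eq_one, ← h3, pow_succ, pow_two]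
  rwa [e] at h

omit hFs in
theorem not_exc_of_common {t : G} (htE : t ∈ E) (htF : t ∈ F) (h : bW1 p E = bW1 p F)
    (htn : t ∉ Cfsg.pCoreOf p E) (htt : t * t ∈ Cfsg.pCoreOf p E) (hF' : Cfsg.pCoreOf p F = bW p F) :
    Cfsg.pCoreOf p E = bW p E := by
  by_contra hne
  obtain ⟨hp3, FE, i1, i2, h2, hiso, -, htop, hcc, -, -, -⟩ := exc_data hE hne
  have hQW : ⁅Cfsg.pCoreOf p E, Cfsg.pCoreOf p E⁆ ≤ bW p E := hcc.le.trans inf_le_left
  obtain ⟨hneg, -⟩ := t_facts h2 hiso htop (Qe_le_trivOn_top hQW) htE htn htt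
  have hle : Cfsg.pCoreOf p E ≤ bW p E := by
    intro x hx
    have hxQ : x ∈ E := pCoreOf_le E hx
    have h1 : t * x * t⁻¹ * x⁻¹ ∈ bW p E := by
      have hc : ⁅t, x⁆ ∈ Cfsg.pCoreOf p F → ⁅t, x⁆ ∈ bW p E := fun hc => by
        refine bW1_le_W E (h.ge ?_)
        have e := hF.2.2.1
        rw [hF'] at e hc
        exact e.ge hc
      rw [← commutatorElement_def]
      exact hc (comm_Q_le hF ((commutator_comm F Q).le
        (commutator_mem_commutator htF (pCoreOf_le_of_subnormal hEs hx))))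
    have h2' := mul_mem (inv_mem h1) (hneg x hx)
    have hxx : x * x ∈ bW p E := by convert h2' using 1; group
    refine mem_of_pow_coprime (p := p) (n := 2) (by rw [hp3]; norm_num) ?_ (by rwa [pow_two])
    obtain ⟨k, hk⟩ := isPGroup_pCoreOf (p := p) E ⟨x, hx⟩
    exact ⟨k, by rw [show x ^ p ^ k = 1 by simpa using congrArg Subtype.val hk]; exact one_mem _⟩
  exact hne (le_antisymm hle (omegaOneCenter_le _))

omit hEs hFs in
theorem Qe_le_of_common {t : G} (htE : t ∈ E) (htF : t ∈ F) (h : bW1 p E = bW1 p F)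
    (hEQ : Cfsg.pCoreOf p F ≤ Q) (htn : t ∉ Cfsg.pCoreOf p F) (htt : t * t ∈ Cfsg.pCoreOf p F)
    (hne : Cfsg.pCoreOf p F ≠ bW p F) : Cfsg.pCoreOf p F ≤ Cfsg.pCoreOf p E := by
  obtain ⟨hp3, FF, i1, i2, h2, hiso, -, htop, hcc, hfr, -, -⟩ := exc_data hF hne
  obtain ⟨hneg, -⟩ := t_facts h2 hiso htop (Qe_le_trivOn_top (hcc.le.trans inf_le_left)) htF htn htt
  set Y := Cfsg.pCoreOf p F
  set X := Cfsg.pCoreOf p E
  set S := X ⊔ bZ p F
  have hZn : bZ p F ≤ normalizer (X : Set G) :=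
    (inf_le_left.trans ((omegaOneCenter_le _).trans hEQ)).trans ((core_le_nz hE).trans (nz_le_nz_pCoreOf E))
  have hWS : bW p F ≤ S := (W_le_W1_sup_Z hG hF).trans
    (sup_le_sup (h.ge.trans ((bW1_le_W E).trans (omegaOneCenter_le _))) le_rfl)
  have hYS : Y ≤ S := by
    intro y hy
    have h1 : t * y * t⁻¹ * y⁻¹ ∈ S := by
      rw [← commutatorElement_def]
      exact mem_sup_left (comm_Q_le hE ((commutator_comm E Q).le (commutator_mem_commutator htE (hEQ hy))))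
    have hxx : y * y ∈ S := by
      have := mul_mem (inv_mem h1) (hWS (hneg y hy))
      convert this using 1; group
    refine mem_of_pow_coprime (p := p) (n := 2) (by rw [hp3]; norm_num) ?_ (by rwa [pow_two])
    obtain ⟨k, hk⟩ := isPGroup_pCoreOf (p := p) F ⟨y, hy⟩
    exact ⟨k, by rw [show y ^ p ^ k = 1 by simpa using congrArg Subtype.val hk]; exact one_mem _⟩
  have hK : X.subgroupOf Y ⊔ frattini ↥Y = ⊤ := by
    refine eq_top_iff.2 fun y _ => ?_
    obtain ⟨a, ha, z, hz, e⟩ := (mem_sup_iff_of_nz' hZn).1 (hYS y.2)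
    obtain ⟨z', hz', rfl⟩ := hfr.ge hz
    have haY : (a : G) = (y * z'⁻¹ : ↥Y) := by simp [e]
    have hy' : y * z'⁻¹ ∈ X.subgroupOf Y := by rw [mem_subgroupOf, ← haY]; exact ha
    have := mul_mem_sup hy' hz'
    rwa [inv_mul_cancel_right] at this
  exact subgroupOf_eq_top.1 (frattini_nongenerating hK)

end Cfsg.Agent.Lib.LocalChar.Baumann
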