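import Cfsg.Agent.Lib.LocalChar.BlockQ8Eq

/-! Subnormal Baumann blocks are equal or commute. -/

set_option autoImplicit false
set_option linter.unusedSectionVars false
set_option maxHeartbeats 1000000

open Subgroup
open scoped commutatorElement

namespace Cfsg.Agent.Lib.LocalChar.Baumann

variable {G : Type*} [Group G] [Finite G] {p : ℕ} [hp : Fact p.Prime]

local notation "Q" => Cfsg.pCore p G

/-- A small block. -/
def Small (p : ℕ) (E : Subgroup G) : Prop := SmallC p E ∨ SmallQ p E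

theorem small_cj {E : Subgroup G} (g : G) (h : Small p E) : Small p (cj g E) := by
  obtain ⟨iso⟩ := block_iso (p := p) g E
  rcases h with ⟨hp2, hc⟩ | ⟨hp3, F, i1, i2, hq, ⟨e⟩, hact⟩
  · exact Or.inl ⟨hp2, by rw [Nat.card_congr iso.toEquiv, hc]⟩
  · refine Or.inr ⟨hp3, F, i1, i2, hq, ⟨iso.trans e⟩, ?_⟩
    have hW : bW p (cj g E) = cj g (bW p E) := by
      show Cfsg.omegaOneCenter p (Cfsg.pCoreOf p (cj g E)) = _
      rw [pCoreOf_cj, ← bcj_omegaOneCenter]
    have hZ : bZ p (cj g E) = cj g (bZ p E) := by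
      show bW p (cj g E) ⊓ _ = _
      rw [hW, ← bcj_centralizer, ← bcj_inf]
    rw [hZ, hW]
    exact bcj_act g hact

variable (hG : centralizer (Cfsg.pCore p G : Set G) ≤ Cfsg.pCore p G)
include hG

theorem small_image {T : Sylow p G} {E : Subgroup G} (hE : Cfsg.IsBaumannBlock p (T : Subgroup G) E)
    (hs : Small p E) : ∀ x ∈ E, x ^ (if p = 2 then 3 else 4) ∈ Cfsg.pCoreOf p E := by
  intro x hx
  rcases hs with h | h
  · rw [if_pos h.1, show x = ((⟨x, hx⟩ : ↥E) : G) from rfl, ← Subgroup.coe_pow, mem_pCoreOf_iff,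
      ← QuotientGroup.eq_one_iff, QuotientGroup.mk_pow, ← h.2]
    exact pow_card_eq_one'
  · rw [if_neg (by rw [h.1]; norm_num)]
    obtain ⟨F, i1, i2, hq, h2, hiso, hact, t, ht, -, htn, htt⟩ := smallQ_facts hG hE h
    obtain ⟨sq, -, -, -⟩ := q8_facts hq hiso hact (Qe_le_trivOn_W E) (commutator_le_self E ht) htn htt
    rw [show x ^ 4 = (x * x) * (x * x) by simp [pow_succ, mul_assoc]]
    rcases sq x hx with e | e
    · exact mul_mem e e
    · have hn : t ∈ normalizer (Cfsg.pCoreOf p E : Set G) := le_nz_pCoreOf E (commutator_le_self E ht)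
      have := mul_mem (mul_mem (conj_mem_of_nz hn e) htt) e
      convert this using 1; group

theorem small_pair {TE TF : Sylow p G} {E F : Subgroup G} (hE : Cfsg.IsBaumannBlock p (TE : Subgroup G) E)
    (hF : Cfsg.IsBaumannBlock p (TF : Subgroup G) F) (hEs : E.IsSubnormal) (hFs : F.IsSubnormal)
    (sE : Small p E) (sF : Small p F) (hFnE : F ≤ normalizer (E : Set G))
    (hEnF : E ≤ normalizer (F : Set G)) : E = F ∨ ⁅E, F⁆ = ⊥ := by
  by_cases hQ : ⁅E, F⁆ ≤ Q
  · exact comm_or_eq hG hE hF hEs hFs hQ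
  have hQ' : ¬ ⁅F, E⁆ ≤ Q := by rwa [commutator_comm]
  rcases sE with hc | hq <;> rcases sF with hc' | hq'
  · exact Or.inl (le_antisymm ((small_pair_C hG hE hF hEs hFs hc hFnE hEnF).resolve_left hQ)
      ((small_pair_C hG hF hE hFs hEs hc' hEnF hFnE).resolve_left hQ'))
  · exact absurd (hc.1.symm.trans hq'.1) (by norm_num)
  · exact absurd (hc'.1.symm.trans hq.1) (by norm_num)
  · exact Or.inl (le_antisymm (smallQ_le hG hF hE hFs hEs hq' hq hEnF hFnE hQ')
      (smallQ_le hG hE hF hEs hFs hq hq' hFnE hEnF hQ))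

theorem small_W1 {T : Sylow p G} {E : Subgroup G} (hE : Cfsg.IsBaumannBlock p (T : Subgroup G) E)
    (hs : Small p E) :
    (∀ w ∈ bW1 p E, w ∈ centralizer (E : Set G) → w = 1) ∧
      Nat.card (bW1 p E) = (if p = 2 then 4 else 9) := by
  rcases hs with h | h
  · obtain ⟨-, -, x, hx, ho, hcen, hnt, -, -, hc⟩ := smallC_facts hG hE h
    obtain ⟨-, h2, -⟩ := W1_facts hG hE hx ho hcen hnt
    exact ⟨h2, by rw [if_pos h.1, hc]⟩
  · obtain ⟨F, i1, i2, hq, h2, hiso, hact, t, ht, hto, htn, htt⟩ := smallQ_facts hG hE h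
    obtain ⟨-, -, h3, h4⟩ := neg_W1 hG hE h2 hiso hact (commutator_le_self E ht) hto htn htt
    refine ⟨h3, ?_⟩
    rw [if_neg (by rw [h.1]; norm_num), h4, layer_index hiso hact (Qe_le_trivOn_W E), hq]
    norm_num

/-- A small block moved by an element of another small block into commuting conjugates: impossible. -/
theorem no_mover {TE TY : Sylow p G} {E Y : Subgroup G} (hE : Cfsg.IsBaumannBlock p (TE : Subgroup G) E)
    (hY : Cfsg.IsBaumannBlock p (TY : Subgroup G) Y) (hYs : Y.IsSubnormal) (sE : Small p E) (sY : Small p Y)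
    {y : G} (hy : y ∈ Y) (hyo : (orderOf y).Coprime p) (hyn : y ∉ normalizer (E : Set G))
    (hc1 : ⁅E, cj y E⁆ = ⊥) (hc2 : cj (y * y) E = E ∨ ⁅E, cj (y * y) E⁆ = ⊥)
    (hsq : p ≠ 2 → ∀ v ∈ bW1 p Y, (y * y) * v * (y * y)⁻¹ = v → v = 1) : False := by
  obtain ⟨hfixE, hcE⟩ := small_W1 hG hE sE
  obtain ⟨hfixY, hcY⟩ := small_W1 hG hY sY
  set A := bW1 p E
  have hAE : A ≤ E := (bW1_le_W E).trans (bW_le E)
  have hAV : A ≤ Cfsg.omegaOneCenter p Q := (W_E_facts hG hE).1
  have hfixg : ∀ g : G, ∀ v ∈ cj g A, v ∈ centralizer ((cj g E : Subgroup G) : Set G) → v = 1 := by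
    intro g v hv hc
    rw [← bcj_centralizer, mem_cj] at hc
    have := hfixE _ (mem_cj.1 hv) hc
    have e := congrArg (fun z => g * z * g⁻¹) this
    simpa [mul_assoc] using e
  have hcen : ∀ {g h : G}, ⁅cj g E, cj h E⁆ = ⊥ → cj g A ≤ centralizer ((cj h E : Subgroup G) : Set G) :=
    fun {g h} hgh => (cj_mono hAE).trans (commutator_eq_bot_iff_le_centralizer.1 hgh)
  have hc1' : A ≤ centralizer ((cj y E : Subgroup G) : Set G) :=
    hAE.trans (commutator_eq_bot_iff_le_centralizer.1 hc1)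
  have hdisj : ∀ w, w ∈ A → w ∈ cj y A → w = 1 := fun w h1 h2 => hfixg y w h2 (hc1' h1)
  have hyA : ∀ w, w ∈ A → y * w * y⁻¹ ∈ cj y A := fun w hw => conj_mem_cj hw
  have hVd := V_delta hG hY hy hyo
  -- `w ↦ [y, w]` is a bijection of `[W_E, E]` onto `[W_Y, Y]`
  let δ : ↥A → ↥(bW1 p Y) := fun w => ⟨y * w * y⁻¹ * (w : G)⁻¹, hVd w (hAV w.2)⟩
  have hinj : Function.Injective δ := by
    intro u v huv
    have e : y * (u : G) * y⁻¹ * (u : G)⁻¹ = y * (v : G) * y⁻¹ * (v : G)⁻¹ := congrArg Subtype.val huv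
    have h1 : y * ((v : G)⁻¹ * u) * y⁻¹ = (v : G)⁻¹ * u := by
      calc y * ((v : G)⁻¹ * u) * y⁻¹ = (y * v * y⁻¹)⁻¹ * (y * u * y⁻¹ * (u : G)⁻¹) * u := by group
        _ = _ := by rw [e]; group
    have h2 := hdisj _ (mul_mem (inv_mem v.2) u.2) (h1 ▸ hyA _ (mul_mem (inv_mem v.2) u.2))
    exact Subtype.ext (inv_mul_eq_one.1 h2).symm
  have hsur : ∀ v ∈ bW1 p Y, ∃ u ∈ A, v = y * u * y⁻¹ * u⁻¹ := by
    intro v hv
    obtain ⟨⟨u, hu⟩, huv⟩ := (hinj.bijective_of_nat_card_le (by rw [hcE, hcY])).2 ⟨v, hv⟩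
    exact ⟨u, hu, (congrArg Subtype.val huv).symm⟩
  obtain ⟨w, hw, hw1⟩ : ∃ w ∈ A, w ≠ 1 := by
    by_contra h
    push Not at h
    have : A = ⊥ := eq_bot_iff.2 fun a ha => mem_bot.2 (h a ha)
    rw [this, Nat.card_unique] at hcE
    split_ifs at hcE <;> omega
  have hy1 : y * w * y⁻¹ * w⁻¹ ∈ bW1 p Y := hVd w (hAV hw)
  have hyn1 : y ∈ normalizer (bW1 p Y : Set G) := nz_le_nz_W1 Y (le_normalizer hy)
  set w₁ := y * w * y⁻¹
  set w₂ := y * y * w * (y * y)⁻¹
  have hAcomm : ∀ a ∈ Cfsg.omegaOneCenter p Q, ∀ b ∈ Cfsg.omegaOneCenter p Q, a * b = b * a :=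
    fun a ha b hb => Thompson.commute_of_elementary (omegaOneCenter_elementary _) ha hb
  have hVn : y ∈ normalizer (Cfsg.omegaOneCenter p Q : Set G) := le_nz_omegaOneCenter (le_nz_pCore Y) hy
  rcases hc2 with heq | hcomm
  · -- `y²` fixes the block
    by_cases hp2 : p = 2
    · have h3 := small_image hG hY sY y hy
      rw [if_pos hp2] at h3
      have hy3 : y ^ 3 = 1 := eq_one_of_isPGroup_of_coprime (isPGroup_pCoreOf Y) h3
        (Nat.Coprime.coprime_dvd_left (orderOf_pow_dvd 3) hyo)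
      refine hyn ?_
      have h2 : y * y ∈ normalizer (E : Set G) := mem_nz_of_cj_eq heq
      have h4 := pow_mem h2 2
      have : y = (y * y) ^ 2 := by rw [← pow_two, ← pow_mul, show 2 * 2 = 3 + 1 by rfl, pow_add, hy3]; simp
      rw [this]; exact h4
    · have ht2 := hsq hp2
      have hw2A : w₂ ∈ A := by
        have := conj_mem_of_nz (nz_le_nz_W1 E (mem_nz_of_cj_eq heq)) hw
        exact this
      set v := w₂ * w⁻¹
      have hvA : v ∈ A := mul_mem hw2A (inv_mem hw)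
      have hvY : v ∈ bW1 p Y := by
        have := mul_mem (conj_mem_of_nz hyn1 hy1) hy1
        convert this using 1
        simp only [v, w₂, w₁]; group
      obtain ⟨u, hu, huv⟩ := hsur v hvY
      have hu1 : y * u * y⁻¹ = 1 := hdisj _ (by
        rw [show y * u * y⁻¹ = (y * u * y⁻¹ * u⁻¹) * u by group, ← huv]
        exact mul_mem hvA hu) (hyA u hu)
      have hu2 : u = 1 := conj_eq_one_iff.1 hu1
      rw [hu2] at huv
      have hfw : w₂ = w := by
        have : v = 1 := by rw [huv]; group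
        exact mul_inv_eq_one.1 this
      have h5 := ht2 _ hy1
      have h6 : (y * y) * (w₁ * w⁻¹) * (y * y)⁻¹ = w₁ * w⁻¹ := by
        calc (y * y) * (w₁ * w⁻¹) * (y * y)⁻¹ = (y * w₂ * y⁻¹) * w₂⁻¹ := by simp only [w₁, w₂]; group
          _ = _ := by rw [hfw]
      have h7 : w₁ * w⁻¹ = 1 := h5 h6
      exact hw1 (hdisj w hw (by rw [← mul_inv_eq_one.1 h7]; exact hyA w hw))
  · -- three commuting conjugates
    set E₂ := cj (y * y) E
    have hc12 : ⁅cj y E, E₂⁆ = ⊥ := by
      have : cj y ⁅E, cj y E⁆ = ⊥ := by rw [hc1]; exact map_bot _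
      rwa [cj_commutator, cj_cj] at this
    have hA2 : A ≤ centralizer (E₂ : Set G) := hAE.trans (commutator_eq_bot_iff_le_centralizer.1 hcomm)
    have hA1 : cj y A ≤ centralizer (E₂ : Set G) := (cj_mono hAE).trans (commutator_eq_bot_iff_le_centralizer.1 hc12)
    have hv : w₂ * w₁⁻¹ ∈ bW1 p Y := by
      have := conj_mem_of_nz hyn1 hy1
      convert this using 1
      simp only [w₂, w₁]; group
    obtain ⟨u, hu, huv⟩ := hsur _ hv
    have hw2 : w₂ ∈ cj (y * y) A := conj_mem_cj hw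
    have hw2c : w₂ ∈ centralizer (E₂ : Set G) := by
      have e : w₂ = y * u * y⁻¹ * u⁻¹ * w₁ := by rw [← huv]; group
      rw [e]
      exact mul_mem (mul_mem (hA1 (hyA u hu)) (inv_mem (hA2 hu))) (hA1 (hyA w hw))
    exact hw1 (conj_eq_one_iff.1 (hfixg _ _ hw2 hw2c))

/-- Elements outside `N(E)` can be chosen with square acting fixed-point-freely. -/
theorem exists_good_mover {TE TY : Sylow p G} {E Y : Subgroup G} (hE : Cfsg.IsBaumannBlock p (TE : Subgroup G) E)
    (hY : Cfsg.IsBaumannBlock p (TY : Subgroup G) Y) (hYs : Y.IsSubnormal) (sY : Small p Y)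
    (h : ¬ Y ≤ normalizer (E : Set G)) :
    ∃ y ∈ Y, (orderOf y).Coprime p ∧ y ∉ normalizer (E : Set G) ∧
      (p ≠ 2 → ∀ v ∈ bW1 p Y, (y * y) * v * (y * y)⁻¹ = v → v = 1) := by
  rcases sY with hC | hqY
  · by_contra hall
    push Not at hall
    refine h ?_
    conv_lhs => rw [← block_res hY]
    refine resOf_le_iff.2 fun y hy hyo => ?_
    by_contra hyn
    exact (hall y hy hyo hyn).1 hC.1
  · obtain ⟨FY, i1, i2, hq, h2, hiso, hact, t, ht', hto, htn, htt⟩ := smallQ_facts hG hY hqY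
    have ht : t ∈ Y := commutator_le_self Y ht'
    obtain ⟨-, hfix, -, -⟩ := neg_W1 hG hY h2 hiso hact ht hto htn htt
    obtain ⟨sq, inv, -, -⟩ := q8_facts hq hiso hact (Qe_le_trivOn_W Y) ht htn htt
    have hcenT := (t_facts h2 hiso hact (Qe_le_trivOn_W Y) ht htn htt).2
    have hQn : ∀ q ∈ Cfsg.pCoreOf p Y, q ∈ normalizer (E : Set G) := fun q hq =>
      core_le_nz hE (pCoreOf_le_of_subnormal hYs hq)
    obtain ⟨d, hd, hdd, hdn⟩ : ∃ d ∈ Y, t⁻¹ * (d * d) ∈ Cfsg.pCoreOf p Y ∧ d ∉ normalizer (E : Set G) := by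
      by_contra hall
      push Not at hall
      obtain ⟨d, hd, hd1, hd2⟩ : ∃ d ∈ Y, d ∉ Cfsg.pCoreOf p Y ∧ t⁻¹ * d ∉ Cfsg.pCoreOf p Y := by
        by_contra hall'
        push Not at hall'
        refine htn ?_
        have hle : ⁅Y, Y⁆ ≤ Cfsg.pCoreOf p Y := by
          rw [commutator_le]
          intro a ha b hb
          have hn : ∀ {x : G}, x ∈ Y → x ∈ normalizer (Cfsg.pCoreOf p Y : Set G) := fun hx => le_nz_pCoreOf Y hx
          by_cases h1 : a ∈ Cfsg.pCoreOf p Y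
          · have := mul_mem h1 (conj_mem_of_nz (hn hb) (inv_mem h1))
            convert this using 1; rw [commutatorElement_def]; group
          · set q := t⁻¹ * a
            have hq' : q ∈ Cfsg.pCoreOf p Y := hall' a ha h1
            have h5 := mul_mem (conj_mem_of_nz (hn ht) (mul_mem hq' (conj_mem_of_nz (hn hb) (inv_mem hq'))))
              (hcenT b hb)
            convert h5 using 1
            simp only [q, commutatorElement_def]; group
        exact hle ht'
      have htE : t ∈ normalizer (E : Set G) := by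
        have hdd := (sq d hd).resolve_left fun h0 => (inv d hd h0).elim hd1 hd2
        have hdn := hall d hd hdd
        have := mul_mem (mul_mem hdn hdn) (inv_mem (hQn _ hdd))
        convert this using 1; group
      refine h fun y hy => ?_
      rcases sq y hy with hyy | hyy
      · rcases inv y hy hyy with h' | h'
        · exact hQn y h'
        · have := mul_mem htE (hQn _ h')
          rwa [mul_inv_cancel_left] at this
      · exact hall y hy hyy
    obtain ⟨y, hy, hyo, hyd⟩ := coprime_rep (p := p) hd (n := 4) (by rw [hqY.1]; norm_num) (by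
      have := small_image hG hY (Or.inr hqY) d hd
      rwa [if_neg (by rw [hqY.1]; norm_num)] at this)
    have hyn : y ∉ normalizer (E : Set G) := fun h' => hdn (by
      have := mul_mem h' (hQn _ hyd)
      rwa [mul_inv_cancel_left] at this)
    refine ⟨y, hy, hyo, hyn, fun _ v hv hv1 => hfix v hv ?_⟩
    have hn : ∀ {x : G}, x ∈ Y → x ∈ normalizer (Cfsg.pCoreOf p Y : Set G) := fun hx => le_nz_pCoreOf Y hx
    -- `y²` and `t` differ by an element of `O_p(Y)`
    have hyy : t⁻¹ * (y * y) ∈ Cfsg.pCoreOf p Y := by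
      have h1 : (d * d)⁻¹ * (y * y) ∈ Cfsg.pCoreOf p Y := by
        have := mul_mem (conj_mem_of_nz (inv_mem (hn hd)) (inv_mem hyd)) (inv_mem hyd)
        -- `(d d)⁻¹ y y`
        have h' : (d * d)⁻¹ * (y * y) = (d⁻¹ * (d⁻¹ * y) * d) * (d⁻¹ * y) := by group
        rw [h']
        refine mul_mem ?_ ?_
        · have e := conj_mem_of_nz (inv_mem (hn hd)) (inv_mem hyd)
          convert e using 1; group
        · convert inv_mem hyd using 1; group
      have := mul_mem hdd h1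
      convert this using 1; group
    have hqv := mem_trivOn_bot_iff.1 (Qe_le_trivOn_bot Y hyy) v (bW1_le_W Y hv)
    calc t * v * t⁻¹ = t * ((t⁻¹ * (y * y)) * v * (t⁻¹ * (y * y))⁻¹) * t⁻¹ := by rw [hqv]
      _ = (y * y) * v * (y * y)⁻¹ := by group
      _ = v := hv1

theorem exists_member_outside {r : ℕ} [Fact r.Prime] {H : Subgroup G} (hH : IsPGroup r (H.map (QuotientGroup.mk' (Q))))
    (hQH : Q ≤ H) {K : Subgroup G} (hQK : Q ≤ K) (hKH : K ≤ H) (P : Subgroup G → Prop)
    (hconj : ∀ g ∈ H, ∀ Y, P Y → P (cj g Y)) (hY0 : ∃ Y, P Y ∧ Y ≤ H ∧ ¬ Y ≤ K)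
    (hK : K = sSup {Y | P Y ∧ Y ≤ K} ⊔ Q) :
    ∃ Y, P Y ∧ Y ≤ H ⊓ normalizer (K : Set G) ∧ ¬ Y ≤ K := by
  by_contra hall
  push Not at hall
  set N := H ⊓ normalizer (K : Set G) with hN
  have hKN : K ≤ N := le_inf hKH le_normalizer
  obtain ⟨Y, hPY, hYH, hYK⟩ := hY0
  have hlt : N.map (QuotientGroup.mk' (Q)) < H.map (QuotientGroup.mk' (Q)) := by
    refine lt_of_le_of_ne (map_mono inf_le_left) fun e => hYK (hall Y hPY ?_)
    have hc := congrArg (Subgroup.comap (QuotientGroup.mk' (Q))) e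
    rw [comap_map_eq, comap_map_eq, QuotientGroup.ker_mk', sup_eq_left.2 (hQK.trans hKN), sup_eq_left.2 hQH] at hc
    exact hYH.trans hc.ge
  obtain ⟨u, hu, hun, huN⟩ := exists_mem_nz_of_lt hH hlt
  obtain ⟨x, hx, rfl⟩ := hu
  have hxN : x ∈ normalizer (N : Set G) := by
    refine mem_nz_of_cj_le (cj_le_iff.2 fun n hn => ?_)
    have h1 := conj_mem_of_nz huN (mem_map_of_mem (QuotientGroup.mk' (Q)) hn)
    rw [← map_mul, ← map_inv, ← map_mul, ← mem_comap, comap_map_eq, QuotientGroup.ker_mk',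
      sup_eq_left.2 (hQK.trans hKN)] at h1
    exact h1
  refine hun (mem_map_of_mem _ ⟨hx, mem_nz_of_cj_le ?_⟩)
  conv_lhs => rw [hK]
  rw [cj, Subgroup.map_sup]
  refine sup_le ?_ ?_
  · rw [map_le_iff_le_comap]
    refine sSup_le fun Z hZ => map_le_iff_le_comap.1 ?_
    exact hall (cj x Z) (hconj x hx Z hZ.1) ((cj_mono (hZ.2.trans hKN)).trans (cj_eq_of_mem_nz hxN).le)
  · exact (cj_eq_of_mem_nz (le_nz_pCore ⊤ (mem_top x))).le.trans hQK

theorem block_image_equiv {T : Sylow p G} {E : Subgroup G} (hEs : E.IsSubnormal) :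
    Nonempty (↥(E.map (QuotientGroup.mk' (Q))) ≃* ↥E ⧸ Cfsg.pCore p ↥E) := by
  clear hG T
  set f := (QuotientGroup.mk' (Q)).comp E.subtype
  have hr : f.range = E.map (QuotientGroup.mk' (Q)) := by
    rw [MonoidHom.range_comp, range_subtype]
  have hker : f.ker = Cfsg.pCore p ↥E := by
    ext e
    rw [MonoidHom.mem_ker, ← mem_pCoreOf_iff]
    show QuotientGroup.mk' (Q) (e : G) = 1 ↔ _
    rw [QuotientGroup.mk'_apply, QuotientGroup.eq_one_iff]
    exact ⟨fun h => inf_pCore_le ⟨e.2, h⟩, fun h => pCoreOf_le_of_subnormal hEs h⟩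
  exact ⟨(MulEquiv.subgroupCongr hr).symm.trans
    ((QuotientGroup.quotientKerEquivRange f).symm.trans (QuotientGroup.quotientMulEquivOfEq hker))⟩

theorem small_le_nz {TE TF : Sylow p G} {E F : Subgroup G} (hE : Cfsg.IsBaumannBlock p (TE : Subgroup G) E)
    (hF : Cfsg.IsBaumannBlock p (TF : Subgroup G) F) (hEs : E.IsSubnormal) (hFs : F.IsSubnormal)
    (sE : Small p E) (sF : Small p F) : F ≤ normalizer (E : Set G) := by
  by_contra hFn
  have : (Q : Subgroup G).Normal := pCore_normal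
  set r := if p = 2 then 3 else 2 with hr
  have : Fact r.Prime := ⟨by rw [hr]; split_ifs <;> norm_num⟩
  have himg : ∀ {T : Sylow p G} {A : Subgroup G}, Cfsg.IsBaumannBlock p (T : Subgroup G) A → A.IsSubnormal →
      Small p A → A.map (QuotientGroup.mk' (Q)) ≤ Cfsg.pCore r (G ⧸ (Q : Subgroup G)) := by
    intro T A hA hAs sA
    refine le_pCore_of_subnormal (hAs.map (QuotientGroup.mk'_surjective _)) ?_
    rintro ⟨a, ⟨x, hx, rfl⟩⟩
    refine ⟨if p = 2 then 1 else 2, Subtype.ext ?_⟩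
    show (QuotientGroup.mk' (Q) x) ^ _ = 1
    rw [← map_pow, QuotientGroup.mk'_apply, QuotientGroup.eq_one_iff]
    refine pCoreOf_le_of_subnormal hAs ?_
    have := small_image hG hA sA x hx
    rw [hr]
    split_ifs at this ⊢ <;> simpa using this
  set H := E ⊔ F ⊔ Q with hH
  have hQH : Q ≤ H := le_sup_right
  have hHr : IsPGroup r (H.map (QuotientGroup.mk' (Q))) := by
    refine (pCore_isPGroup (p := r) (G := G ⧸ (Q : Subgroup G))).to_le ?_
    rw [hH, Subgroup.map_sup, Subgroup.map_sup]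
    refine sup_le (sup_le (himg hE hEs sE) (himg hF hFs sF)) ?_
    rw [QuotientGroup.map_mk'_self]; exact bot_le
  let P : Subgroup G → Prop := fun Y =>
    (∃ T : Sylow p G, Cfsg.IsBaumannBlock p (T : Subgroup G) Y) ∧ Y.IsSubnormal ∧ Small p Y ∧ Y ≤ H
  have hconj : ∀ g ∈ H, ∀ Y, P Y → P (cj g Y) := by
    rintro g hg Y ⟨⟨T, hT⟩, hs, hsm, hle⟩
    exact ⟨⟨g • T, block_cj g hT⟩, hs.map (MulAut.conj g).surjective, small_cj g hsm,
      (cj_mono hle).trans (cj_eq_of_mem_nz (le_normalizer hg)).le⟩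
  set K := sSup {Y | P Y ∧ Y ≤ H ⊓ normalizer (E : Set G)} ⊔ Q with hKd
  have hKM : K ≤ H ⊓ normalizer (E : Set G) :=
    sup_le (sSup_le fun Y hY => hY.2) (le_inf hQH (core_le_nz hE))
  have hPE : P E := ⟨⟨TE, hE⟩, hEs, sE, le_sup_left.trans le_sup_left⟩
  have hPF : P F := ⟨⟨TF, hF⟩, hFs, sF, le_sup_right.trans le_sup_left⟩
  have hEK : E ≤ K := (le_sSup (show E ∈ {Y | P Y ∧ Y ≤ H ⊓ normalizer (E : Set G)} from
    ⟨hPE, le_inf hPE.2.2.2 le_normalizer⟩)).trans le_sup_left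
  have hK : K = sSup {Y | P Y ∧ Y ≤ K} ⊔ Q := by
    refine le_antisymm (sup_le_sup (sSup_le_sSup fun Y hY => ⟨hY.1, ?_⟩) le_rfl)
      (sup_le (sSup_le fun Y hY => hY.2) le_sup_right)
    exact (le_sSup (show Y ∈ {Y | P Y ∧ Y ≤ H ⊓ normalizer (E : Set G)} from hY)).trans le_sup_left
  obtain ⟨Y, hPY, hYN, hYK⟩ := exists_member_outside hG hHr hQH le_sup_right (hKM.trans inf_le_left) P hconj
    ⟨F, hPF, hPF.2.2.2, fun h => hFn (h.trans (hKM.trans inf_le_right))⟩ hK
  have hYE : ¬ Y ≤ normalizer (E : Set G) := fun h => hYK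
    ((le_sSup (show Y ∈ {Y | P Y ∧ Y ≤ H ⊓ normalizer (E : Set G)} from ⟨hPY, le_inf hPY.2.2.2 h⟩)).trans le_sup_left)
  obtain ⟨TY, hY⟩ := hPY.1
  obtain ⟨y, hy, hyo, hyn, hsq⟩ := exists_good_mover hG hE hY hPY.2.1 hPY.2.2.1 hYE
  have pair : ∀ g ∈ normalizer (K : Set G), cj g E = E ∨ ⁅E, cj g E⁆ = ⊥ := by
    intro g hg
    have h1 : cj g E ≤ K := (cj_mono hEK).trans (cj_eq_of_mem_nz hg).le
    have h2 : E ≤ normalizer ((cj g E : Subgroup G) : Set G) := by
      refine hEK.trans ?_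
      conv_lhs => rw [← cj_eq_of_mem_nz hg]
      exact bcj_le_nz g (hKM.trans inf_le_right)
    rcases small_pair hG hE (block_cj g hE) hEs (hEs.map (MulAut.conj g).surjective) sE (small_cj g sE)
      (h1.trans (hKM.trans inf_le_right)) h2 with h | h
    · exact Or.inl h.symm
    · exact Or.inr h
  have hyK : y ∈ normalizer (K : Set G) := (hYN hy).2
  exact no_mover hG hE hY hPY.2.1 sE hPY.2.2.1 hy hyo hyn
    ((pair y hyK).resolve_left fun h => hyn (mem_nz_of_cj_eq h)) (pair _ (mul_mem hyK hyK)) hsq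

/-- Subnormal Baumann blocks are equal or commute. -/
theorem subnormal_blocks_eq_or_commute {TE TF : Sylow p G} {E F : Subgroup G}
    (hE : Cfsg.IsBaumannBlock p (TE : Subgroup G) E) (hF : Cfsg.IsBaumannBlock p (TF : Subgroup G) F)
    (hEs : E.IsSubnormal) (hFs : F.IsSubnormal) : E = F ∨ ⁅E, F⁆ = ⊥ := by
  have : (Q : Subgroup G).Normal := pCore_normal
  have hsurj := QuotientGroup.mk'_surjective (Q : Subgroup G)
  have hcomp : ∀ {T : Sylow p G} {A : Subgroup G}, Cfsg.IsBaumannBlock p (T : Subgroup G) A → A.IsSubnormal →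
      Small p A ∨ Cfsg.IsComponent (A.map (QuotientGroup.mk' (Q))) := by
    intro T A hA hAs
    rcases block_kind hG hA with h | h | h
    · exact Or.inl (Or.inl h)
    · exact Or.inl (Or.inr h)
    · obtain ⟨e⟩ := block_image_equiv (T := T) hG hAs
      exact Or.inr ⟨hAs.map hsurj, (Lib.Components.qs_congr e).2 h⟩
  have hle : ∀ {T : Sylow p G} {A B : Subgroup G}, Cfsg.IsBaumannBlock p (T : Subgroup G) B → resOf p A = A →
      A.map (QuotientGroup.mk' (Q)) ≤ B.map (QuotientGroup.mk' (Q)) → A ≤ B := by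
    intro T A B hB hA h
    refine eq_of_le_sup hB hA ?_
    rwa [map_le_iff_le_comap, comap_map_eq, QuotientGroup.ker_mk'] at h
  have hcomm : ⁅E.map (QuotientGroup.mk' (Q)), F.map (QuotientGroup.mk' (Q))⁆ = ⊥ → ⁅E, F⁆ ≤ Q := fun h => by
    rwa [← map_commutator, Subgroup.map_eq_bot_iff, QuotientGroup.ker_mk'] at h
  have hsolv : ∀ {T : Sylow p G} {A : Subgroup G}, Cfsg.IsBaumannBlock p (T : Subgroup G) A → Small p A →
      A.IsSubnormal → Group.IsSolvable ↥(A.map (QuotientGroup.mk' (Q))) := by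
    intro T A hA sA hAs
    set r := if p = 2 then 3 else 2 with hr
    have : Fact r.Prime := ⟨by rw [hr]; split_ifs <;> norm_num⟩
    have h : IsPGroup r ↥(A.map (QuotientGroup.mk' (Q))) := by
      rintro ⟨a, ⟨x, hx, rfl⟩⟩
      refine ⟨if p = 2 then 1 else 2, Subtype.ext ?_⟩
      show (QuotientGroup.mk' (Q) x) ^ _ = 1
      rw [← map_pow, QuotientGroup.mk'_apply, QuotientGroup.eq_one_iff]
      refine pCoreOf_le_of_subnormal hAs ?_
      have := small_image hG hA sA x hx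
      rw [hr]
      split_ifs at this ⊢ <;> simpa using this
    have := h.isNilpotent
    infer_instance
  rcases hcomp hE hEs with sE | cE <;> rcases hcomp hF hFs with sF | cF
  · exact small_pair hG hE hF hEs hFs sE sF (small_le_nz hG hE hF hEs hFs sE sF) (small_le_nz hG hF hE hFs hEs sF sE)
  · refine comm_or_eq hG hE hF hEs hFs (hcomm ?_)
    rw [commutator_comm]
    exact Lib.Components.comp_commute_subnormal_solvable cF (hEs.map hsurj) (hsolv hE sE hEs)
  · exact comm_or_eq hG hE hF hEs hFs (hcomm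
      (Lib.Components.comp_commute_subnormal_solvable cE (hFs.map hsurj) (hsolv hF sF hFs)))
  · by_cases h : E.map (QuotientGroup.mk' (Q)) = F.map (QuotientGroup.mk' (Q))
    · exact Or.inl (le_antisymm (hle hF (block_res hE) h.le) (hle hE (block_res hF) h.ge))
    · exact comm_or_eq hG hE hF hEs hFs (hcomm (Lib.Components.comp_commute cE cF h))

end Cfsg.Agent.Lib.LocalChar.Baumann
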