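import Mathlib
import Cfsg.Prelude.Def_Transfer

/-! Thompson transfer: an involution outside a subgroup of index two of a Sylow 2-subgroup has an
extremal conjugate inside it (helper19). -/

set_option autoImplicit false

namespace Cfsg.Agent.Lib.LocalChar

open Cfsg

variable {G : Type*} [Group G] [Finite G]

theorem hom_two_eq_one (hres : pResidual 2 G = ⊤) {A : Type*} [CommGroup A] (hA : ∀ a : A, a ^ 2 = 1)
    (ψ : G →* A) (g : G) : ψ g = 1 := by
  have hle : pResidual 2 G ≤ ψ.ker := by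
    refine (Subgroup.closure_le _).2 fun x hx => ?_
    have hx' : Nat.Coprime (orderOf x) 2 := hx
    have h1 : orderOf (ψ x) ∣ Nat.gcd (orderOf x) 2 :=
      Nat.dvd_gcd (orderOf_map_dvd ψ x) (orderOf_dvd_of_pow_eq_one (hA _))
    rw [hx', Nat.dvd_one, orderOf_eq_one_iff] at h1
    exact MonoidHom.mem_ker.2 h1
  exact MonoidHom.mem_ker.1 (hle (hres ▸ Subgroup.mem_top g))

theorem one_ne_two : (Multiplicative.ofAdd 1 : Multiplicative (ZMod 2)) ≠ 1 := by decide

theorem two_sq : ∀ a : Multiplicative (ZMod 2), a ^ 2 = 1 := by decide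

theorem two_mul_self : Multiplicative.ofAdd 1 * Multiplicative.ofAdd 1 = (1 : Multiplicative (ZMod 2)) := by decide

theorem exists_extremal_conj (hres : pResidual 2 G = ⊤) (S : Sylow 2 G) (T : Subgroup G)
    (hT : ∀ a ∈ (S : Subgroup G), ∀ b ∈ (S : Subgroup G), (a * b ∈ T ↔ (a ∈ T ↔ b ∈ T)))
    {e : G} (he : e ∈ (S : Subgroup G)) (he2 : e * e = 1) (heT : e ∉ T) (P : Subgroup G) (hP : IsPGroup 2 P)
    (hPe : P ≤ Subgroup.centralizer ({e} : Set G)) :
    ∃ a : G, a⁻¹ * e * a ∈ (S : Subgroup G) ∧ a⁻¹ * e * a ∈ T ∧ ∀ x ∈ P, a⁻¹ * x * a ∈ (S : Subgroup G) := by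
  classical
  haveI : Fact (Nat.Prime 2) := ⟨Nat.prime_two⟩
  let A := Multiplicative (ZMod 2)
  have hA : ∀ a : A, a ^ 2 = 1 := two_sq
  let φ : (S : Subgroup G) →* A := MonoidHom.mk' (fun s => if (s : G) ∈ T then 1 else Multiplicative.ofAdd 1)
    (fun a b => by
      have h := hT a a.2 b b.2
      simp only [Subgroup.coe_mul]
      by_cases ha : (a : G) ∈ T <;> by_cases hb : (b : G) ∈ T <;> simp [ha, hb, h] <;> exact two_mul_self.symm)
  have hφ : ∀ s : (S : Subgroup G), φ s = if (s : G) ∈ T then 1 else Multiplicative.ofAdd 1 := fun _ => rfl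
  have := Fintype.ofFinite (G ⧸ (S : Subgroup G))
  let W : (S : Subgroup G).LeftTransversal := default
  set α := W.2.leftQuotientEquiv
  have hα : ∀ q : G ⧸ (S : Subgroup G), ((α q : G) : G ⧸ (S : Subgroup G)) = q :=
    fun q => α.symm_apply_apply q
  have heinv : e⁻¹ = e := inv_eq_of_mul_eq_one_left he2
  have hee : ∀ q : G ⧸ (S : Subgroup G), e • e • q = q := fun q => by rw [← mul_smul, he2, one_smul]
  have hmem : ∀ q : G ⧸ (S : Subgroup G), (α q : G)⁻¹ * e * (α (e • q) : G) ∈ (S : Subgroup G) := by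
    intro q
    have h1 : (((α (e • q) : G)) : G ⧸ (S : Subgroup G)) = ((e * (α q : G) : G) : G ⧸ (S : Subgroup G)) := by
      rw [hα, ← smul_eq_mul, ← MulAction.Quotient.smul_coe, hα] <;> rfl
    have := (S : Subgroup G).inv_mem (QuotientGroup.eq.1 h1)
    have e' : ((α (e • q) : G)⁻¹ * (e * (α q : G)))⁻¹ = (α q : G)⁻¹ * e * (α (e • q) : G) := by
      simp [heinv, mul_assoc]
    rwa [e'] at this
  let f : G ⧸ (S : Subgroup G) → A := fun q => φ ⟨_, hmem q⟩
  have htr : MonoidHom.transfer φ e = ∏ q, f q := by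
    rw [MonoidHom.transfer_def φ W]
    simp only [Subgroup.leftTransversals.diff]
    refine Finset.prod_congr (by ext; simp) fun q _ => congrArg φ (Subtype.ext ?_)
    show (α q : G)⁻¹ * ((e • W).2.leftQuotientEquiv q : G) = (α q : G)⁻¹ * e * (α (e • q) : G)
    rw [Subgroup.smul_apply_eq_smul_apply_inv_smul, heinv, smul_eq_mul, mul_assoc]
  have hpair : ∀ q, f q * f (e • q) = 1 := by
    intro q
    show φ _ * φ _ = 1
    rw [← map_mul, ← map_one φ]
    refine congrArg φ (Subtype.ext ?_)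
    show (α q : G)⁻¹ * e * (α (e • q) : G) * ((α (e • q) : G)⁻¹ * e * (α (e • e • q) : G)) = 1
    rw [hee q]
    calc _ = (α q : G)⁻¹ * (e * e) * (α q : G) := by group
      _ = 1 := by rw [he2]; group
  set F : Finset (G ⧸ (S : Subgroup G)) := Finset.univ.filter (fun q => e • q = q) with hF
  have hrest : ∏ q ∈ Finset.univ.filter (fun q => ¬ e • q = q), f q = 1 := by
    refine Finset.prod_involution (fun q _ => e • q) (fun q _ => hpair q) (fun q hq _ => ?_)
      (fun q hq => ?_) (fun q _ => hee q)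
    · exact (Finset.mem_filter.1 hq).2
    · refine Finset.mem_filter.2 ⟨Finset.mem_univ _, ?_⟩
      rw [hee q]
      exact fun h => (Finset.mem_filter.1 hq).2 h.symm
  have hprod : ∏ q ∈ F, f q = 1 := by
    have h := Finset.prod_filter_mul_prod_filter_not Finset.univ (fun q => e • q = q) f
    rw [hrest, mul_one] at h
    rw [hF, h, ← htr]
    exact hom_two_eq_one hres hA _ _
  have hfix : ∀ q ∈ F, (α q : G)⁻¹ * e * (α q : G) ∈ (S : Subgroup G) := fun q hq => by
    have h := hmem q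
    rwa [(Finset.mem_filter.1 hq).2] at h
  have hf : ∀ q ∈ F, f q = if (α q : G)⁻¹ * e * (α q : G) ∈ T then 1 else Multiplicative.ofAdd 1 :=
    fun q hq => by
      show φ _ = _
      rw [hφ]
      simp only [(Finset.mem_filter.1 hq).2]
  rw [Finset.prod_congr rfl hf, Finset.prod_ite, Finset.prod_const_one, one_mul, Finset.prod_const] at hprod
  set FN := F.filter (fun q => ¬ (α q : G)⁻¹ * e * (α q : G) ∈ T)
  set FT := F.filter (fun q => (α q : G)⁻¹ * e * (α q : G) ∈ T) with hFT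
  have hFNeven : 2 ∣ FN.card := by
    have h1 : orderOf (Multiplicative.ofAdd (1 : ZMod 2) : A) = 2 :=
      orderOf_eq_prime (hA _) one_ne_two
    have h2 := orderOf_dvd_of_pow_eq_one hprod
    rwa [h1] at h2
  have hFodd : ¬ 2 ∣ F.card := by
    have hze : IsPGroup 2 (Subgroup.zpowers e) := S.2.to_le (Subgroup.zpowers_le.2 he)
    have h := hze.card_modEq_card_fixedPoints (G ⧸ (S : Subgroup G))
    have hset : MulAction.fixedPoints (Subgroup.zpowers e) (G ⧸ (S : Subgroup G)) = (F : Set _) := by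
      ext q
      simp only [hF, MulAction.mem_fixedPoints, Finset.coe_filter, Finset.mem_univ, true_and,
        Set.mem_setOf_eq]
      refine ⟨fun hq => hq ⟨e, Subgroup.mem_zpowers e⟩, fun hq c => ?_⟩
      obtain ⟨c, hc⟩ := c
      obtain ⟨k, rfl⟩ := Subgroup.mem_zpowers_iff.1 hc
      show e ^ k • q = q
      exact MulAction.mem_stabilizer_iff.1 (zpow_mem (show e ∈ MulAction.stabilizer G q from hq) k)
    rw [hset, Nat.card_coe_set_eq, Set.ncard_coe_finset] at h
    intro hd
    refine S.not_dvd_index ?_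
    show 2 ∣ Nat.card (G ⧸ (S : Subgroup G))
    exact (Nat.ModEq.dvd_iff h (dvd_refl 2)).2 hd
  have hFTodd : ¬ 2 ∣ FT.card := by
    have h := Finset.card_filter_add_card_filter_not (s := F)
      (fun q => (α q : G)⁻¹ * e * (α q : G) ∈ T)
    change FT.card + FN.card = F.card at h
    omega
  -- the action of `P`
  have hinv : ∀ u ∈ (S : Subgroup G), ∀ s ∈ (S : Subgroup G), u ∈ T → s⁻¹ * u * s ∈ T := by
    intro u hu s hs huT
    have h1 : (1 : G) ∈ T := T.one_mem
    have hs' := (hT s⁻¹ ((S : Subgroup G).inv_mem hs) s hs).1 (by simpa using h1)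
    rw [hT (s⁻¹ * u) ((S : Subgroup G).mul_mem ((S : Subgroup G).inv_mem hs) hu) s hs,
      hT s⁻¹ ((S : Subgroup G).inv_mem hs) u hu]
    tauto
  have hPc : ∀ c ∈ P, c * e = e * c := fun c hc =>
    (Subgroup.mem_centralizer_singleton_iff.1 (hPe hc))
  have hclosed : ∀ c : ↥P, ∀ q ∈ FT, (c : G) • q ∈ FT := by
    intro c q hq
    obtain ⟨hqF, hqT⟩ := Finset.mem_filter.1 hq
    have hqfix := (Finset.mem_filter.1 hqF).2
    have hcq : (c : G) • q ∈ F := by
      refine Finset.mem_filter.2 ⟨Finset.mem_univ _, ?_⟩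
      rw [← mul_smul, ← hPc c c.2, mul_smul, hqfix]
    refine Finset.mem_filter.2 ⟨hcq, ?_⟩
    set s := ((c : G) * (α q : G))⁻¹ * (α ((c : G) • q) : G) with hs
    have hsS : s ∈ (S : Subgroup G) := by
      refine QuotientGroup.eq.1 ?_
      rw [hα, ← smul_eq_mul, ← MulAction.Quotient.smul_coe, hα] <;> rfl
    have he' : (α ((c : G) • q) : G)⁻¹ * e * (α ((c : G) • q) : G) =
        s⁻¹ * ((α q : G)⁻¹ * e * (α q : G)) * s := by
      have h3 : (c : G)⁻¹ * e * c = e := by rw [mul_assoc, ← hPc c c.2, inv_mul_cancel_left]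
      have hx : (α ((c : G) • q) : G) = (c : G) * (α q : G) * s := by rw [hs]; group
      rw [hx]
      conv_rhs => rw [← h3]
      group
    rw [he']
    exact hinv _ (hfix q hqF) s hsS hqT
  letI : MulAction ↥P ↥FT :=
    { smul := fun c q => ⟨(c : G) • (q : G ⧸ (S : Subgroup G)), hclosed c q q.2⟩
      one_smul := fun q => Subtype.ext (one_smul G (q : G ⧸ (S : Subgroup G)))
      mul_smul := fun c d q => Subtype.ext (mul_smul (c : G) (d : G) (q : G ⧸ (S : Subgroup G))) }
  obtain ⟨q, hq⟩ := hP.nonempty_fixed_point_of_prime_not_dvd_card (α := ↥FT) (by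
    rwa [Nat.card_eq_fintype_card, Fintype.card_coe])
  obtain ⟨hqF, hqT⟩ := Finset.mem_filter.1 q.2
  refine ⟨(α (q : G ⧸ (S : Subgroup G)) : G), hfix _ hqF, hqT, fun x hx => ?_⟩
  have h1 : x • (q : G ⧸ (S : Subgroup G)) = q := congrArg Subtype.val (hq ⟨x, hx⟩)
  have h2 : ((x * (α (q : G ⧸ (S : Subgroup G)) : G) : G) : G ⧸ (S : Subgroup G)) =
      ((α (q : G ⧸ (S : Subgroup G)) : G) : G ⧸ (S : Subgroup G)) := by
    rw [← smul_eq_mul, ← MulAction.Quotient.smul_coe, hα]; exact h1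
  have h4 := (S : Subgroup G).inv_mem (QuotientGroup.eq.1 h2)
  simpa [mul_assoc] using h4

end Cfsg.Agent.Lib.LocalChar
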