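import Cfsg.Agent.Lib.LocalChar.CTSimple
import Cfsg.Agent.Lib.Transfer.Alperin
import Cfsg.Agent.Lib.Transfer.Hall

/-!
Finite simple groups all of whose non-abelian subgroups are self-normalising: the Sylow subgroups
are abelian (Frobenius' criterion), and so are all centralisers.
-/

set_option autoImplicit false
set_option linter.unusedSectionVars false
set_option linter.style.haveILetI false

namespace Cfsg.Agent.Lib.LocalChar.SelfNorm

open Subgroup
open scoped commutatorElement

variable {G : Type*} [Group G]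

/-- Every non-abelian subgroup is self-normalising. -/
def SN (G : Type*) [Group G] : Prop :=
  ∀ H : Subgroup G, ¬ IsMulCommutative H → normalizer (H : Set G) = H

theorem comm_of {H : Subgroup G} (h : IsMulCommutative H) {a b : G} (ha : a ∈ H) (hb : b ∈ H) :
    a * b = b * a :=
  congrArg Subtype.val (h.is_comm.comm (⟨a, ha⟩ : H) ⟨b, hb⟩)

theorem isComm_of {H : Subgroup G} (h : ∀ a ∈ H, ∀ b ∈ H, a * b = b * a) : IsMulCommutative H :=
  ⟨⟨fun a b => Subtype.ext (h a a.2 b b.2)⟩⟩

theorem comm_of_normal (hSN : SN G) {H K : Subgroup G} (hKH : K ≤ H)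
    (hn : H ≤ normalizer (K : Set G)) (hne : K ≠ H) : IsMulCommutative K :=
  by_contra fun h => hne (le_antisymm hKH (hn.trans (hSN K h).le))

variable [Finite G] {p : ℕ}

theorem mem_normalizer_of_conj_mem {H : Subgroup G} {g : G} (h : ∀ x ∈ H, g * x * g⁻¹ ∈ H) :
    g ∈ normalizer (H : Set G) := by
  have he : H.map (MulAut.conj g).toMonoidHom = H := Subgroup.eq_of_le_of_card_ge
    (by rintro _ ⟨x, hx, rfl⟩; simpa using h x hx)
    (card_map_of_injective (MulAut.conj g).injective).ge
  rw [mem_normalizer_iff]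
  intro x
  refine ⟨h x, fun hx => ?_⟩
  rw [← he] at hx
  obtain ⟨y, hy, hyx⟩ := hx
  simp at hyx
  exact hyx ▸ hy

theorem mem_sylow_of_normalizing [Fact p.Prime] (S : Sylow p G) {y : G} (hy : ∃ k, orderOf y = p ^ k)
    (hn : y ∈ normalizer ((S : Subgroup G) : Set G)) : y ∈ (S : Subgroup G) := by
  obtain ⟨k, hk⟩ := hy
  have hz : IsPGroup p (zpowers y) := IsPGroup.of_card (n := k) (by rw [Nat.card_zpowers, hk])
  have h := S.3 (S.2.to_sup_of_normal_left' hz (zpowers_le.2 hn)) le_sup_left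
  have hmem : y ∈ (S : Subgroup G) ⊔ zpowers y := le_sup_right (a := (S : Subgroup G)) (mem_zpowers y)
  rwa [h] at hmem

theorem no_complement [IsSimpleGroup G] (hG : ¬ IsMulCommutative G) [Fact p.Prime]
    (hd : p ∣ Nat.card G) : ¬ Cfsg.HasNormalPComplement p G := by
  rintro ⟨P, N, hN, hc⟩
  rcases hN.eq_bot_or_eq_top with rfl | rfl
  · rw [isComplement'_bot_left] at hc
    have hp : IsPGroup p (⊤ : Subgroup G) := hc ▸ P.2
    haveI := (hp.of_equiv Subgroup.topEquiv).isNilpotent
    exact hG ⟨⟨fun a b => IsSimpleGroup.comm_iff_isSolvable.2 inferInstance a b⟩⟩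
  · rw [isComplement'_top_left] at hc
    exact P.ne_bot_of_dvd_card hd hc

theorem autPGroup (hSN : SN G) [hp : Fact p.Prime] (P : Sylow p G)
    (hP : ¬ IsMulCommutative (P : Subgroup G)) :
    ∀ D : Subgroup G, IsPGroup p D → Transfer.AutPGroup p D := by
  suffices ∀ n (D : Subgroup G), Nat.card G ≤ n + Nat.card D → IsPGroup p D → Transfer.AutPGroup p D from
    fun D hD => this (Nat.card G) D (Nat.le_add_right _ _) hD
  intro n
  induction n using Nat.strong_induction_on with
  | _ n IH =>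
  intro D hn hD g hg hgo
  set N := normalizer (D : Set G) with hN
  have hDN : D ≤ N := le_normalizer
  by_cases hDab : IsMulCommutative D
  swap
  · rw [hN, hSN D hDab] at hg
    obtain ⟨k, hk⟩ := hD ⟨g, hg⟩
    have hk' : g ^ p ^ k = 1 := congrArg Subtype.val hk
    rw [orderOf_eq_one_iff.1 (Nat.Coprime.eq_one_of_dvd (hgo.pow_right k) (orderOf_dvd_of_pow_eq_one hk'))]
    exact one_mem _
  by_cases hNab : IsMulCommutative N
  · exact mem_centralizer_iff.2 fun x hx => comm_of hNab (hDN hx) hg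
  set L := centralizer (D : Set G) with hL
  have hDL : D ≤ L := fun x hx => mem_centralizer_iff.2 fun y hy => comm_of hDab hy hx
  have hLN : L ≤ N := centralizer_le_normalizer _
  by_cases hNL : L = N
  · rw [hNL]; exact hg
  haveI hLn : (L.subgroupOf N).Normal := inferInstance
  have hLab : IsMulCommutative L :=
    comm_of_normal hSN hLN ((normal_subgroupOf_iff_le_normalizer hLN).1 hLn) hNL
  obtain ⟨Q₀, hQ₀⟩ := (hD.comap_subtype (K := N)).exists_le_sylow
  set Q : Subgroup G := (Q₀ : Subgroup N).map N.subtype with hQ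
  have hQN : Q ≤ N := map_subtype_le _
  have hDQ : D ≤ Q := fun x hx => ⟨⟨x, hDN hx⟩, hQ₀ hx, rfl⟩
  have hQp : IsPGroup p Q := Q₀.2.map _
  -- a larger `p`-group meets `N` in nothing more
  obtain ⟨R, hR⟩ := hQp.exists_le_sylow
  have hRN : (R : Subgroup G) ⊓ N ≤ Q := by
    intro x hx
    have hK : IsPGroup p (((R : Subgroup G) ⊓ N).subgroupOf N) :=
      (R.2.to_le inf_le_left).comap_subtype (K := N)
    have hle : (Q₀ : Subgroup N) ≤ ((R : Subgroup G) ⊓ N).subgroupOf N := fun y hy =>
      mem_subgroupOf.2 ⟨hR ⟨y, hy, rfl⟩, y.2⟩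
    have he := Q₀.3 hK hle
    exact ⟨⟨x, hx.2⟩, he ▸ (mem_subgroupOf.2 hx), rfl⟩
  have hRna : ¬ IsMulCommutative (R : Subgroup G) := fun h => hP (isComm_of fun a ha b hb => by
    have e := Sylow.equiv P R
    exact congrArg Subtype.val (e.injective (by rw [map_mul, map_mul]; exact h.is_comm.comm _ _) :
      (⟨a, ha⟩ : (P : Subgroup G)) * ⟨b, hb⟩ = ⟨b, hb⟩ * ⟨a, ha⟩))
  by_cases hQL : Q ≤ L
  · -- `Q` is normal in `N`
    have hgQ : g ∈ normalizer (Q : Set G) := mem_normalizer_of_conj_mem fun x hx => by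
      have hxL : g * x * g⁻¹ ∈ L := by
        have := hLn.conj_mem ⟨x, hQN hx⟩ (mem_subgroupOf.2 (hQL hx)) ⟨g, hg⟩
        exact mem_subgroupOf.1 this
      have hy : (⟨g * x * g⁻¹, hLN hxL⟩ : N) ∈ (Q₀ : Subgroup N) := by
        refine mem_sylow_of_normalizing Q₀ ?_ (mem_normalizer_of_conj_mem fun q hq => ?_)
        · obtain ⟨k, hk⟩ := hQp ⟨x, hx⟩
          have hk' : x ^ p ^ k = 1 := congrArg Subtype.val hk
          obtain ⟨j, -, hj⟩ := (Nat.dvd_prime_pow hp.out).1 (orderOf_dvd_of_pow_eq_one hk')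
          exact ⟨j, by rw [Subgroup.orderOf_mk, Involution.orderOf_conj, hj]⟩
        · have hc := comm_of hLab hxL (hQL ⟨q, hq, rfl⟩)
          rw [show (⟨g * x * g⁻¹, hLN hxL⟩ : N) * q = q * ⟨g * x * g⁻¹, hLN hxL⟩ from Subtype.ext hc,
            mul_inv_cancel_right]
          exact hq
      exact ⟨_, hy, rfl⟩
    rcases hDQ.lt_or_eq with hlt | heq
    · have hcard := Transfer.card_lt_of_subgroup_lt hlt
      have hle := Subgroup.card_le_card_group Q
      exact centralizer_le (SetLike.coe_subset_coe.2 hDQ)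
        (IH (Nat.card G - Nat.card Q) (by omega) Q (by omega) hQp g hgQ hgo)
    · exfalso
      rcases (heq ▸ hR : D ≤ R).lt_or_eq with hlt | heq'
      · have := (Transfer.lt_inf_normalizer R.2 hlt).not_ge
        exact this (hRN.trans heq.ge)
      · exact hRna (heq' ▸ hDab)
  · -- `Q` is a Sylow subgroup of `G`
    have hQna : ¬ IsMulCommutative Q := fun h =>
      hQL fun x hx => mem_centralizer_iff.2 fun d hd => comm_of h (hDQ hd) hx
    set L' := L.subgroupOf N with hL'
    set f := QuotientGroup.mk' L' with hf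
    have hfs : Function.Surjective f := QuotientGroup.mk'_surjective L'
    set Qb := Q₀.mapSurjective hfs with hQb
    have hQbc : (Qb : Subgroup (N ⧸ L')) = (Q₀ : Subgroup N).map f := rfl
    -- coatoms of `Q₀` are abelian
    have hco : ∀ M₀ : Subgroup (Q₀ : Subgroup N), IsCoatom M₀ → ∀ a ∈ M₀, ∀ b ∈ M₀, a * b = b * a := by
      intro M₀ hM₀ a ha b hb
      haveI hM₀n := Transfer.normal_of_isCoatom_pGroup Q₀.2 hM₀
      set M : Subgroup G := M₀.map (N.subtype.comp (Q₀ : Subgroup N).subtype) with hM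
      have hMQ : M ≤ Q := by
        rintro _ ⟨m, -, rfl⟩
        exact ⟨m, m.2, rfl⟩
      have hnorm : Q ≤ normalizer (M : Set G) := by
        rintro _ ⟨q, hq, rfl⟩
        refine mem_normalizer_of_conj_mem ?_
        rintro _ ⟨m, hm, rfl⟩
        exact ⟨_, hM₀n.conj_mem m hm ⟨q, hq⟩, rfl⟩
      have hne : M ≠ Q := fun e => hM₀.1 ((eq_top_iff' _).2 fun y => by
        have hy : N.subtype ((Q₀ : Subgroup N).subtype y) ∈ M := e ▸ ⟨y, y.2, rfl⟩
        obtain ⟨z, hz, hzy⟩ := hy
        exact (show z = y from Subtype.ext (Subtype.ext hzy)) ▸ hz)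
      have h := comm_of (comm_of_normal hSN hMQ hnorm hne) (mem_map_of_mem _ ha) (mem_map_of_mem _ hb)
      exact Subtype.ext (Subtype.ext h)
    set K : Subgroup (Q₀ : Subgroup N) := L'.subgroupOf Q₀ with hK
    haveI : K.Normal := inferInstance
    obtain ⟨M₀, hM₀, hKM⟩ : ∃ M₀ : Subgroup (Q₀ : Subgroup N), IsCoatom M₀ ∧ ¬ K ≤ M₀ := by
      by_contra hall
      push Not at hall
      have hnt : ¬ IsMulCommutative (Q₀ : Subgroup N) := fun h => hQna (isComm_of (by
        rintro _ ⟨a, ha, rfl⟩ _ ⟨b, hb, rfl⟩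
        rw [← map_mul, comm_of h ha hb, map_mul]))
      haveI : Nontrivial (Q₀ : Subgroup N) := by
        by_contra hn'
        rw [not_nontrivial_iff_subsingleton] at hn'
        exact hnt ⟨⟨fun a b => Subsingleton.elim _ _⟩⟩
      obtain ⟨M₁, hM₁, -⟩ := (eq_top_or_exists_le_coatom (⊥ : Subgroup (Q₀ : Subgroup N))).resolve_left bot_ne_top
      obtain ⟨y, hy⟩ : ∃ y, y ∉ M₁ := by
        by_contra h
        push Not at h
        exact hM₁.1 ((eq_top_iff' _).2 h)
      obtain ⟨M₂, hM₂, hyM⟩ := (eq_top_or_exists_le_coatom (zpowers y)).resolve_left fun e => hnt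
        ⟨⟨fun a b => by
          obtain ⟨i, rfl⟩ := mem_zpowers_iff.1 (e ▸ mem_top a)
          obtain ⟨j, rfl⟩ := mem_zpowers_iff.1 (e ▸ mem_top b)
          exact (Commute.zpow_zpow_self y i j).eq⟩⟩
      have hne : M₁ ≠ M₂ := fun e => hy (e ▸ hyM (mem_zpowers y))
      have htop : M₁ ⊔ M₂ = ⊤ := hM₁.2 _ (lt_of_le_of_ne le_sup_left fun e =>
        hne ((hM₂.le_iff.1 (e ▸ le_sup_right : M₂ ≤ M₁)).resolve_left hM₁.1))
      refine hQL ?_
      rintro _ ⟨q, hq, rfl⟩
      refine mem_centralizer_iff.2 fun d hd => ?_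
      have hdK : (⟨⟨d, hDN hd⟩, hQ₀ hd⟩ : (Q₀ : Subgroup N)) ∈ K :=
        mem_subgroupOf.2 (mem_subgroupOf.2 (hDL hd))
      have hcen : (⊤ : Subgroup (Q₀ : Subgroup N)) ≤
          centralizer {(⟨⟨d, hDN hd⟩, hQ₀ hd⟩ : (Q₀ : Subgroup N))} := by
        rw [← htop]
        exact sup_le
          (fun m hm => mem_centralizer_singleton_iff.2 (hco M₁ hM₁ m hm _ (hall M₁ hM₁ hdK)))
          (fun m hm => mem_centralizer_singleton_iff.2 (hco M₂ hM₂ m hm _ (hall M₂ hM₂ hdK)))
      have := mem_centralizer_singleton_iff.1 (hcen (mem_top ⟨q, hq⟩))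
      exact (congrArg (fun z : (Q₀ : Subgroup N) => ((z : N) : G)) this).symm
    have hMK : M₀ ⊔ K = ⊤ := hM₀.2 _ (lt_of_le_of_ne le_sup_left fun e => hKM (e ▸ le_sup_right))
    have hQbab : IsMulCommutative (Qb : Subgroup (N ⧸ L')) := by
      refine isComm_of ?_
      rw [hQbc]
      rintro _ ⟨a, ha, rfl⟩ _ ⟨b, hb, rfl⟩
      have key : ∀ c : (Q₀ : Subgroup N), ∃ m ∈ M₀, f c = f (m : N) := fun c => by
        obtain ⟨m, hm, k, hk, hmk⟩ := mem_sup_of_normal_right.1 (hMK ▸ mem_top c : c ∈ M₀ ⊔ K)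
        refine ⟨m, hm, ?_⟩
        have hk1 : f ((k : (Q₀ : Subgroup N)) : N) = 1 :=
          (QuotientGroup.eq_one_iff _).2 (mem_subgroupOf.1 hk)
        rw [← hmk, Subgroup.coe_mul, map_mul, hk1, mul_one]
      obtain ⟨m, hm, em⟩ := key ⟨a, ha⟩
      obtain ⟨m', hm', em'⟩ := key ⟨b, hb⟩
      have e := congrArg (fun z : (Q₀ : Subgroup N) => f z) (hco M₀ hM₀ m hm m' hm')
      simp only [Subgroup.coe_mul, map_mul] at e
      rw [em, em']
      exact e
    have hself : normalizer ((Qb : Subgroup (N ⧸ L')) : Set (N ⧸ L')) ≤ (Qb : Subgroup (N ⧸ L')) := by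
      intro x hx
      obtain ⟨m, rfl⟩ := hfs x
      set QL : Subgroup N := (Q₀ : Subgroup N) ⊔ L' with hQL'
      have hcm : ((Q₀ : Subgroup N).map f).comap f = QL := by
        rw [comap_map_eq, hf, QuotientGroup.ker_mk']
      have hH : ¬ IsMulCommutative (QL.map N.subtype) := fun h => hQna (isComm_of fun a ha b hb =>
        comm_of h (map_mono le_sup_left ha) (map_mono le_sup_left hb))
      have hmN : (m : G) ∈ normalizer ((QL.map N.subtype : Subgroup G) : Set G) := by
        refine mem_normalizer_of_conj_mem ?_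
        rintro _ ⟨q, hq, rfl⟩
        refine ⟨m * q * m⁻¹, ?_, by simp⟩
        rw [SetLike.mem_coe, ← hcm, mem_comap, map_mul, map_mul, map_inv]
        rw [SetLike.mem_coe, ← hcm, mem_comap] at hq
        exact (mem_normalizer_iff.1 hx _).1 hq
      rw [hSN _ hH] at hmN
      obtain ⟨q, hq, hqm⟩ := hmN
      obtain rfl : q = m := Subtype.ext hqm
      rw [SetLike.mem_coe, ← hcm, mem_comap] at hq
      exact hq
    obtain ⟨T, Kb, hKb, hc⟩ := Transfer.hasNormalPComplement_of_normalizer_le_centralizer Qb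
      fun x hx => mem_centralizer_iff.2 fun y hy => comm_of hQbab hy (hself hx)
    obtain ⟨k, hk⟩ := IsPGroup.iff_card.1 T.2
    have hidx : Kb.index = p ^ k := by rw [hc.symm.index_eq_card, hk]
    set K' : Subgroup N := Kb.comap f with hK'
    haveI : K'.Normal := inferInstance
    have hLK : L' ≤ K' := fun x hx => by
      rw [hK', mem_comap, hf, QuotientGroup.mk'_apply, (QuotientGroup.eq_one_iff x).2 hx]
      exact one_mem _
    have hK'ne : K'.map N.subtype ≠ N := fun e => by
      have htop : Kb = ⊤ := (eq_top_iff' _).2 fun x => by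
        obtain ⟨m, rfl⟩ := hfs x
        have hm : N.subtype m ∈ K'.map N.subtype := e.symm ▸ m.2
        obtain ⟨m', hm', hmm⟩ := hm
        rw [← show m' = m from Subtype.ext hmm]
        exact hm'
      rw [htop, isComplement'_top_left] at hc
      have h1 : Nat.card (Qb : Subgroup (N ⧸ L')) = 1 := by
        rw [← Subgroup.card_bot (G := N ⧸ L'), ← hc]
        exact Nat.card_congr (Sylow.equiv Qb T).toEquiv
      refine hQL ?_
      rintro _ ⟨q, hq, rfl⟩
      have : f q = 1 := Subgroup.mem_bot.1 ((Subgroup.eq_bot_of_card_eq _ h1) ▸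
        (hQbc ▸ mem_map_of_mem f hq : f q ∈ (Qb : Subgroup (N ⧸ L'))))
      exact mem_subgroupOf.1 ((QuotientGroup.eq_one_iff q).1 this)
    have hK'n : N ≤ normalizer ((K'.map N.subtype : Subgroup G) : Set G) := fun m hm => by
      refine mem_normalizer_of_conj_mem ?_
      rintro _ ⟨q, hq, rfl⟩
      exact ⟨_, ‹K'.Normal›.conj_mem q hq ⟨m, hm⟩, rfl⟩
    have hK'ab := comm_of_normal hSN (map_subtype_le _) hK'n hK'ne
    have hgK : (⟨g, hg⟩ : N) ∈ K' := by
      rw [hK', mem_comap]
      have h1 := Kb.pow_index_mem (f ⟨g, hg⟩)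
      have h2 : (Kb.index).Coprime (orderOf (f ⟨g, hg⟩)) := by
        rw [hidx]
        refine Nat.Coprime.pow_left k (Nat.Coprime.coprime_dvd_right ?_ hgo.symm)
        exact (orderOf_map_dvd f _).trans (Subgroup.orderOf_mk g hg).dvd
      obtain ⟨i, hi⟩ := exists_pow_eq_self_of_coprime h2
      rw [← hi]
      exact pow_mem h1 i
    exact mem_centralizer_iff.2 fun d hd => comm_of hK'ab
      ⟨⟨d, hDN hd⟩, hLK (mem_subgroupOf.2 (hDL hd)), rfl⟩ ⟨⟨g, hg⟩, hgK, rfl⟩

theorem sylow_comm [IsSimpleGroup G] (hG : ¬ IsMulCommutative G) (hSN : SN G) [Fact p.Prime]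
    (P : Sylow p G) : IsMulCommutative (P : Subgroup G) := by
  by_contra hP
  have hd : p ∣ Nat.card G := by
    by_contra h
    refine hP (isComm_of fun a ha b hb => ?_)
    obtain ⟨k, hk⟩ := IsPGroup.iff_card.1 P.2
    have hk0 : k = 0 := by
      by_contra h0
      exact h ((dvd_pow_self p h0).trans (hk ▸ Subgroup.card_subgroup_dvd_card _))
    rw [hk0, pow_zero] at hk
    rw [Subgroup.eq_bot_of_card_eq _ hk, Subgroup.mem_bot] at ha hb
    rw [ha, hb]
  exact no_complement hG hd (Transfer.frobenius_criterion (autPGroup hSN P hP))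

theorem sylow_subgroup_comm [IsSimpleGroup G] (hG : ¬ IsMulCommutative G) (hSN : SN G) [Fact p.Prime]
    {H : Subgroup G} (R : Sylow p H) : IsMulCommutative (R : Subgroup H) := by
  obtain ⟨S, hS⟩ := (R.2.map H.subtype).exists_le_sylow
  exact isComm_of fun a ha b hb => Subtype.ext
    (comm_of (sylow_comm hG hSN S) (hS (mem_map_of_mem _ ha)) (hS (mem_map_of_mem _ hb)))

theorem subgroup_eq_of_card {A : Type*} [Group A] [Finite A] [IsCyclic A] {H₁ H₂ : Subgroup A}
    (h : Nat.card H₁ = Nat.card H₂) : H₁ = H₂ := by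
  classical
  haveI := Fintype.ofFinite A
  have key : ∀ H : Subgroup A, (H : Set A).toFinset =
      ({a : A | a ^ Nat.card H = 1} : Finset A) := fun H => by
    refine Finset.eq_of_subset_of_card_le (fun a ha => ?_) ?_
    · rw [Set.mem_toFinset] at ha
      refine Finset.mem_filter.2 ⟨Finset.mem_univ a, ?_⟩
      exact congrArg Subtype.val (pow_card_eq_one' (x := (⟨a, ha⟩ : H)))
    · refine (IsCyclic.card_pow_eq_one_le Nat.card_pos).trans_eq ?_
      rw [Set.toFinset_card, Nat.card_eq_fintype_card]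
      rfl
  apply SetLike.coe_injective
  rw [← Set.coe_toFinset (H₁ : Set A), key, h, ← key, Set.coe_toFinset]

theorem center_inf_commutator {K : Type*} [Group K] [Finite K]
    (hsyl : ∀ (q : ℕ) [Fact q.Prime] (R : Sylow q K), IsMulCommutative (R : Subgroup K)) {z : K}
    (hz : z ∈ center K) (hz' : z ∈ commutator K) : z = 1 := by
  by_contra h1
  obtain ⟨q, hq, hdvd⟩ := Nat.exists_prime_and_dvd (mt orderOf_eq_one_iff.1 h1)
  haveI := Fact.mk hq
  set w := z ^ (orderOf z / q) with hw
  have hwo : orderOf w = q := orderOf_pow_orderOf_div (orderOf_pos z).ne' hdvd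
  obtain ⟨R, hR⟩ := (IsPGroup.of_card (p := q) (G := zpowers w) (n := 1)
    (by rw [Nat.card_zpowers, hwo, pow_one])).exists_le_sylow
  have h := Transfer.eq_one_of_central_of_abelian (R : Subgroup K) (hsyl q R) R.card_coprime_index
    (hR (mem_zpowers w)) (pow_mem hz _) (pow_mem hz' _)
  rw [h, orderOf_one] at hwo
  exact hq.ne_one hwo.symm

theorem local_structure {K : Type*} [Group K] [Finite K]
    (hsub : ∀ M : Subgroup K, M.Normal → M ≠ ⊤ → IsMulCommutative M) (hna : ¬ IsMulCommutative K)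
    (hsyl : ∀ (q : ℕ) [Fact q.Prime] (R : Sylow q K), IsMulCommutative (R : Subgroup K))
    {r : ℕ} [hr : Fact r.Prime] {x : K} (hx : x ∈ center K) (hxo : orderOf x = r) (R : Sylow r K) :
    commutator K ⊓ (R : Subgroup K) = ⊥ ∧ IsCyclic (R : Subgroup K) := by
  have hx1 : x ≠ 1 := fun e => hr.out.ne_one (by rw [← hxo, e, orderOf_one])
  have hxD : x ∉ commutator K := fun h => hx1 (center_inf_commutator hsyl hx h)
  have hDne : commutator K ≠ ⊤ := fun e => hxD (e ▸ mem_top x)
  haveI : Nontrivial K := ⟨⟨x, 1, hx1⟩⟩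
  obtain ⟨M, hM, hDM⟩ := (eq_top_or_exists_le_coatom (commutator K)).resolve_left hDne
  have hnormal : ∀ M' : Subgroup K, commutator K ≤ M' → M'.Normal := fun M' h => ⟨fun m hm g => by
    have := mul_mem (h (commutator_mem_commutator (mem_top g) (mem_top m))) hm
    simpa [commutatorElement_def] using this⟩
  have huniq : ∀ M' : Subgroup K, IsCoatom M' → commutator K ≤ M' → M' = M := by
    intro M' hM' hD'
    by_contra hne
    haveI := hnormal M' hD'
    haveI := hnormal M hDM
    have h1 := hsub M inferInstance hM.1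
    have h2 := hsub M' inferInstance hM'.1
    have htop : M ⊔ M' = ⊤ := hM.2 _ (lt_of_le_of_ne le_sup_left fun e =>
      hne (((hM'.le_iff.1 (e ▸ le_sup_right : M' ≤ M)).resolve_left hM.1)).symm)
    have hcen : ∀ c : K, c ∈ M → c ∈ M' → c ∈ center K := fun c hc hc' => by
      have hle : (⊤ : Subgroup K) ≤ centralizer {c} := by
        rw [← htop]
        exact sup_le (fun m hm => mem_centralizer_singleton_iff.2 (comm_of h1 hm hc))
          (fun m hm => mem_centralizer_singleton_iff.2 (comm_of h2 hm hc'))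
      exact mem_center_iff.2 fun g => mem_centralizer_singleton_iff.1 (hle (mem_top g))
    have hcomm : ∀ a b : K, ⁅a, b⁆ = 1 := fun a b =>
      center_inf_commutator hsyl (hcen _ (hDM (commutator_mem_commutator (mem_top a) (mem_top b)))
        (hD' (commutator_mem_commutator (mem_top a) (mem_top b))))
        (commutator_mem_commutator (mem_top a) (mem_top b))
    exact hna ⟨⟨fun a b => commutatorElement_eq_one_iff_mul_comm.1 (hcomm a b)⟩⟩
  obtain ⟨y, hy⟩ : ∃ y, y ∉ M := by
    by_contra h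
    push Not at h
    exact hM.1 ((eq_top_iff' _).2 h)
  have hgen : ∀ z : K, z ∉ M → commutator K ⊔ zpowers z = ⊤ := fun z hz => by
    by_contra h
    obtain ⟨M', hM', hle⟩ := (eq_top_or_exists_le_coatom _).resolve_left h
    exact hz (huniq M' hM' (le_sup_left.trans hle) ▸ hle (le_sup_right (a := commutator K) (mem_zpowers z)))
  let f : K →* Abelianization K := Abelianization.of
  have hfs : Function.Surjective f := fun a => QuotientGroup.mk_surjective a
  have hfk : ∀ c : K, c ∈ commutator K → f c = 1 := fun c hc => (QuotientGroup.eq_one_iff c).2 hc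
  have hcyc : ∀ a, a ∈ zpowers (f y) := fun a => by
    obtain ⟨c, rfl⟩ := hfs a
    obtain ⟨d, hd, e, he, rfl⟩ := mem_sup_of_normal_left.1 ((hgen y hy).symm ▸ mem_top c :
      c ∈ commutator K ⊔ zpowers y)
    obtain ⟨i, rfl⟩ := mem_zpowers_iff.1 he
    rw [map_mul, hfk d hd, one_mul, map_zpow]
    exact zpow_mem_zpowers _ i
  have hpow : ∀ q : ℕ, q.Prime → q ∣ orderOf (f y) → y ^ q ∈ M := fun q hq hdvd => by
    by_contra h
    obtain ⟨i, hi⟩ : ∃ i : ℤ, f y = (f y ^ q) ^ i := by
      obtain ⟨d, hd, e, he, hde⟩ := mem_sup_of_normal_left.1 ((hgen _ h).symm ▸ mem_top y :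
        y ∈ commutator K ⊔ zpowers (y ^ q))
      obtain ⟨i, rfl⟩ := mem_zpowers_iff.1 he
      refine ⟨i, ?_⟩
      conv_lhs => rw [← hde]
      rw [map_mul, hfk d hd, one_mul, map_zpow, map_pow]
    rw [← zpow_natCast, ← zpow_mul] at hi
    have h1 : (f y) ^ ((q : ℤ) * i - 1) = 1 := by rw [zpow_sub_one, ← hi, mul_inv_cancel]
    have h2 := (Int.natCast_dvd_natCast.2 hdvd).trans (orderOf_dvd_iff_zpow_eq_one.2 h1)
    have h3 : (q : ℤ) ∣ 1 := by
      have := Int.dvd_sub (dvd_mul_right (q : ℤ) i) h2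
      simpa using this
    exact hq.not_dvd_one (Int.natCast_dvd_natCast.1 (by simpa using h3))
  have hrdvd : r ∣ orderOf (f y) := by
    have h1 : orderOf (f x) ∣ r := hxo ▸ orderOf_map_dvd f x
    rcases (Nat.dvd_prime hr.out).1 h1 with h | h
    · exact absurd ((QuotientGroup.eq_one_iff x).1 (orderOf_eq_one_iff.1 h)) hxD
    · exact h ▸ orderOf_dvd_of_mem_zpowers (hcyc (f x))
  have honly : ∀ q : ℕ, q.Prime → q ∣ orderOf (f y) → q = r := fun q hq hdvd => by
    by_contra hne
    have hcop : IsCoprime (q : ℤ) (r : ℤ) :=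
      Int.isCoprime_iff_nat_coprime.2 (by simpa using (Nat.coprime_primes hq hr.out).2 hne)
    obtain ⟨a, b, hab⟩ := hcop
    refine hy ?_
    rw [show y = (y ^ q) ^ a * (y ^ r) ^ b by
      rw [← zpow_natCast, ← zpow_natCast, ← zpow_mul, ← zpow_mul, ← zpow_add]
      conv_lhs => rw [← zpow_one y]
      congr 1
      rw [← hab]; ring]
    exact mul_mem (zpow_mem (hpow q hq hdvd) a) (zpow_mem (hpow r hr.out hrdvd) b)
  have hA : IsPGroup r (Abelianization K) := by
    have hn : orderOf (f y) = r ^ (orderOf (f y)).primeFactorsList.length :=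
      Nat.eq_prime_pow_of_unique_prime_dvd (orderOf_pos _).ne' fun {d} hd hdd => honly d hd hdd
    exact IsPGroup.of_card ((orderOf_eq_card_of_forall_mem_zpowers hcyc).symm.trans hn)
  haveI : IsCyclic (Abelianization K) := ⟨f y, hcyc⟩
  have hRtop : (R : Subgroup K).map f = ⊤ := by
    have h := (R.mapSurjective hfs).3 (hA.to_subgroup ⊤) le_top
    exact h.symm
  have htop : (R : Subgroup K) ⊔ commutator K = ⊤ := by
    have h := congrArg (Subgroup.comap f) hRtop
    rw [comap_map_eq, comap_top] at h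
    rwa [show f.ker = commutator K from QuotientGroup.ker_mk' _] at h
  have hDab := hsub _ inferInstance hDne
  have hinf : commutator K ⊓ (R : Subgroup K) = ⊥ := by
    refine (eq_bot_iff_forall _).2 fun c hc => center_inf_commutator hsyl ?_ hc.1
    refine mem_center_iff.2 fun g => mem_centralizer_singleton_iff.1 ?_
    have hle : (⊤ : Subgroup K) ≤ centralizer {c} := by
      rw [← htop]
      exact sup_le (fun m hm => mem_centralizer_singleton_iff.2 (comm_of (hsyl r R) hm hc.2))
        (fun m hm => mem_centralizer_singleton_iff.2 (comm_of hDab hm hc.1))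
    exact hle (mem_top g)
  refine ⟨hinf, isCyclic_of_injective (f.comp (R : Subgroup K).subtype) ?_⟩
  rw [← MonoidHom.ker_eq_bot_iff]
  refine (eq_bot_iff_forall _).2 fun c hc => Subtype.ext ?_
  have h : (c : K) ∈ commutator K ⊓ (R : Subgroup K) := ⟨(QuotientGroup.eq_one_iff _).1 hc, c.2⟩
  rw [hinf] at h
  exact Subgroup.mem_bot.1 h

theorem centralizer_comm [IsSimpleGroup G] (hG : ¬ IsMulCommutative G) (hSN : SN G) {r : ℕ}
    [hr : Fact r.Prime] {x : G} (hx : orderOf x = r) :
    IsMulCommutative (centralizer ({x} : Set G)) := by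
  by_contra hC
  set C := centralizer ({x} : Set G) with hCdef
  have hxC : x ∈ C := mem_centralizer_singleton_iff.2 rfl
  obtain ⟨R, hR⟩ := (IsPGroup.of_card (p := r) (G := zpowers x) (n := 1)
    (by rw [Nat.card_zpowers, hx, pow_one])).exists_le_sylow
  have hxR : x ∈ (R : Subgroup G) := hR (mem_zpowers x)
  have hRC : (R : Subgroup G) ≤ C := fun a ha =>
    mem_centralizer_singleton_iff.2 (comm_of (sylow_comm hG hSN R) ha hxR)
  have hsub : ∀ M : Subgroup C, M.Normal → M ≠ ⊤ → IsMulCommutative M := by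
    intro M hM hne
    have h := comm_of_normal hSN (K := M.map C.subtype) (map_subtype_le _) (fun c hc => by
      refine mem_normalizer_of_conj_mem ?_
      rintro _ ⟨m, hm, rfl⟩
      exact ⟨_, hM.conj_mem m hm ⟨c, hc⟩, rfl⟩) fun e => hne ((eq_top_iff' _).2 fun c => by
        have hc : C.subtype c ∈ M.map C.subtype := e.symm ▸ c.2
        obtain ⟨m, hm, hmc⟩ := hc
        exact Subtype.ext hmc ▸ hm)
    exact isComm_of fun a ha b hb =>
      Subtype.ext (comm_of h (mem_map_of_mem _ ha) (mem_map_of_mem _ hb))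
  obtain ⟨hinf, hcyc⟩ := local_structure hsub hC (fun q _ S => sylow_subgroup_comm hG hSN S)
    (x := ⟨x, hxC⟩) (mem_center_iff.2 fun c => Subtype.ext (mem_centralizer_singleton_iff.1 c.2))
    (by rw [Subgroup.orderOf_mk]; exact hx) (R.subtype hRC)
  haveI : IsCyclic ((R : Subgroup G).subgroupOf C) := hcyc
  haveI : IsCyclic (R : Subgroup G) := isCyclic_of_surjective
    (subgroupOfEquivOfLe hRC).toMonoidHom (subgroupOfEquivOfLe hRC).surjective
  have hNC : normalizer ((R : Subgroup G) : Set G) ≤ centralizer ((R : Subgroup G) : Set G) := by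
    intro g hg
    have hgR : ∀ a ∈ (R : Subgroup G), g * a * g⁻¹ ∈ (R : Subgroup G) := fun a ha =>
      (mem_normalizer_iff.1 hg a).1 ha
    have hgx : ∀ a ∈ zpowers x, g * a * g⁻¹ ∈ zpowers x := by
      have hsame : ((zpowers x).map (MulAut.conj g).toMonoidHom).subgroupOf (R : Subgroup G) =
          (zpowers x).subgroupOf (R : Subgroup G) := subgroup_eq_of_card (by
        have hle : (zpowers x).map (MulAut.conj g).toMonoidHom ≤ (R : Subgroup G) := by
          rintro _ ⟨a, ha, rfl⟩
          simpa using hgR a (hR ha)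
        rw [Nat.card_congr (subgroupOfEquivOfLe hle).toEquiv, Nat.card_congr (subgroupOfEquivOfLe hR).toEquiv,
          card_map_of_injective (MulAut.conj g).injective])
      intro a ha
      have : (⟨g * a * g⁻¹, hgR a (hR ha)⟩ : (R : Subgroup G)) ∈
          ((zpowers x).map (MulAut.conj g).toMonoidHom).subgroupOf (R : Subgroup G) :=
        mem_subgroupOf.2 ⟨a, ha, by simp⟩
      rw [hsame] at this
      exact mem_subgroupOf.1 this
    have hgC : g ∈ C := by
      have hgn : g ∈ normalizer (C : Set G) := mem_normalizer_of_conj_mem fun c hc => by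
        have hxz : g⁻¹ * x * g ∈ zpowers x := by
          have h := (mem_normalizer_iff.1 (inv_mem (mem_normalizer_of_conj_mem hgx)) x).1 (mem_zpowers x)
          simpa using h
        obtain ⟨i, hi⟩ := mem_zpowers_iff.1 hxz
        have hcx : Commute c (x ^ i) := (Commute.zpow_right (mem_centralizer_singleton_iff.1 hc) i)
        rw [hi] at hcx
        refine mem_centralizer_singleton_iff.2 ?_
        have := hcx.map (MulAut.conj g).toMonoidHom
        simp only [MulEquiv.coe_toMonoidHom, MulAut.conj_apply] at this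
        rw [show g * (g⁻¹ * x * g) * g⁻¹ = x by group] at this
        exact this
      rwa [hSN C hC] at hgn
    refine mem_centralizer_iff.2 fun a ha => ?_
    have h : ⁅(⟨g, hgC⟩ : C), ⟨a, hRC ha⟩⁆ ∈ commutator C ⊓ (R.subtype hRC : Subgroup C) := by
      refine ⟨commutator_mem_commutator (mem_top _) (mem_top _), ?_⟩
      show ((⁅(⟨g, hgC⟩ : C), ⟨a, hRC ha⟩⁆ : C) : G) ∈ (R : Subgroup G)
      exact mul_mem (hgR a ha) (inv_mem ha)
    rw [hinf, Subgroup.mem_bot, commutatorElement_eq_one_iff_mul_comm] at h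
    exact (congrArg Subtype.val h).symm
  refine no_complement hG ?_ (Transfer.hasNormalPComplement_of_normalizer_le_centralizer R hNC)
  rw [← hx]; exact orderOf_dvd_natCard x

theorem ct [IsSimpleGroup G] (hG : ¬ IsMulCommutative G) (hSN : SN G) : CTSimple.CT G := by
  intro a b c ha hb hc hab hbc
  obtain ⟨q, hq, hdvd⟩ := Nat.exists_prime_and_dvd (mt orderOf_eq_one_iff.1 hb)
  haveI := Fact.mk hq
  set w := b ^ (orderOf b / q) with hw
  have hwo : orderOf w = q := orderOf_pow_orderOf_div (orderOf_pos b).ne' hdvd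
  exact comm_of (centralizer_comm hG hSN hwo) (mem_centralizer_singleton_iff.2 (hab.pow_right _).eq)
    (mem_centralizer_singleton_iff.2 (hbc.symm.pow_right _).eq)

open CTSimple in
theorem relIndex_prime [IsSimpleGroup G] (hG : ¬ IsMulCommutative G) (hSN : SN G) {t : G}
    (ht : orderOf t = 2) : ((C t).relIndex (Nz t)).Prime := by
  have hCT := ct hG hSN
  have ht1 := CTSimple.ne_one_of_two ht
  obtain ⟨-, β, hK⟩ := zassenhaus hG hCT ht
  set k := (C t).relIndex (Nz t) with hk
  have hk1 : 1 < k := one_lt_relIndex hG hCT ht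
  have hne : base t ≠ β := hK.ne
  set S := St t (base t) β with hS
  have hScard : Nat.card S = k := card_St hG hCT ht hne
  have hSab : ∀ a ∈ S, ∀ b ∈ S, a * b = b * a := by
    intro a ha b hb
    have hpos : 0 < Nat.card (Sw t (base t) β) := by rw [card_sw hG hCT ht hne]; omega
    obtain ⟨⟨v⟩, -⟩ := Nat.card_pos_iff.1 hpos
    have ia := sw_inverts hG hCT ht hne v ha
    have ib := sw_inverts hG hCT ht hne v hb
    have iab := sw_inverts hG hCT ht hne v (mul_mem ha hb)
    have : a⁻¹ * b⁻¹ = (a * b)⁻¹ := by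
      rw [← iab, ← ia, ← ib]
      calc (v : G) * a * v * (v * b * v) = v * a * ((v : G) * v) * b * v := by group
        _ = v * (a * b) * v := by rw [Involution.mul_self v.2.1, mul_one]; group
    rw [mul_inv_rev] at this
    exact (Commute.inv_inv_iff.1 this).eq
  obtain ⟨d, hd, hdk⟩ := Nat.exists_prime_and_dvd (n := k) (by omega)
  haveI := Fact.mk hd
  obtain ⟨h, hh⟩ := exists_prime_orderOf_dvd_card' (G := S) d (hScard ▸ hdk)
  have hhS : (h : G) ∈ S := h.2
  have hho : orderOf (h : G) = d := by rw [Subgroup.orderOf_coe]; exact hh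
  have hh1 : (h : G) ≠ 1 := fun e => hd.ne_one (by rw [← hho, e, orderOf_one])
  have hAS : ∀ a ∈ S, a ∈ C t → a = 1 := fun a ha haA =>
    by_contra fun h1 => hne (free_A hCT ht1 haA h1 ha.2).symm
  have hSN' : S ≤ Nz t := fun a ha => (fix_base_iff t a).1 ha.1
  have hhN : (h : G) ∈ Nz t := hSN' hhS
  have hCN : C t ≤ Nz t := le_normalizer
  set H := C t ⊔ zpowers (h : G) with hH
  have hHN : H ≤ Nz t := sup_le hCN (zpowers_le.2 hhN)
  -- `A` and `S` generate `N(A)`
  have hgen : Nz t ≤ C t ⊔ S := by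
    have hle : C t ⊔ S ≤ Nz t := sup_le hCN hSN'
    refine (Subgroup.eq_of_le_of_card_ge hle ?_).ge
    rw [card_N, ← hk, ← hScard, ← Nat.card_prod]
    refine Nat.card_le_card_of_injective (fun q : C t × S =>
      (⟨(q.1 : G) * q.2, mul_mem (mem_sup_left q.1.2) (mem_sup_right q.2.2)⟩ : (C t ⊔ S : Subgroup G)))
      fun q q' e => ?_
    have e' : (q.1 : G) * q.2 = q'.1 * q'.2 := congrArg Subtype.val e
    have e2 : (q'.1 : G)⁻¹ * q.1 = q'.2 * (q.2 : G)⁻¹ := by
      rw [eq_mul_inv_iff_mul_eq, mul_assoc, inv_mul_eq_iff_eq_mul, e']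
    have h2 := hAS _ (mul_mem q'.2.2 (inv_mem q.2.2)) (e2 ▸ mul_mem (inv_mem q'.1.2) q.1.2)
    have h3 : (q'.2 : G) = q.2 := mul_inv_eq_one.1 h2
    rw [h3] at e'
    exact Prod.ext (Subtype.ext (mul_right_cancel e')) (Subtype.ext h3.symm)
  have hnorm : Nz t ≤ normalizer (H : Set G) := by
    have hAH : C t ≤ normalizer (H : Set G) := fun a ha => le_normalizer (mem_sup_left ha)
    refine hgen.trans (sup_le hAH fun s hs => mem_normalizer_of_conj_mem ?_)
    have hle : H.map (MulAut.conj s).toMonoidHom ≤ H := by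
      rw [hH, Subgroup.map_sup]
      refine sup_le ?_ ?_
      · rintro _ ⟨a, ha, rfl⟩
        exact mem_sup_left (by simpa using (mem_normalizer_iff.1 (hSN' hs) a).1 ha)
      · rw [MonoidHom.map_zpowers]
        refine zpowers_le.2 (mem_sup_right ?_)
        show s * (h : G) * s⁻¹ ∈ zpowers (h : G)
        rw [hSab s hs _ hhS, mul_inv_cancel_right]
        exact mem_zpowers _
    intro x hx
    exact hle ⟨x, hx, by simp⟩
  have hHtop : H = Nz t := by
    by_contra hne'
    have hab := comm_of_normal hSN hHN hnorm hne'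
    refine hh1 (hAS _ hhS (mem_C.2 ?_))
    exact comm_of hab (mem_sup_right (mem_zpowers (h : G))) (mem_sup_left (mem_C.2 (Commute.refl t)))
  have hSz : S ≤ zpowers (h : G) := by
    intro s hs
    have hsH : s ∈ C t ⊔ zpowers (h : G) := by rw [← hH, hHtop]; exact hSN' hs
    rw [← SetLike.mem_coe, Subgroup.coe_mul_of_right_le_normalizer_left _ _ (zpowers_le.2 hhN)] at hsH
    obtain ⟨a, ha, b, hb, hab⟩ := Set.mem_mul.1 hsH
    have ha1 : a = 1 := hAS a (by
      rw [show a = s * b⁻¹ by rw [← hab, mul_inv_cancel_right]]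
      exact mul_mem hs (inv_mem (zpowers_le.2 hhS hb))) ha
    rw [← hab, ha1, one_mul]
    exact hb
  have hkd : k ≤ d := by
    rw [← hScard, ← hho, ← Nat.card_zpowers]
    exact Subgroup.card_le_of_le hSz
  have : d ≤ k := Nat.le_of_dvd (by omega) hdk
  rwa [show k = d by omega]

end Cfsg.Agent.Lib.LocalChar.SelfNorm
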