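import Cfsg.Agent.Lib.PSLTwo.Classify
import Cfsg.Agent.Lib.PSLTwo.Over
import Cfsg.Agent.Lib.PSLTwo.Centralizers

/-!
In `PGL₂(2 ^ n)` with `2 ^ n - 1` prime every non-abelian subgroup is self-normalising.
-/

set_option autoImplicit false
set_option linter.unusedSectionVars false
set_option linter.style.haveILetI false

namespace Cfsg.Agent.Lib.LocalChar.SelfNormEven

open Matrix MulAction OnePoint
open scoped MatrixGroups
open Cfsg.Agent.Lib.PSLTwo

variable {F E : Type*} [Field F] [Fintype F] [DecidableEq F] [Field E] [DecidableEq E] [Finite E]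
  [Algebra F E]

theorem borel_case [CharP F 2] (hE : Nat.card E = Fintype.card F ^ 2) (hq : (Fintype.card F - 1).Prime)
    {H : Subgroup PGL(2, F)} (hH : ¬ IsMulCommutative H) {a : OnePoint F}
    (ha : H ≤ stabilizer PGL(2, F) a) : Subgroup.normalizer (H : Set PGL(2, F)) = H := by
  haveI : Fact (Nat.Prime 2) := ⟨Nat.prime_two⟩
  have P := poles (E := E) (p := 2) hE
  have hfix : ∀ h ∈ H, h • inc E a = inc E a := fun h hh => by rw [← inc_smul, ha hh]
  obtain ⟨h, hh, hh1, hsq⟩ : ∃ h ∈ H, h ≠ 1 ∧ h ^ 2 ≠ 1 := by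
    by_contra hall
    push Not at hall
    refine hH ⟨⟨fun u v => Subtype.ext ?_⟩⟩
    have hpow : ∀ w ∈ H, w ^ 2 = 1 := fun w hw => by
      by_cases hw1 : w = 1
      · rw [hw1, one_pow]
      · exact hall w hw hw1
    exact (P.uni u v (inc E a) (hfix u u.2) (hfix v v.2) (hpow u u.2) (hpow v v.2)).eq
  obtain ⟨y, hy, hya⟩ : ∃ y : OnePoint E, h • y = y ∧ y ≠ inc E a := by
    by_contra hall
    push Not at hall
    exact hsq ((P.pElem h (inc E a) hh1 (hfix h hh)).2 hall)
  obtain ⟨b, rfl⟩ : IsRat F y := by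
    rcases (torusPair_of_fix hE hya.symm hh1 (hfix h hh) hy).2 with ⟨-, h2⟩ | ⟨h1, -, -⟩
    · exact h2
    · exact absurd ⟨a, rfl⟩ h1
  have hab : a ≠ b := fun e => hya (by rw [e])
  set T := stabilizer PGL(2, F) a ⊓ stabilizer PGL(2, F) b with hT
  have hcardT : Nat.card T = Fintype.card F - 1 := card_stab_pair hab
  have hhT : h ∈ T := ⟨ha hh, inc_injective (E := E) (by rw [inc_smul, hy])⟩
  haveI : Fact (Nat.card T).Prime := ⟨hcardT.symm ▸ hq⟩
  have hTH : T ≤ H := by
    intro t ht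
    have hgen : Subgroup.zpowers (⟨h, hhT⟩ : T) = ⊤ :=
      zpowers_eq_top_of_prime_card rfl fun e => hh1 (congrArg Subtype.val e)
    obtain ⟨i, hi⟩ := Subgroup.mem_zpowers_iff.1 (hgen ▸ Subgroup.mem_top (⟨t, ht⟩ : T))
    rw [show t = h ^ i from (congrArg Subtype.val hi).symm]
    exact zpow_mem hh i
  obtain ⟨g₀, hg₀, hg₀b⟩ : ∃ g₀ ∈ H, g₀ • b ≠ b := by
    by_contra hall
    push Not at hall
    refine hH ⟨⟨fun u v => Subtype.ext ?_⟩⟩
    haveI : IsCyclic T := isCyclic_of_prime_card rfl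
    letI := IsCyclic.commGroup (α := T)
    exact (congrArg (fun z : T => (z : PGL(2, F))) (mul_comm (⟨(u : PGL(2, F)), ha u.2, hall u u.2⟩ : T)
      ⟨(v : PGL(2, F)), ha v.2, hall v v.2⟩) :)
  set c := g₀ • b with hc
  have hca : c ≠ a := fun e => hab (MulAction.injective g₀ ((ha hg₀).trans e.symm))
  -- the orbit of `b` is the whole affine line
  have horb : ∀ z : OnePoint F, z ≠ a → ∃ u ∈ H, u • b = z := by
    intro z hza
    by_cases hzb : z = b
    · exact ⟨1, one_mem H, by rw [hzb, one_smul]⟩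
    let φ : T → {z : OnePoint F // z ≠ a ∧ z ≠ b} := fun t => ⟨(t : PGL(2, F)) • c,
      fun e => hca (MulAction.injective (t : PGL(2, F)) (e.trans t.2.1.symm)),
      fun e => hg₀b (MulAction.injective (t : PGL(2, F)) (e.trans t.2.2.symm))⟩
    have hinj : Function.Injective φ := by
      intro t t' e
      have e' : (t : PGL(2, F)) • c = (t' : PGL(2, F)) • c := congrArg Subtype.val e
      refine Subtype.ext (inv_mul_eq_one.1 (by_contra fun hne => ?_)).symm
      have hta : ((t' : PGL(2, F))⁻¹ * t) • a = a :=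
        ((stabilizer PGL(2, F) a).mul_mem ((stabilizer PGL(2, F) a).inv_mem t'.2.1) t.2.1 :)
      have htb : ((t' : PGL(2, F))⁻¹ * t) • b = b :=
        ((stabilizer PGL(2, F) b).mul_mem ((stabilizer PGL(2, F) b).inv_mem t'.2.2) t.2.2 :)
      have htc : ((t' : PGL(2, F))⁻¹ * t) • c = c := by rw [mul_smul, e', inv_smul_smul]
      rcases P.pair_inj hne hya.symm (by rw [← inc_smul, hta]) (by rw [← inc_smul, htb])
        (z := inc E c) (by rw [← inc_smul, htc]) with e'' | e''
      · exact hca (inc_injective e'')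
      · exact hg₀b (inc_injective e'')
    have hcard : Nat.card {z : OnePoint F // z ≠ a ∧ z ≠ b} ≤ Nat.card T := by
      classical
      haveI := Fintype.ofFinite (OnePoint F)
      rw [hcardT, Nat.card_eq_fintype_card, Fintype.card_subtype]
      have he : ({z : OnePoint F | z ≠ a ∧ z ≠ b} : Finset (OnePoint F)) = ((Finset.univ.erase a).erase b) := by
        ext z
        simp [and_comm]
      rw [he, Finset.card_erase_of_mem (by simp [hab.symm]), Finset.card_erase_of_mem (Finset.mem_univ a),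
        Finset.card_univ, ← Nat.card_eq_fintype_card, card_onePoint]
      omega
    have hbij := (Nat.bijective_iff_injective_and_card φ).2
      ⟨hinj, le_antisymm (Nat.card_le_card_of_injective φ hinj) hcard⟩
    obtain ⟨t, ht⟩ := hbij.2 ⟨z, hza, hzb⟩
    refine ⟨(t : PGL(2, F)) * g₀, mul_mem (hTH t.2) hg₀, ?_⟩
    rw [mul_smul, ← hc]
    exact congrArg Subtype.val ht
  have hall : stabilizer PGL(2, F) a ≤ H := by
    intro g hg
    obtain ⟨u, hu, hub⟩ := horb (g • b) fun e => hab (MulAction.injective g (hg.trans e.symm))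
    have hmem : u⁻¹ * g ∈ T := ⟨(stabilizer PGL(2, F) a).mul_mem ((stabilizer PGL(2, F) a).inv_mem (ha hu)) hg,
      show (u⁻¹ * g) • b = b by rw [mul_smul, ← hub, inv_smul_smul]⟩
    have := mul_mem hu (hTH hmem)
    rwa [mul_inv_cancel_left] at this
  refine le_antisymm (fun g hg => hall ?_) Subgroup.le_normalizer
  -- `g • a` is fixed by `H`
  have hga : ∀ u ∈ H, u • (g • a) = g • a := fun u hu => by
    have h' : g⁻¹ * u * g ∈ H := by
      have := (Subgroup.mem_normalizer_iff.1 (inv_mem hg) u).1 hu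
      rwa [inv_inv] at this
    have := ha h'
    rwa [mem_stabilizer_iff, mul_smul, mul_smul, inv_smul_eq_iff] at this
  show g • a = a
  by_contra hne
  obtain ⟨u, hu, hub⟩ := horb b hab.symm
  rcases P.pair_inj hh1 hya.symm (hfix h hh) hy (z := inc E (g • a))
    (by rw [← inc_smul, hga h hh]) with e | e
  · exact hne (inc_injective e)
  · exact hg₀b (by have := hga g₀ hg₀; rwa [inc_injective e] at this)

theorem dihedral_case [CharP F 2] (hE : Nat.card E = Fintype.card F ^ 2)
    {H : Subgroup PGL(2, F)} {x y : OnePoint E} (hxy : IsTorusPair F x y) {k : ℕ} (hk : 2 ≤ k)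
    (hT : Nat.card (H ⊓ torus F x y : Subgroup PGL(2, F)) = k) (hH : H ≤ pairStab F x y)
    (hcard : Nat.card H = 2 * k) : Subgroup.normalizer (H : Set PGL(2, F)) = H := by
  haveI : Fact (Nat.Prime 2) := ⟨Nat.prime_two⟩
  have P := poles (E := E) (p := 2) hE
  have heven : Even (Fintype.card F) := by
    rw [Nat.even_iff]
    exact FiniteField.even_card_iff_char_two.mp (ringChar.eq F 2)
  have hodd : Odd (Nat.card (torus F x y)) := by
    have h2 := two_le_card (F := F)
    obtain ⟨m, hm⟩ := heven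
    rcases card_torus_cases hE hxy with h | h <;> rw [h]
    · exact ⟨m - 1, by omega⟩
    · exact ⟨m, by omega⟩
  have hoddo : ∀ c ∈ torus F x y, Odd (orderOf c) := fun c hc =>
    hodd.of_dvd_nat (Subgroup.orderOf_dvd_natCard _ hc)
  obtain ⟨t, ht, ht1⟩ : ∃ t ∈ H ⊓ torus F x y, t ≠ (1 : PGL(2, F)) := by
    refine (H ⊓ torus F x y).bot_or_exists_ne_one.resolve_left fun e => ?_
    rw [e, Subgroup.card_bot] at hT
    omega
  have ht2 : t * t ≠ 1 := fun e => ht1 (by
    have h1 := orderOf_dvd_of_pow_eq_one (show t ^ 2 = 1 by rw [pow_two, e])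
    rcases (Nat.dvd_prime Nat.prime_two).1 h1 with h | h
    · exact orderOf_eq_one_iff.1 h
    · have := hoddo t ht.2
      rw [h] at this
      exact absurd this (by decide))
  obtain ⟨s, hs, hsT⟩ : ∃ s ∈ H, s ∉ torus F x y := by
    by_contra hall
    push Not at hall
    rw [inf_eq_left.2 hall, hcard] at hT
    omega
  have hswap : ∀ s', s' ∈ pairStab F x y → s' ∉ torus F x y → s' • x = y ∧ s' • y = x := fun s' h h' =>
    h.resolve_left fun e => h' ⟨e.1, e.2⟩
  have hsq : ∀ s', s' ∈ pairStab F x y → s' ∉ torus F x y → s' * s' = 1 := fun s' h h' =>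
    P.swap_sq hxy.1 (hswap s' h h').1 (hswap s' h h').2
  refine le_antisymm (fun g hg => ?_) Subgroup.le_normalizer
  have hgN : g ∈ pairStab F x y := by
    have hgt : g * t * g⁻¹ ∈ H := (Subgroup.mem_normalizer_iff.1 hg t).1 ht.1
    have hgtT : g * t * g⁻¹ ∈ torus F x y := by
      by_contra hn
      have e := hsq _ (hH hgt) hn
      refine ht2 ?_
      rw [show g * t * g⁻¹ * (g * t * g⁻¹) = g * (t * t) * g⁻¹ by group] at e
      exact conj_eq_one_iff.1 e
    have hfx : t • (g⁻¹ • x) = g⁻¹ • x := by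
      have := mem_stabilizer_iff.1 hgtT.1
      rw [mul_smul, mul_smul, ← eq_inv_smul_iff] at this
      exact this
    have hfy : t • (g⁻¹ • y) = g⁻¹ • y := by
      have := mem_stabilizer_iff.1 hgtT.2
      rw [mul_smul, mul_smul, ← eq_inv_smul_iff] at this
      exact this
    refine inv_mem_iff.1 ?_
    rcases P.pair_inj ht1 hxy.1 ht.2.1 ht.2.2 hfx with hx | hx
    · rcases P.pair_inj ht1 hxy.1 ht.2.1 ht.2.2 hfy with hy | hy
      · exact absurd (MulAction.injective g⁻¹ (hx.trans hy.symm)) hxy.1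
      · exact Or.inl ⟨hx, hy⟩
    · rcases P.pair_inj ht1 hxy.1 ht.2.1 ht.2.2 hfy with hy | hy
      · exact Or.inr ⟨hx, hy⟩
      · exact absurd (MulAction.injective g⁻¹ (hx.trans hy.symm)) hxy.1
  have key : ∀ c, c ∈ torus F x y → c ∈ Subgroup.normalizer (H : Set PGL(2, F)) → c ∈ H := by
    intro c hc hcN
    have hsc : s * c ∉ torus F x y := fun e => hsT ((Subgroup.mul_mem_cancel_right _ hc).1 e)
    have h1 := hsq s (hH hs) hsT
    have h2 := hsq (s * c) (mul_mem (hH hs) (torus_le_pairStab x y hc)) hsc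
    have hscs : s * c⁻¹ = c * s := by
      have h3 : s * c * s = c⁻¹ := eq_inv_of_mul_eq_one_left (by rw [mul_assoc]; exact h2)
      rw [← h3, ← mul_assoc, ← mul_assoc, h1, one_mul]
    have hmem : c * c * s ∈ H := by
      have h4 := (Subgroup.mem_normalizer_iff.1 hcN s).1 hs
      rwa [mul_assoc c s, hscs, ← mul_assoc] at h4
    have hcc : c ^ 2 ∈ H := by
      rw [pow_two]
      exact (Subgroup.mul_mem_cancel_right H hs).1 hmem
    obtain ⟨m, hm⟩ := exists_pow_eq_self_of_coprime (Nat.coprime_two_left.2 (hoddo c hc))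
    rw [← hm]
    exact pow_mem hcc m
  by_cases hgT : g ∈ torus F x y
  · exact key g hgT hg
  · obtain ⟨g1, g2⟩ := hswap g hgN hgT
    obtain ⟨s1, s2⟩ := hswap s (hH hs) hsT
    have hgs : g * s ∈ torus F x y :=
      ⟨show (g * s) • x = x by rw [mul_smul, s1, g2], show (g * s) • y = y by rw [mul_smul, s2, g1]⟩
    exact (Subgroup.mul_mem_cancel_right H hs).1 (key _ hgs (mul_mem hg (Subgroup.le_normalizer hs)))

theorem self_normalizing [CharP F 2] (hE : Nat.card E = Fintype.card F ^ 2) {n : ℕ}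
    (hF : Fintype.card F = 2 ^ n) (hp : (2 ^ n - 1).Prime) (H : Subgroup PGL(2, F))
    (hH : ¬ IsMulCommutative H) : Subgroup.normalizer (H : Set PGL(2, F)) = H := by
  haveI : Fact (Nat.Prime 2) := ⟨Nat.prime_two⟩
  rcases classify (p := 2) hE H with ⟨a, ha⟩ | ⟨x, y, hxy, hx, ha⟩ | ⟨x, y, hxy, k, hk, -, hT, ha, hcard, -⟩ |
    ⟨h1, -, -⟩ | ⟨h1, -, -⟩ | ⟨h1, -, -⟩ | ⟨K, γ, h1, h2⟩
  · exact borel_case hE (hF.symm ▸ hp) hH ha
  · exact absurd ⟨⟨fun u v => Subtype.ext (stab_nonrat_comm hE hx (ha u.2).1 (ha v.2).1)⟩⟩ hH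
  · exact dihedral_case hE hxy hk hT ha hcard
  · exact absurd (by decide) h1
  · exact absurd (by decide) h1
  · rcases h1 with h | h
    · exact absurd (by decide) h
    · exact absurd h (by decide)
  · obtain ⟨a, ha1, ha⟩ := card_subfield_eq_pow 2 K
    obtain ⟨m, -, hm⟩ := exists_card_pow K
    rw [hF, ha, ← pow_mul] at hm
    have hn : n = a * m := Nat.pow_right_injective le_rfl hm
    have hn1 : n ≠ 1 := fun e => by rw [e] at hp; exact absurd hp (by norm_num)
    have hnp : n.Prime := (Nat.prime_of_pow_sub_one_prime hn1 hp).2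
    have ha2 : a ≠ 1 := fun e => by rw [ha, e] at h1; omega
    have hK : Nat.card K = Fintype.card F := by
      rw [ha, hF, ((hnp.eq_one_or_self_of_dvd a ⟨m, hn⟩).resolve_left ha2)]
    have htop : H = ⊤ := by
      refine Subgroup.eq_top_of_card_eq _ ?_
      rcases card_of_subfield h2 with e | ⟨ho, -⟩
      · rw [e, hK, card_pgl]
      · rw [hK, hF, Nat.odd_pow_iff hnp.ne_zero] at ho
        exact absurd ho (by decide)
    exact le_antisymm (fun g _ => htop ▸ Subgroup.mem_top g) Subgroup.le_normalizer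

end Cfsg.Agent.Lib.LocalChar.SelfNormEven
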